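/-
P27: a solvable group whose conjugacy classes have different sizes is `S₃` (S4162).
Interface (see plans/P27.md) and basic facts on rational groups.
-/
import Cfsg.Agent.P19.M0
import Cfsg.Agent.H3.Taussky
import Cfsg.Agent.H1.EAMod

set_option autoImplicit false
set_option linter.unusedSectionVars false

namespace Cfsg.Agent.P27

open Subgroup Cfsg Cfsg.Agent Cfsg.Agent.FT Module
open scoped commutatorElement

universe u

/-- Rational groups. -/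
def Rat (G : Type*) [Group G] : Prop :=
  ∀ (x : G) (k : ℕ), k.Coprime (orderOf x) → IsConj x (x ^ k)

/-- Elements with centralizers of the same order are conjugate. -/
def AH (G : Type*) [Group G] : Prop := ∀ x y : G, 𝐨(𝐂[x]) = 𝐨(𝐂[y]) → IsConj x y

/-- Traces on the fixed space of `D` are rational. -/
def TRStmt : Prop := ∀ (p : ℕ) [Fact p.Prime] (Γ : Type u) [Group Γ] [Finite Γ] (V : Type u)
  [AddCommGroup V] [Module (ZMod p) V] [Finite V] (ρ : Γ →* End (ZMod p) V), Rat Γ →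
  ¬ p ∣ Nat.card Γ → ∀ (D : Subgroup Γ) (U : Submodule (ZMod p) V),
  (∀ v, v ∈ U ↔ ∀ d ∈ D, ρ d v = v) → ∀ n ∈ 𝐍(D), ∀ k : ℕ, k.Coprime (Nat.card Γ) →
  ∀ (h1 : ∀ v ∈ U, ρ n v ∈ U) (h2 : ∀ v ∈ U, ρ (n ^ k) v ∈ U),
  LinearMap.trace _ _ ((ρ (n ^ k)).restrict h2) = LinearMap.trace _ _ ((ρ n).restrict h1)

/-- The stabilizer of an eigenvector `y` (eigenvalue `≠ ±1`) fixes more than the line of `y`. -/
def D1Stmt : Prop := ∀ (p : ℕ) [Fact p.Prime] (Γ : Type u) [Group Γ] [Finite Γ] (V : Type u)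
  [AddCommGroup V] [Module (ZMod p) V] [Finite V] (ρ : Γ →* End (ZMod p) V), Rat Γ →
  ¬ p ∣ Nat.card Γ → ∀ (y : V) (g : Γ) (c : ZMod p), y ≠ 0 → ρ g y = c • y → c ^ 2 ≠ 1 →
  ∃ v, (∀ d, ρ d y = y → ρ d v = v) ∧ ∀ a : ZMod p, v ≠ a • y

/-- Sharply transitive linear `{2,3}`-groups with rational traces: `SL₂(3)` on `5²`. -/
def LinStmt : Prop := ∀ (p : ℕ) [Fact p.Prime], 5 ≤ p → ∀ (N : Type u) [Group N] [Finite N]
  (U : Type u) [AddCommGroup U] [Module (ZMod p) U] [Finite U] [Nontrivial U]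
  (σ : N →* End (ZMod p) U), (∀ s : ℕ, s.Prime → s ∣ Nat.card N → s ≤ 3) →
  (∀ u u' : U, u ≠ 0 → u' ≠ 0 → ∃ n, σ n u = u') → (∀ n (u : U), u ≠ 0 → σ n u = u → n = 1) →
  (∀ n (k : ℕ), k.Coprime 6 → LinearMap.trace _ _ (σ (n ^ k)) = LinearMap.trace _ _ (σ n)) →
  p = 5 ∧ Nat.card U = 25 ∧ ∃ b : N, orderOf b = 3 ∧ 6 ≤ 𝐨(𝐂[b]) ∧ ¬ IsConj b b⁻¹

/-- The action of `A ≤ C(w)` on the fixed vectors of `w`. -/
def RegStmt : Prop := ∀ (p : ℕ) [Fact p.Prime], 5 ≤ p → ∀ (Γ : Type u) [Group Γ] [Finite Γ]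
  (V : Type u) [AddCommGroup V] [Module (ZMod p) V] [Finite V] (ρ : Γ →* End (ZMod p) V), Rat Γ →
  (∀ s : ℕ, s.Prime → s ∣ Nat.card Γ → s ≤ 3) → ∀ (A : Subgroup Γ) (w : Γ), w ∈ A → A ≤ 𝐂[w] →
  (∃ v, v ≠ 0 ∧ ρ w v = v) →
  (∀ u u' : V, u ≠ 0 → u' ≠ 0 → ρ w u = u → ρ w u' = u' →
    Nat.card {a : A // ρ a u = u} = Nat.card {a : A // ρ a u' = u'} → ∃ a ∈ A, ρ a u = u') →
  p = 5 ∧ 25 ≤ Nat.card {v : V // ρ w v = v} ∧
    (∃ b : Γ, b ≠ 1 ∧ (∃ j, b ^ 3 ^ j = 1) ∧ 6 ≤ 𝐨(𝐂[b])) ∧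
    (Nat.card {v : V // ρ w v = v} = 25 →
      ∃ b ∈ A, (∃ j, b ^ 3 ^ j = 1) ∧ ∀ g ∈ A, g * b * g⁻¹ ≠ b⁻¹)

/-- Sylow `p`-subgroups of solvable rational groups are normal for `p ≥ 5`. -/
def NSStmt : Prop := ∀ (G : Type u) [Group G] [Finite G], Group.IsSolvable G → Rat G →
  ∀ (p : ℕ) [Fact p.Prime], 5 ≤ p → ∀ P : Sylow p G, (P : Subgroup G).Normal

/-- The restrictions on centralizer orders. -/
def Five (G : Type*) [Group G] : Prop :=
  (∀ s : ℕ, s.Prime → s ∣ Nat.card G → s ≤ 5) ∧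
  (∀ x : G, 5 ∣ 𝐨(𝐂[x]) → 25 ∣ 𝐨(𝐂[x]) ∧ ∀ a, 𝐨(𝐂[x]) ≠ 25 * 2 ^ a) ∧
  (∀ x : G, 𝐨(𝐂[x]) = 3 → ¬ 5 ∣ Nat.card G)

def FiveStmt : Prop := ∀ (G : Type u) [Group G] [Finite G], Group.IsSolvable G → AH G → Five G

/-- The class equation as an Egyptian fraction. -/
def EGStmt : Prop := ∀ (G : Type u) [Group G] [Finite G], AH G → ∀ T : Set G,
  (∀ x ∈ T, ∀ g : G, g * x * g⁻¹ ∈ T) →
  ∃ s : Finset ℕ, (∀ n ∈ s, ∃ x ∈ T, 𝐨(𝐂[x]) = n) ∧
    (T.ncard : ℝ) / Nat.card G = ∑ n ∈ s, (1 : ℝ) / n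

/-- No centralizer of order 4. -/
def N4Stmt : Prop := ∀ (G : Type u) [Group G] [Finite G], Group.IsSolvable G → AH G → Five G →
  ∀ x : G, 𝐨(𝐂[x]) ≠ 4

variable {G : Type*} [Group G]

theorem AH.rat [Finite G] (h : AH G) : Rat G := fun x k hk => h _ _ (by
  have e : zpowers (x ^ k) = zpowers x := le_antisymm (zpowers_le.2 (pow_mem (mem_zpowers x) k))
    (zpowers_le.2 (by
      obtain ⟨m, hm⟩ := exists_pow_eq_self_of_coprime hk
      have := pow_mem (mem_zpowers (x ^ k)) m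
      rwa [hm] at this))
  rw [← centralizer_closure, ← zpowers_eq_closure, ← e, zpowers_eq_closure, centralizer_closure])

theorem cop_lift {a b k : ℕ} (hb : b ≠ 0) (hab : a ∣ b) (hk : k.Coprime a) :
    ∃ k' : ℕ, k'.Coprime b ∧ k' ≡ k [MOD a] := by
  have : NeZero b := ⟨hb⟩
  obtain ⟨u, hu⟩ := ZMod.unitsMap_surjective hab (ZMod.unitOfCoprime k hk)
  refine ⟨(u : ZMod b).val, ZMod.val_coe_unit_coprime u, ?_⟩
  have := congrArg (fun x : (ZMod a)ˣ => (x : ZMod a)) hu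
  simp only [ZMod.unitsMap_val, ZMod.coe_unitOfCoprime] at this
  rw [← ZMod.natCast_eq_natCast_iff, ← this, ZMod.cast_eq_val]

theorem Rat.map [Finite G] {H : Type*} [Group H] (h : Rat G) (f : G →* H)
    (hf : Function.Surjective f) : Rat H := fun y k hk => by
  obtain ⟨x, rfl⟩ := hf y
  obtain ⟨k', h1, h2⟩ := cop_lift (orderOf_pos x).ne' (orderOf_map_dvd f x) hk
  rw [← pow_eq_pow_iff_modEq.2 h2, ← map_pow]
  exact f.map_isConj (h x k' h1)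

theorem Rat.quot [Finite G] (h : Rat G) (N : Subgroup G) [N.Normal] : Rat (G ⧸ N) :=
  h.map (QuotientGroup.mk' N) (QuotientGroup.mk'_surjective N)

theorem Rat.card [Finite G] (h : Rat G) (x : G) {k : ℕ} (hk : k.Coprime (Nat.card G)) :
    IsConj x (x ^ k) := h x k (hk.coprime_dvd_right (orderOf_dvd_natCard x))

theorem Rat.inv [Finite G] (h : Rat G) (x : G) : IsConj x x⁻¹ := by
  have hp := orderOf_pos x
  have := h x (orderOf x - 1) (by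
    obtain ⟨m, hm⟩ := Nat.exists_eq_succ_of_ne_zero hp.ne'
    rw [hm]; simp)
  rwa [show x ^ (orderOf x - 1) = x⁻¹ from eq_inv_of_mul_eq_one_left (by
    rw [← pow_succ, Nat.sub_add_cancel hp, pow_orderOf_eq_one])] at this

/-- Conjugacy of products of commuting elements of coprime orders. -/
theorem parts [Finite G] {u v u' v' g : G} (c : Commute u v) (c' : Commute u' v')
    (h1 : (orderOf u).Coprime (orderOf v)) (h2 : (orderOf u).Coprime (orderOf v'))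
    (h3 : (orderOf u').Coprime (orderOf v)) (h4 : (orderOf u').Coprime (orderOf v'))
    (h : g * (u * v) * g⁻¹ = u' * v') : g * u * g⁻¹ = u' ∧ g * v * g⁻¹ = v' := by
  obtain ⟨e, e1, e2⟩ := Nat.chineseRemainder (Nat.Coprime.mul_left (h1.mul_right h2)
    (h3.mul_right h4)) 1 0
  have a1 : ∀ x : G, orderOf x ∣ orderOf u * orderOf u' → x ^ e = x := fun x hx => by
    rw [pow_eq_pow_iff_modEq.2 (e1.of_dvd hx), pow_one]
  have a2 : ∀ x : G, orderOf x ∣ orderOf v * orderOf v' → x ^ e = 1 := fun x hx => by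
    rw [pow_eq_pow_iff_modEq.2 (e2.of_dvd hx), pow_zero]
  have a : g * u * g⁻¹ = u' := by
    have := congrArg (· ^ e) h
    simp only [conj_pow, c.mul_pow, c'.mul_pow] at this
    rwa [a1 u (dvd_mul_right _ _), a1 u' (dvd_mul_left _ _), a2 v (dvd_mul_right _ _),
      a2 v' (dvd_mul_left _ _), mul_one, mul_one] at this
  refine ⟨a, mul_left_cancel (a := u') ?_⟩
  rw [← h, ← a]; group

/-- (R2) `v` is rational in `C(u)`. -/
theorem Rat.cent [Finite G] (h : Rat G) {u v : G} (c : Commute u v)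
    (h1 : (orderOf u).Coprime (orderOf v)) {k : ℕ} (hk : k.Coprime (orderOf v)) :
    ∃ g ∈ 𝐂[u], g * v * g⁻¹ = v ^ k := by
  obtain ⟨e, e1, e2⟩ := Nat.chineseRemainder h1 1 k
  have he : e.Coprime (orderOf (u * v)) := by
    rw [c.orderOf_mul_eq_mul_orderOf_of_coprime h1]
    refine Nat.Coprime.mul_right ?_ ?_
    · rw [Nat.Coprime, e1.gcd_eq, Nat.gcd_one_left]
    · rw [Nat.Coprime, e2.gcd_eq]; exact hk
  obtain ⟨g, hg⟩ := isConj_iff.1 (h _ e he)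
  rw [c.mul_pow, pow_eq_pow_iff_modEq.2 e1, pow_eq_pow_iff_modEq.2 e2, pow_one] at hg
  have h2 := h1.coprime_dvd_right (orderOf_pow_dvd (x := v) k)
  obtain ⟨a, b⟩ := parts c (c.pow_right k) h1 h2 h1 h2 hg
  exact ⟨g, mem_centralizer_singleton_iff.2 (mul_inv_eq_iff_eq_mul.1 a), b⟩

theorem Rat.cent_inv [Finite G] (h : Rat G) {u v : G} (c : Commute u v)
    (h1 : (orderOf u).Coprime (orderOf v)) : ∃ g ∈ 𝐂[u], g * v * g⁻¹ = v⁻¹ := by
  have hp := orderOf_pos v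
  obtain ⟨g, h2, h3⟩ := h.cent c h1 (k := orderOf v - 1) (by
    obtain ⟨m, hm⟩ := Nat.exists_eq_succ_of_ne_zero hp.ne'
    rw [hm]; simp)
  exact ⟨g, h2, h3.trans (eq_inv_of_mul_eq_one_left (by
    rw [← pow_succ, Nat.sub_add_cancel hp, pow_orderOf_eq_one]))⟩

end Cfsg.Agent.P27
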