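/-
P27: the class equation as an Egyptian fraction, and the numerical bounds.
-/
import Cfsg.Agent.P27.Defs
import Cfsg.Agent.H5.Misc

set_option autoImplicit false
set_option linter.unusedSectionVars false

namespace Cfsg.Agent.P27

open Subgroup Cfsg Cfsg.Agent Cfsg.Agent.FT Finset

universe u

theorem card_cent_conj {G : Type*} [Group G] {x y : G} (h : IsConj x y) : 𝐨(𝐂[x]) = 𝐨(𝐂[y]) := by
  obtain ⟨g, rfl⟩ := isConj_iff.1 h
  rw [cent1_conj, card_conj]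

theorem egStmt : EGStmt.{u} := by
  classical
  intro G _ _ h T hT
  have := Fintype.ofFinite G
  refine ⟨T.toFinset.image fun x => 𝐨(𝐂[x]), fun n hn => ?_, ?_⟩
  · obtain ⟨x, hx, rfl⟩ := mem_image.1 hn
    exact ⟨x, Set.mem_toFinset.1 hx, rfl⟩
  rw [Set.ncard_eq_toFinset_card', card_eq_sum_card_image (fun x => 𝐨(𝐂[x])), Nat.cast_sum,
    sum_div]
  refine sum_congr rfl fun n hn => ?_
  obtain ⟨x, hx, rfl⟩ := mem_image.1 hn
  have e : #{a ∈ T.toFinset | 𝐨(𝐂[a]) = 𝐨(𝐂[x])} = (𝐂[x]).index := by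
    rw [← H5.ncard_carrier_eq_index, ← Set.ncard_coe_finset]
    congr 1
    ext y
    simp only [coe_filter, Set.mem_toFinset, Set.mem_setOf_eq, ConjClasses.mem_carrier_iff_mk_eq,
      ConjClasses.mk_eq_mk_iff_isConj]
    refine ⟨fun a => h _ _ a.2, fun a => ⟨?_, card_cent_conj a⟩⟩
    obtain ⟨g, rfl⟩ := isConj_iff.1 a.symm
    exact hT _ (Set.mem_toFinset.1 hx) g
  have h1 := (𝐂[x]).index_mul_card
  have h2 : (𝐨(𝐂[x]) : ℝ) ≠ 0 := Nat.cast_ne_zero.2 Nat.card_pos.ne'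
  have h3 : ((𝐂[x]).index : ℝ) ≠ 0 := Nat.cast_ne_zero.2 index_ne_zero_of_finite
  rw [e, ← h1, Nat.cast_mul]
  field_simp

/-- All prime divisors lie in `P`. -/
def Sm (P : Finset ℕ) (n : ℕ) : Prop := ∀ q : ℕ, q.Prime → q ∣ n → q ∈ P

theorem geo (P : Finset ℕ) (s : Finset ℕ) (c : ℕ) (hc : c ≠ 0)
    (hs : ∀ n ∈ s, ∃ m, Sm P m ∧ n = c * m) :
    ∑ n ∈ s, (1 : ℝ) / n ≤ (∏ p ∈ P with p.Prime, (1 - (p : ℝ)⁻¹)⁻¹) / c := by
  classical
  let f : ℕ →* ℝ := ⟨⟨fun n => (n : ℝ)⁻¹, by simp⟩, fun a b => by simp [mul_comm]⟩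
  have hf : ∀ {p : ℕ}, p.Prime → ‖f p‖ < 1 := fun {p} hp => by
    change ‖(p : ℝ)⁻¹‖ < 1
    rw [norm_inv, Real.norm_natCast]
    exact inv_lt_one_of_one_lt₀ (by exact_mod_cast hp.one_lt)
  have H := (EulerProduct.summable_and_hasSum_factoredNumbers_prod_filter_prime_geometric hf P).2
  choose! g g1 g2 using hs
  let t : Finset (Nat.factoredNumbers P) := (s.image g).subtype _
  have h1 : ∑ m ∈ t, f m ≤ _ :=
    sum_le_hasSum t (fun m _ => show (0 : ℝ) ≤ ((m : ℕ) : ℝ)⁻¹ by positivity) H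
  have h2 : ∑ m ∈ t, f m = ∑ m ∈ s.image g, f m := by
    refine sum_subtype_of_mem _ fun m hm => ?_
    obtain ⟨n, hn, rfl⟩ := mem_image.1 hm
    exact Nat.mem_factoredNumbers'.2 (g1 n hn)
  rw [h2, sum_image fun a ha b hb e => by rw [g2 a ha, g2 b hb, e]] at h1
  have hc' : (0 : ℝ) < c := by positivity
  rw [le_div_iff₀ hc', sum_mul]
  refine le_trans (le_of_eq (sum_congr rfl fun n hn => ?_)) h1
  change _ = ((g n : ℕ) : ℝ)⁻¹
  conv_lhs => rw [g2 n hn]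
  push_cast
  by_cases h0 : (g n : ℝ) = 0
  · simp [h0]
  · field_simp

theorem geo' (P : Finset ℕ) (s e : Finset ℕ) (c : ℕ) (hc : c ≠ 0) (hd : Disjoint s e)
    (hs : ∀ n ∈ s, ∃ m, Sm P m ∧ n = c * m) (he : ∀ n ∈ e, ∃ m, Sm P m ∧ n = c * m) :
    ∑ n ∈ s, (1 : ℝ) / n ≤
      (∏ p ∈ P with p.Prime, (1 - (p : ℝ)⁻¹)⁻¹) / c - ∑ n ∈ e, (1 : ℝ) / n := by
  have := geo P (s ∪ e) c hc fun n hn => (mem_union.1 hn).elim (hs n) (he n)
  rw [sum_union hd] at this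
  linarith

theorem f235 : ({2, 3, 5} : Finset ℕ).filter Nat.Prime = {2, 3, 5} := by decide
theorem f23 : ({2, 3} : Finset ℕ).filter Nat.Prime = {2, 3} := by decide
theorem f35 : ({3, 5} : Finset ℕ).filter Nat.Prime = {3, 5} := by decide
theorem f3 : ({3} : Finset ℕ).filter Nat.Prime = {3} := by decide
theorem f2 : ({2} : Finset ℕ).filter Nat.Prime = {2} := by decide

theorem pr5 {q : ℕ} (hq : q.Prime) (h : q ≤ 5) : q = 2 ∨ q = 3 ∨ q = 5 := by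
  interval_cases q <;> first | omega | (exfalso; revert hq; decide)

theorem sm_of {P : Finset ℕ} {n m : ℕ} (h : ∀ q : ℕ, q.Prime → q ∣ n → q ≤ 5) (hm : m ∣ n)
    (h2 : 2 ∣ m → 2 ∈ P) (h3 : 3 ∣ m → 3 ∈ P) (h5 : 5 ∣ m → 5 ∈ P) : Sm P m := fun q hq hd => by
  rcases pr5 hq (h q hq (hd.trans hm)) with rfl | rfl | rfl
  exacts [h2 hd, h3 hd, h5 hd]

theorem sm_small {P : Finset ℕ} {n : ℕ} (h : n ≤ 4) (h0 : n ≠ 0) (h2 : 2 ∣ n → 2 ∈ P)
    (h3 : 3 ∣ n → 3 ∈ P) : Sm P n :=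
  sm_of (n := n) (fun q _ hd => (Nat.le_of_dvd (by omega) hd).trans (by omega)) dvd_rfl h2 h3
    fun h5 => absurd (Nat.le_of_dvd (by omega) h5) (by omega)

theorem split3 (s : Finset ℕ) (p q : ℕ → Prop) [DecidablePred p] [DecidablePred q] :
    ∑ n ∈ s, (1 : ℝ) / n = ∑ n ∈ s with p n, (1 : ℝ) / n +
      (∑ n ∈ (s.filter fun n => ¬ p n) with q n, (1 : ℝ) / n +
        ∑ n ∈ (s.filter fun n => ¬ p n) with ¬ q n, (1 : ℝ) / n) := by
  rw [sum_filter_add_sum_filter_not, sum_filter_add_sum_filter_not]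

theorem B1 (s : Finset ℕ) (h : ∀ n ∈ s, (∀ q : ℕ, q.Prime → q ∣ n → q ≤ 5) ∧ 4 < n ∧
    (5 ∣ n → 25 ∣ n ∧ ∀ a, n ≠ 25 * 2 ^ a)) : ∑ n ∈ s, (1 : ℝ) / n < 1 := by
  rw [split3 s (fun n => ¬ 5 ∣ n) (fun n => 125 ∣ n)]
  have a1 := geo' {2, 3} (s.filter fun n => ¬ 5 ∣ n) {1, 2, 3, 4} 1 one_ne_zero
    (disjoint_left.2 fun n hn hn' => by
      have := (h n (mem_filter.1 hn).1).2.1
      simp only [mem_insert, mem_singleton] at hn'; omega)
    (fun n hn => ⟨n, sm_of (h n (mem_filter.1 hn).1).1 dvd_rfl (by simp) (by simp)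
      (fun a => absurd a (mem_filter.1 hn).2), (one_mul n).symm⟩)
    (fun n hn => ⟨n, by
      simp only [mem_insert, mem_singleton] at hn
      exact sm_small (by omega) (by omega) (by simp) (by simp), (one_mul n).symm⟩)
  have a2 := geo {2, 3, 5} ((s.filter fun n => ¬ ¬ 5 ∣ n).filter fun n => 125 ∣ n) 125 (by norm_num)
    (fun n hn => by
      obtain ⟨m, rfl⟩ := (mem_filter.1 hn).2
      exact ⟨m, sm_of (h _ (mem_filter.1 (mem_filter.1 hn).1).1).1 (dvd_mul_left _ _) (by simp)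
        (by simp) (by simp), rfl⟩)
  have a3 := geo {2, 3} ((s.filter fun n => ¬ ¬ 5 ∣ n).filter fun n => ¬ 125 ∣ n) 75 (by norm_num)
    (fun n hn => by
      obtain ⟨b1, b2⟩ := mem_filter.1 hn
      obtain ⟨b3, b4⟩ := mem_filter.1 b1
      obtain ⟨c1, c2, c3⟩ := h n b3
      obtain ⟨⟨m, rfl⟩, c4⟩ := c3 (not_not.1 b4)
      have m5 : ¬ 5 ∣ m := fun ⟨k, hk⟩ => b2 ⟨k, by rw [hk]; ring⟩
      have m3 : 3 ∣ m := by
        by_contra m3
        have : m = 2 ^ m.primeFactorsList.length :=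
          Nat.eq_prime_pow_of_unique_prime_dvd (by omega) fun {q} hq hd => by
            simpa using sm_of (P := {2}) c1 (dvd_mul_left m 25) (by simp) (fun a => absurd a m3)
              (fun a => absurd a m5) q hq hd
        exact c4 _ (by rw [← this])
      obtain ⟨k, rfl⟩ := m3
      exact ⟨k, sm_of c1 ⟨75, by ring⟩ (by simp) (by simp)
        (fun a => absurd (a.mul_left 3) m5), by ring⟩)
  rw [f23] at a1 a3
  rw [f235] at a2
  norm_num at a1 a2 a3 ⊢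
  linarith

theorem B2 (s : Finset ℕ) (h : ∀ n ∈ s, (∀ q : ℕ, q.Prime → q ∣ n → q = 2) ∧ 2 < n) :
    ∑ n ∈ s, (1 : ℝ) / n < 1 / 2 := by
  have hs : ∀ n ∈ s, ∃ m, Sm {2} m ∧ n = 4 * m := fun n hn => by
    obtain ⟨a, b⟩ := h n hn
    have e : n = 2 ^ n.primeFactorsList.length :=
      Nat.eq_prime_pow_of_unique_prime_dvd (by omega) fun {q} => a q
    generalize n.primeFactorsList.length = k at e
    subst e
    obtain ⟨j, rfl⟩ : ∃ j, k = j + 2 := ⟨k - 2, by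
      rcases k with _ | _ | k <;> first | omega | simp at b⟩
    exact ⟨2 ^ j, fun q hq hd => by
      simpa using (Nat.prime_dvd_prime_iff_eq hq Nat.prime_two).1 (hq.dvd_of_dvd_pow hd), by ring⟩
  have a := geo' {2} s {4 * 2 ^ (s.sup id)} 4 (by norm_num) (disjoint_singleton_right.2 fun hn => by
      have b1 : 4 * 2 ^ (s.sup id) ≤ s.sup id := le_sup (f := id) hn
      have b2 := Nat.lt_two_pow_self (n := s.sup id)
      omega) hs (fun n hn => ⟨2 ^ s.sup id, fun q hq hd => by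
      simpa using (Nat.prime_dvd_prime_iff_eq hq Nat.prime_two).1 (hq.dvd_of_dvd_pow hd),
      mem_singleton.1 hn⟩)
  rw [f2, sum_singleton, prod_singleton] at a
  have b : (0 : ℝ) < ((2 : ℝ) ^ s.sup id)⁻¹ := by positivity
  norm_num at a ⊢
  linarith

theorem B3 (s : Finset ℕ) (h : ∀ n ∈ s, (∀ q : ℕ, q.Prime → q ∣ n → q ≤ 5) ∧ 2 ∣ n ∧ ¬ 8 ∣ n ∧
    n ≠ 2 ∧ (5 ∣ n → 25 ∣ n)) : ∑ n ∈ s, (1 : ℝ) / n < 3 / 4 := by
  rw [← sum_filter_add_sum_filter_not s (fun n => 4 ∣ n),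
    ← sum_filter_add_sum_filter_not (s.filter fun n => 4 ∣ n) (fun n => 5 ∣ n),
    ← sum_filter_add_sum_filter_not (s.filter fun n => ¬ 4 ∣ n) (fun n => 5 ∣ n)]
  have a1 := geo {3, 5} ((s.filter fun n => 4 ∣ n).filter fun n => 5 ∣ n) 100 (by norm_num)
    (fun n hn => by
      obtain ⟨b1, b2⟩ := mem_filter.1 hn
      obtain ⟨b3, b4⟩ := mem_filter.1 b1
      obtain ⟨c1, c2, c3, c4, c5⟩ := h n b3
      obtain ⟨m, rfl⟩ : 100 ∣ n := by have := c5 b2; omega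
      exact ⟨m, sm_of c1 (dvd_mul_left _ _) (fun a => by omega) (by simp) (by simp), rfl⟩)
  have a2 := geo {3} ((s.filter fun n => 4 ∣ n).filter fun n => ¬ 5 ∣ n) 4 (by norm_num)
    (fun n hn => by
      obtain ⟨b1, b2⟩ := mem_filter.1 hn
      obtain ⟨b3, m, rfl⟩ := mem_filter.1 b1
      obtain ⟨c1, c2, c3, c4, c5⟩ := h _ b3
      exact ⟨m, sm_of c1 (dvd_mul_left _ _) (fun a => by omega) (by simp) (fun a => by omega), rfl⟩)
  have a3 := geo {3, 5} ((s.filter fun n => ¬ 4 ∣ n).filter fun n => 5 ∣ n) 50 (by norm_num)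
    (fun n hn => by
      obtain ⟨b1, b2⟩ := mem_filter.1 hn
      obtain ⟨b3, b4⟩ := mem_filter.1 b1
      obtain ⟨c1, c2, c3, c4, c5⟩ := h n b3
      obtain ⟨m, rfl⟩ : 50 ∣ n := by have := c5 b2; omega
      exact ⟨m, sm_of c1 (dvd_mul_left _ _) (fun a => by omega) (by simp) (by simp), rfl⟩)
  have a4 := geo' {3} ((s.filter fun n => ¬ 4 ∣ n).filter fun n => ¬ 5 ∣ n) {2} 2 (by norm_num)
    (disjoint_singleton_right.2 fun hn => (h _ (mem_filter.1 (mem_filter.1 hn).1).1).2.2.2.1 rfl)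
    (fun n hn => by
      obtain ⟨b1, b2⟩ := mem_filter.1 hn
      obtain ⟨b3, b4⟩ := mem_filter.1 b1
      obtain ⟨c1, ⟨m, rfl⟩, c3, c4, c5⟩ := h n b3
      exact ⟨m, sm_of c1 (dvd_mul_left _ _) (fun a => by omega) (by simp) (fun a => by omega), rfl⟩)
    (fun n hn => ⟨1, sm_small (by omega) (by omega) (by simp) (by simp), by simpa using hn⟩)
  rw [f35] at a1 a3
  rw [f3] at a2 a4
  norm_num at a1 a2 a3 a4 ⊢
  linarith

end Cfsg.Agent.P27
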