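/-
P27: elementary facts on rational groups.
-/
import Cfsg.Agent.P27.EG
import Cfsg.Agent.H8.CentAux
import Cfsg.Agent.L.Invol

set_option autoImplicit false
set_option linter.unusedSectionVars false

namespace Cfsg.Agent.P27

open Subgroup Cfsg Cfsg.Agent Cfsg.Agent.FT
open scoped commutatorElement

variable {G : Type*} [Group G] [Finite G]

theorem Rat.sq (h : Rat G) (g : G) : g * g ∈ _root_.commutator G := by
  obtain ⟨c, hc⟩ := isConj_iff.1 (h.inv g)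
  have : ⁅g, c⁆ ∈ _root_.commutator G := commutator_mem_commutator (mem_top _) (mem_top _)
  rwa [show ⁅g, c⁆ = g * (c * g * c⁻¹)⁻¹ by rw [commutatorElement_def]; group, hc, inv_inv] at this

theorem Rat.pq (h : Rat G) : IsPGroup 2 (G ⧸ _root_.commutator G) := fun g => by
  obtain ⟨g, rfl⟩ := QuotientGroup.mk_surjective g
  exact ⟨1, by
    rw [pow_one, pow_two, ← QuotientGroup.mk_mul, QuotientGroup.eq_one_iff]; exact h.sq g⟩

theorem Rat.odd_mem (h : Rat G) {g : G} (hg : ¬ 2 ∣ orderOf g) : g ∈ _root_.commutator G := by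
  obtain ⟨k, hk⟩ : ∃ k, orderOf g + 1 = k + k := ⟨(orderOf g + 1) / 2, by omega⟩
  have := h.sq (g ^ k)
  rwa [← pow_add, ← hk, pow_succ, pow_orderOf_eq_one, one_mul] at this

theorem ord_dvd_cent (g : G) : orderOf g ∣ 𝐨(𝐂[g]) :=
  (𝐂[g]).orderOf_dvd_natCard (mem_cent1.2 rfl)

theorem idx_le (x : G) : (_root_.commutator G).index ≤ 𝐨(𝐂[x]) := by
  refine le_trans (le_of_eq ?_) (H3.card_centralizer_quot_le (_root_.commutator G) x)
  have : IsMulCommutative (G ⧸ _root_.commutator G) :=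
    Normal.quotient_commutative_iff_commutator_le.2 le_rfl
  rw [show centralizer {QuotientGroup.mk' (_root_.commutator G) x} = ⊤ from
    eq_top_iff.2 fun y _ => mem_centralizer_singleton_iff.2 (mul_comm' _ _), card_top]
  rfl

theorem conj_inv' {g o : G} (h : g * o * g⁻¹ = o⁻¹) : g * o⁻¹ * g⁻¹ = o := by
  rw [← conj_inv, h, inv_inv]

/-- An element inverting `o` can be chosen of `2`-power order. -/
theorem two_elt {L : Subgroup G} {g o : G} (hg : g ∈ L) (h : g * o * g⁻¹ = o⁻¹) (ho : o⁻¹ ≠ o) :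
    ∃ t ∈ L, (∃ k, orderOf t = 2 ^ k) ∧ t * o * t⁻¹ = o⁻¹ := by
  obtain ⟨j, m, hm, e⟩ := Nat.exists_eq_pow_mul_and_not_dvd (orderOf_pos g).ne' 2 (by norm_num)
  refine ⟨g ^ m, pow_mem hg m, ⟨j, ?_⟩, ?_⟩
  · rw [orderOf_pow_of_dvd (by rintro rfl; simp at hm) (e ▸ dvd_mul_left _ _), e,
      Nat.mul_div_cancel _ (Nat.pos_of_ne_zero (by rintro rfl; simp at hm))]
  · obtain ⟨k, rfl⟩ : ∃ k, m = 2 * k + 1 := ⟨m / 2, by omega⟩
    have h2 : Commute (g ^ 2) o := by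
      rw [Commute, SemiconjBy, ← mul_inv_eq_iff_eq_mul]
      calc g ^ 2 * o * (g ^ 2)⁻¹ = g * (g * o * g⁻¹) * g⁻¹ := by simp [sq, mul_assoc]
        _ = o := by rw [h, conj_inv' h]
    have h3 := (h2.pow_left k).inv_right.eq
    calc g ^ (2 * k + 1) * o * (g ^ (2 * k + 1))⁻¹
        = (g ^ 2) ^ k * (g * o * g⁻¹) * ((g ^ 2) ^ k)⁻¹ := by group
      _ = o⁻¹ := by rw [h, h3]; group

theorem inv_ne_of_odd {o : G} (h : ¬ 2 ∣ orderOf o) (h1 : o ≠ 1) : o⁻¹ ≠ o := fun e => by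
  have h2 : orderOf o ∣ 2 := orderOf_dvd_of_pow_eq_one (by rw [sq]; nth_rewrite 1 [← e]; simp)
  rcases (Nat.dvd_prime Nat.prime_two).1 h2 with a | a
  · exact h1 (orderOf_eq_one_iff.1 a)
  · exact h (a ▸ dvd_rfl)

/-- (R4) -/
theorem Rat.two_mul_dvd (h : Rat G) {u o : G} (c : Commute u o)
    (h1 : (orderOf u).Coprime (orderOf o)) (ho : o⁻¹ ≠ o) :
    2 * 𝐨(𝐂[u] ⊓ 𝐂[o]) ∣ 𝐨(𝐂[u]) := by
  obtain ⟨g, hg, e⟩ := h.cent_inv c h1
  obtain ⟨t, ht, ⟨k, hk⟩, e⟩ := two_elt hg e ho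
  have a := H8.dvd_relIndex_of_not_mem Nat.prime_two hk (J := 𝐂[u] ⊓ 𝐂[o]) (X := 𝐂[u])
    (mem_normalizer_fintype fun y hy => mem_inf.2 ⟨mul_mem (mul_mem ht (mem_inf.1 hy).1)
      (inv_mem ht), by
      have b := conj_inv' e
      have b2 := (mem_cent1_iff_commute.1 (mem_inf.1 hy).2).inv_left.eq
      rw [mem_cent1, ← b]
      calc t * o⁻¹ * t⁻¹ * (t * y * t⁻¹) = t * (o⁻¹ * y) * t⁻¹ := by group
        _ = _ := by rw [b2]; group⟩)
    (fun hc => ho (by rw [← e, mem_cent1_iff_conj.1 hc.2])) inf_le_left ht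
  rw [← H1.card_mul_relIndex (inf_le_left : 𝐂[u] ⊓ 𝐂[o] ≤ 𝐂[u]), mul_comm]
  exact Nat.mul_dvd_mul_left _ a

/-- (R3) -/
theorem Rat.mul_tot (h : Rat G) (c : G) : orderOf c * (orderOf c).totient ∣ Nat.card G := by
  have hs : Function.Surjective (zpowers c).normalizerMonoidHom := fun α => by
    obtain ⟨k, hk⟩ := (Submonoid.mem_powers_iff _ _).1
      (mem_powers_iff_mem_zpowers.2 (α ⟨c, mem_zpowers c⟩).2)
    have hco : k.Coprime (orderOf c) := by
      have h2 : orderOf (c ^ k) = orderOf c := by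
        rw [hk, orderOf_coe, MulEquiv.orderOf_eq, ← orderOf_coe]
      rw [orderOf_pow, Nat.div_eq_self] at h2
      rw [Nat.coprime_comm]
      exact h2.resolve_left (orderOf_pos c).ne'
    obtain ⟨g, hg⟩ := isConj_iff.1 (h c k hco)
    have gn : g ∈ 𝐍(zpowers c) := mem_normalizer_fintype fun y hy => by
      obtain ⟨i, rfl⟩ := mem_zpowers_iff.1 hy
      rw [← conj_zpow, hg]
      exact zpow_mem (pow_mem (mem_zpowers c) k) i
    refine ⟨⟨g, gn⟩, MulEquiv.ext fun y => ?_⟩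
    obtain ⟨y, i, rfl⟩ := y
    have e : (⟨c ^ i, i, rfl⟩ : zpowers c) = ⟨c, mem_zpowers c⟩ ^ i := rfl
    change _ = α (⟨c ^ i, i, rfl⟩ : zpowers c)
    rw [e, map_zpow, map_zpow]
    congr 1
    exact Subtype.ext (hg.trans hk)
  have a := (zpowers c).normalizerMonoidHom.ker.index_mul_card
  rw [index_ker, MonoidHom.range_eq_top.2 hs, card_top, IsCyclic.card_mulAut, Nat.card_zpowers,
    normalizerMonoidHom_ker, Nat.card_congr (subgroupOfEquivOfLe (cent_le_norm _)).toEquiv] at a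
  refine Dvd.dvd.trans ?_ (card_subgroup_dvd_card 𝐍(zpowers c))
  rw [← a, mul_comm]
  refine Nat.mul_dvd_mul_left _ ((𝐂(zpowers c)).orderOf_dvd_natCard ?_)
  exact fun y hy => by
    obtain ⟨i, rfl⟩ := mem_zpowers_iff.1 hy
    exact (Commute.zpow_self c i).eq

theorem cent_ne_two (h4 : 4 ∣ Nat.card G) (y : G) : 𝐨(𝐂[y]) ≠ 2 := fun h => by
  have p2 := Nat.prime_two
  have := Fact.mk p2
  have hp : IsPGroup 2 𝐂[y] := IsPGroup.of_card (n := 1) (by simpa using h)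
  obtain ⟨Q, hQ, hle⟩ := exists_isSyl_ge p2 hp le_top
  have yQ : y ∈ Q := hle (mem_cent1.2 rfl)
  have q4 : 4 ∣ 𝐨(Q) := by
    rw [hQ.card_eq_pow_factorization p2, card_top]
    exact pow_dvd_pow 2 ((p2.pow_dvd_iff_le_factorization Nat.card_pos.ne').1 (show 2 ^ 2 ∣ _ from h4))
  have Q0 : Q ≠ ⊥ := by rintro rfl; simp at q4
  have y1 : y ≠ 1 := by
    rintro rfl
    rw [show 𝐂[(1 : G)] = ⊤ from eq_top_iff.2 fun g _ => mem_cent1.2 (Commute.one_left g),
      card_top] at h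
    omega
  obtain ⟨⟨z, hz⟩, z1⟩ := ne_bot_iff_exists_ne_one.1 (inf_center_ne_bot hQ.pgrp.isNilpotent
    (N := Q) ⟨le_rfl, le_normalizer⟩ Q0)
  have zc : z ∈ 𝐂[y] := mem_cent1.2 (hz.2 y yQ)
  obtain ⟨w, -, hw⟩ := (Nat.card_eq_two_iff' (1 : 𝐂[y])).1 h
  have e : z = y := congrArg Subtype.val ((hw ⟨z, zc⟩ fun e => z1 (Subtype.ext
    (congrArg (fun x : 𝐂[y] => x.1) e))).trans (hw ⟨y, mem_cent1.2 rfl⟩ fun e =>
      y1 (congrArg Subtype.val e)).symm)
  have := Subgroup.card_dvd_of_le (show Q ≤ 𝐂[y] from fun g hg =>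
    mem_cent1.2 (e ▸ (hz.2 g hg).symm))
  rw [h] at this
  have := Nat.le_of_dvd two_pos (q4.trans this)
  omega

/-- A fixed point free automorphism of order two inverts. -/
theorem inv_fpf {A : Subgroup G} {w : G} (hn : w ∈ 𝐍(A)) (hw : w * w ∈ 𝐂(A))
    (hf : ∀ a ∈ A, Commute w a → a = 1) : ∀ a ∈ A, w * a * w⁻¹ = a⁻¹ := by
  let φ : A →* A := ((A.normalizerMonoidHom ⟨w, hn⟩ : MulAut A) : A →* A)
  have hφ : ∀ a : A, (φ a : G) = w * a * w⁻¹ := fun a => rfl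
  have h1 : MonoidHom.FixedPointFree φ := fun a ha => Subtype.ext (hf a a.2 (by
    have := congrArg Subtype.val ha
    rw [hφ] at this
    exact mul_inv_eq_iff_eq_mul.1 this))
  have h2 : Function.Involutive φ := fun a => Subtype.ext (by
    rw [hφ, hφ]
    calc w * (w * a * w⁻¹) * w⁻¹ = w * w * a * (w * w)⁻¹ := by group
      _ = a := by rw [← hw a a.2, mul_inv_cancel_right])
  intro a ha
  exact congrArg Subtype.val (congrFun (h1.coe_eq_inv_of_involutive h2) ⟨a, ha⟩)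

theorem four_dvd {L : Subgroup G} {a z : G} (ha : orderOf a = 2) (hz : orderOf z = 2) (e : a ≠ z)
    (c : Commute a z) (aL : a ∈ L) (zL : z ∈ L) : 4 ∣ 𝐨(L) := by
  classical
  have h := H8.dvd_relIndex_of_not_mem Nat.prime_two (k := 1) ha (J := zpowers z) (X := L)
    (cent_le_norm _ fun y hy => by
      obtain ⟨i, rfl⟩ := mem_zpowers_iff.1 hy
      exact (c.symm.zpow_left i).eq)
    (fun hc => by
      rw [mem_zpowers_iff_mem_range_orderOf, hz] at hc
      simp only [Finset.mem_image, Finset.mem_range] at hc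
      obtain ⟨i, hi, rfl⟩ := hc
      interval_cases i
      · simp at ha
      · simp at e) (zpowers_le.2 zL) aL
  rw [← H1.card_mul_relIndex (zpowers_le.2 zL), Nat.card_zpowers, hz]
  exact Nat.mul_dvd_mul_left 2 h

end Cfsg.Agent.P27
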