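/-
P27, chapter Five: the restrictions on centralizer orders.
-/
import Cfsg.Agent.P27.Defs
import Cfsg.Agent.H1.PExp
import Cfsg.Agent.H8.PComplement

set_option autoImplicit false
set_option linter.unusedSectionVars false

namespace Cfsg.Agent.P27

open Subgroup Cfsg Cfsg.Agent Cfsg.Agent.FT Module
open scoped commutatorElement IsMulCommutative

universe u

namespace Fv

variable {G : Type u} [Group G] [Finite G]

theorem mem_syl {p : ℕ} [Fact p.Prime] (P : Sylow p G) (hP : (P : Subgroup G).Normal) {y : G}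
    {k : ℕ} (hy : orderOf y = p ^ k) : y ∈ (P : Subgroup G) := by
  have h1 : IsPGroup p (zpowers y) := IsPGroup.of_card (by rw [Nat.card_zpowers, hy])
  obtain ⟨Q, hQ⟩ := h1.exists_le_sylow
  obtain ⟨g, rfl⟩ := MulAction.exists_smul_eq G P Q
  rw [Sylow.smul_eq_of_normal] at hQ
  exact hQ (mem_zpowers y)

theorem cent_mul {u v : G} (c : Commute u v) (h : (orderOf u).Coprime (orderOf v)) :
    𝐂[u * v] = 𝐂[u] ⊓ 𝐂[v] := by
  ext g
  simp only [mem_inf, mem_centralizer_singleton_iff]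
  constructor
  · intro hg
    obtain ⟨a, b⟩ := parts (g := g) c c h h h h (by rw [hg]; group)
    exact ⟨mul_inv_eq_iff_eq_mul.1 a, mul_inv_eq_iff_eq_mul.1 b⟩
  · rintro ⟨a, b⟩
    rw [← mul_assoc, a, mul_assoc, b, mul_assoc]

/-- the section carrying the fixed points of `w` -/
theorem sect {p : ℕ} [hp : Fact p.Prime] (P : Subgroup G) [P.Normal] (hP : IsPGroup p P) {w : G}
    (hne : P ⊓ 𝐂[w] ≠ ⊥) :
    ∃ (N : Subgroup G) (_ : N.Normal) (E : Subgroup (G ⧸ N)) (_ : E.Normal),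
      N ⊓ 𝐂[w] = ⊥ ∧ IsElementaryAbelian p E ∧ E.comap (QuotientGroup.mk' N) ≤ P ∧
      P.map (QuotientGroup.mk' N) ≤ 𝐂(E) ∧ E.comap (QuotientGroup.mk' N) ⊓ 𝐂[w] ≠ ⊥ := by
  obtain ⟨N, -, hN⟩ := Finite.exists_le_maximal
    (p := fun N : Subgroup G => N.Normal ∧ N ≤ P ∧ N ⊓ 𝐂[w] = ⊥) (a := ⊥)
    ⟨inferInstance, bot_le, bot_inf_eq _⟩
  obtain ⟨n1, n2, n3⟩ := hN.prop
  have hn : (P.map (QuotientGroup.mk' N)).Normal := Normal.map inferInstance _
    (QuotientGroup.mk'_surjective N)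
  have hb : P.map (QuotientGroup.mk' N) ≠ ⊥ := fun e => hne (by
    rw [Subgroup.map_eq_bot_iff, QuotientGroup.ker_mk'] at e
    exact eq_bot_iff.2 (n3 ▸ inf_le_inf_right _ e))
  obtain ⟨E, hE, hle⟩ := L.exists_isMinNormal_le _ hb
  have pP : IsPGroup p (P.map (QuotientGroup.mk' N)) := hP.map _
  have nE : E.Normal := hE.1
  have hR : E.comap (QuotientGroup.mk' N) ≤ P := by
    refine (comap_mono hle).trans ?_
    rw [comap_map_eq, QuotientGroup.ker_mk', sup_eq_left.2 n2]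
  refine ⟨N, n1, E, nE, n3, hE.isElementaryAbelian_of_isPGroup hp.out (pP.to_le hle), hR,
    (L.le_fittingSubgroup hn pP.isNilpotent).trans hE.fittingSubgroup_le_centralizer,
    fun e => hE.2.1 ?_⟩
  have h1 : N ≤ E.comap (QuotientGroup.mk' N) := fun x hx => by
    rw [mem_comap, QuotientGroup.mk'_apply, (QuotientGroup.eq_one_iff x).2 hx]; exact one_mem _
  have h2 := hN.le_of_ge (y := E.comap (QuotientGroup.mk' N)) ⟨inferInstance, hR, e⟩ h1
  rw [← map_comap_eq_self_of_surjective (QuotientGroup.mk'_surjective N) E, Subgroup.map_eq_bot_iff,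
    QuotientGroup.ker_mk']
  exact h2

theorem key (NS : NSStmt.{u}) (Reg : RegStmt.{u}) (hs : Group.IsSolvable G) (h : AH G) {p : ℕ}
    [hp : Fact p.Prime] (h5 : 5 ≤ p) (P : Sylow p G) {w : G} (hw : (orderOf w).Coprime p)
    (hne : (P : Subgroup G) ⊓ 𝐂[w] ≠ ⊥) :
    p = 5 ∧ ∃ T : Subgroup G, IsPGroup p T ∧ T ≤ 𝐂((P : Subgroup G) ⊓ 𝐂[w]) ∧ T ≤ 𝐂[w] ∧
      25 ≤ 𝐨(T) ∧ (∃ b : G, b ≠ 1 ∧ (∃ j, b ^ 3 ^ j = 1) ∧ 6 ≤ 𝐨(𝐂[b])) ∧
      (𝐨(T) = 25 → ∃ b ∈ 𝐂[w], (∃ j, b ^ 3 ^ j = 1) ∧ ∀ g ∈ 𝐂[w], g * b * g⁻¹ ≠ b⁻¹) := by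
  have hr := h.rat
  have nP := NS G hs hr p h5 P
  obtain ⟨N, nN, E, nE, n3, hE, hR, hPE, hT⟩ := sect (P : Subgroup G) P.2 hne
  set π := QuotientGroup.mk' N with hπ
  set R := E.comap π with hRd
  have := hE.1
  have he := H1.pow_eq_one_of_isElementaryAbelian hE
  let φ : G →* MulAut E := (MulAut.conjNormal (H := E)).comp π
  have hφ : ∀ (g : G) (v : E), ((φ g v : E) : G ⧸ N) = π g * v * (π g)⁻¹ := fun g v => rfl
  let ρ : G ⧸ φ.ker →* End (ZMod p) (H1.EA E he) := H1.autRep he (QuotientGroup.kerLift φ)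
  set μ := QuotientGroup.mk' φ.ker with hμ
  have hρ : ∀ (g : G) (v : E), ρ (μ g) (H1.eaOf he v) = H1.eaOf he (φ g v) := fun g v => rfl
  have pR : IsPGroup p R := P.2.to_le hR
  have triv : ∀ x ∈ 𝐂[w], π x = 1 → x = 1 := fun x hx e => by
    have : x ∈ N ⊓ 𝐂[w] := ⟨(QuotientGroup.eq_one_iff x).1 e, hx⟩
    rwa [n3, mem_bot] at this
  have inj : ∀ x ∈ 𝐂[w], ∀ y ∈ 𝐂[w], π x = π y → x = y := fun x hx y hy e =>
    mul_inv_eq_one.1 (triv _ (mul_mem hx (inv_mem hy)) (by rw [map_mul, map_inv, e, mul_inv_cancel]))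
  -- the primes of `Γ`
  have hpr : ∀ s : ℕ, s.Prime → s ∣ Nat.card (G ⧸ φ.ker) → s ≤ 3 := fun s hs' hd => by
    by_contra hc
    have s5 : 5 ≤ s := by
      have : s ≠ 4 := fun e => by rw [e] at hs'; norm_num at hs'
      omega
    have : Fact s.Prime := ⟨hs'⟩
    obtain ⟨Q⟩ := (inferInstance : Nonempty (Sylow s G))
    have nQ := NS G hs hr s s5 Q
    have hQ : (Q : Subgroup G) ≤ φ.ker := fun x hx => by
      rw [MonoidHom.mem_ker]
      ext v
      rw [hφ, MulAut.one_apply, mul_inv_eq_iff_eq_mul]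
      by_cases e : s = p
      · subst e
        have hx' : x ∈ (P : Subgroup G) := by
          obtain ⟨k, hk⟩ := IsPGroup.iff_orderOf.1 Q.2 ⟨x, hx⟩
          exact mem_syl P nP (k := k) (by rw [← hk, orderOf_mk])
        exact (hPE ⟨x, hx', rfl⟩ v v.2).symm
      · obtain ⟨r, hr'⟩ := QuotientGroup.mk'_surjective N (v : G ⧸ N)
        have hrP : r ∈ (P : Subgroup G) := hR (by rw [hRd, mem_comap, hr']; exact v.2)
        have := commute_of_normal_of_disjoint _ _ nQ nP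
          (IsPGroup.disjoint_of_ne s p e _ _ Q.2 P.2) x r hx hrP
        rw [← hr', ← map_mul, ← map_mul, this.eq]
    exact Q.not_dvd_index (hd.trans (index_dvd_of_le hQ))
  -- the fixed vectors
  have fixT : ∀ t (ht : t ∈ R ⊓ 𝐂[w]), ρ (μ w) (H1.eaOf he ⟨π t, ht.1⟩) = H1.eaOf he ⟨π t, ht.1⟩ :=
    fun t ht => by
      rw [hρ]; congr 1; ext
      rw [hφ, ← map_mul, ← map_inv, ← map_mul, ← mem_centralizer_singleton_iff.1 ht.2]
      simp
  have lift : ∀ v, ρ (μ w) v = v → ∃ t, ∃ ht : t ∈ R ⊓ 𝐂[w], v = H1.eaOf he ⟨π t, ht.1⟩ := by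
    intro v hv
    obtain ⟨v, rfl⟩ := (H1.eaOf he).surjective v
    rw [hρ] at hv
    have h1 := congrArg Subtype.val ((H1.eaOf he).injective hv)
    rw [hφ] at h1
    have h2 := H1.map_inf_centralizer_map π (A := zpowers w) (G := R) (le_normalizer_of_normal)
      (by
        obtain ⟨k, hk⟩ := IsPGroup.iff_card.1 pR
        rw [hk, Nat.card_zpowers]; exact hw.pow_right k)
      (Or.inl inferInstance)
    have h3 : (v : G ⧸ N) ∈ R.map π ⊓ 𝐂((zpowers w).map π) := by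
      refine ⟨by rw [hRd, map_comap_eq_self_of_surjective (QuotientGroup.mk'_surjective N)]; exact v.2,
        ?_⟩
      rw [MonoidHom.map_zpowers, zpowers_eq_closure, centralizer_closure]
      exact mem_centralizer_singleton_iff.2 (mul_inv_eq_iff_eq_mul.1 h1).symm
    rw [h2, zpowers_eq_closure, centralizer_closure] at h3
    obtain ⟨t, ht, e⟩ := h3
    exact ⟨t, ht, congrArg _ (Subtype.ext e.symm)⟩
  have cardT : Nat.card {v // ρ (μ w) v = v} = 𝐨(R ⊓ 𝐂[w]) := by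
    symm
    refine Nat.card_congr (Equiv.ofBijective (fun t => ⟨_, fixT t.1 t.2⟩) ⟨fun a b e => ?_, ?_⟩)
    · have := congrArg Subtype.val ((H1.eaOf he).injective (congrArg Subtype.val e))
      exact Subtype.ext (inj _ a.2.2 _ b.2.2 this)
    · rintro ⟨v, hv⟩
      obtain ⟨t, ht, rfl⟩ := lift v hv
      exact ⟨⟨t, ht⟩, rfl⟩
  let f : 𝐂[w] →* G ⧸ φ.ker := μ.comp (𝐂[w]).subtype
  have stab : ∀ t (ht : t ∈ R ⊓ 𝐂[w]), 𝐨(𝐂[w * t]) * 𝐨(f.range) =
      Nat.card {a : f.range // ρ a (H1.eaOf he ⟨π t, ht.1⟩) = H1.eaOf he ⟨π t, ht.1⟩} *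
        𝐨(𝐂[w]) := by
    intro t ht
    let S : Subgroup (G ⧸ φ.ker) :=
      { carrier := {a | ρ a (H1.eaOf he ⟨π t, ht.1⟩) = H1.eaOf he ⟨π t, ht.1⟩}
        one_mem' := by simp
        mul_mem' := fun {a b} ha hb => by
          simp only [Set.mem_ofPred_eq] at ha hb ⊢
          rw [map_mul, End.mul_apply, hb, ha]
        inv_mem' := fun {a} ha => by
          simp only [Set.mem_ofPred_eq] at ha ⊢
          conv_lhs => rw [← ha, ← End.mul_apply, ← map_mul, inv_mul_cancel, map_one, End.one_apply] }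
    have e1 : S.comap f = (𝐂[t]).subgroupOf 𝐂[w] := by
      ext c
      rw [mem_comap, mem_subgroupOf, mem_centralizer_singleton_iff]
      change ρ (μ c) _ = _ ↔ _
      rw [hρ, (H1.eaOf he).injective.eq_iff, Subtype.ext_iff, hφ, ← map_mul, ← map_inv, ← map_mul,
        ← mul_inv_eq_iff_eq_mul]
      exact ⟨inj _ (mul_mem (mul_mem c.2 ht.2) (inv_mem c.2)) _ ht.2, fun e => by rw [e]⟩
    have e2 := index_comap S f
    have e3 := (S.subgroupOf f.range).card_mul_index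
    have e4 := (S.comap f).card_mul_index
    have e5 : 𝐨(𝐂[w * t]) = 𝐨(S.comap f) := by
      obtain ⟨k, hk⟩ := IsPGroup.iff_orderOf.1 pR ⟨t, ht.1⟩
      rw [cent_mul (mem_centralizer_singleton_iff.1 ht.2).symm
        (by rw [← orderOf_mk (ha := ht.1), hk]; exact hw.pow_right k), e1, inf_comm,
        ← inf_subgroupOf_right]
      exact (Nat.card_congr (subgroupOfEquivOfLe inf_le_right).toEquiv).symm
    change _ = 𝐨(S.subgroupOf f.range) * _
    rw [e5, ← e3, ← e4, e2, relIndex]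
    ring
  obtain ⟨c1, c2, ⟨b, b1, ⟨j, b2⟩, b3⟩, c4⟩ := Reg p h5 (G ⧸ φ.ker) (H1.EA E he) ρ (hr.quot _) hpr
    f.range (μ w) ⟨⟨w, mem_centralizer_singleton_iff.2 rfl⟩, rfl⟩
    (by
      rintro _ ⟨c, rfl⟩
      refine mem_centralizer_singleton_iff.2 ?_
      change μ c * μ w = μ w * μ c
      rw [← map_mul, ← map_mul, mem_centralizer_singleton_iff.1 c.2])
    (by
      obtain ⟨⟨t, ht⟩, t1⟩ := ne_bot_iff_exists_ne_one.1 hT
      refine ⟨_, fun e => t1 (Subtype.ext (triv t ht.2 ?_)), fixT t ht⟩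
      exact congrArg Subtype.val ((H1.eaOf_eq_zero he).1 e))
    (by
      intro v v' _ _ hv hv' e
      obtain ⟨t, ht, rfl⟩ := lift v hv
      obtain ⟨t', ht', rfl⟩ := lift v' hv'
      have e1 := stab t ht
      rw [e, ← stab t' ht'] at e1
      obtain ⟨g, hg⟩ := isConj_iff.1 (h _ _ (Nat.eq_of_mul_eq_mul_right Nat.card_pos e1))
      obtain ⟨k, hk⟩ := IsPGroup.iff_orderOf.1 pR ⟨t, ht.1⟩
      obtain ⟨k', hk'⟩ := IsPGroup.iff_orderOf.1 pR ⟨t', ht'.1⟩
      have o1 : (orderOf w).Coprime (orderOf t) := by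
        rw [← orderOf_mk (ha := ht.1), hk]; exact hw.pow_right k
      have o2 : (orderOf w).Coprime (orderOf t') := by
        rw [← orderOf_mk (ha := ht'.1), hk']; exact hw.pow_right k'
      obtain ⟨a1, a2⟩ := parts (mem_centralizer_singleton_iff.1 ht.2).symm
        (mem_centralizer_singleton_iff.1 ht'.2).symm o1 o2 o1 o2 hg
      refine ⟨μ g, ⟨⟨g, mem_centralizer_singleton_iff.2 (mul_inv_eq_iff_eq_mul.1 a1)⟩, rfl⟩, ?_⟩
      rw [hρ]; congr 1; ext
      rw [hφ, ← map_mul, ← map_inv, ← map_mul, a2])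
  rw [cardT] at c2 c4
  refine ⟨c1, R ⊓ 𝐂[w], pR.to_le inf_le_left, fun t ht x hx => ?_, inf_le_right, c2, ?_,
    fun e => ?_⟩
  · refine inj _ (mul_mem hx.2 ht.2) _ (mul_mem ht.2 hx.2) ?_
    rw [map_mul, map_mul]
    exact (hPE ⟨x, hx.1, rfl⟩ _ ht.1).symm
  · obtain ⟨x, rfl, hx⟩ := H1.exists_lift_pElement (QuotientGroup.mk'_surjective φ.ker)
      Nat.prime_three b2
    exact ⟨x, fun e => b1 (by rw [e, map_one]), hx, b3.trans (H3.card_centralizer_quot_le _ x)⟩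
  · obtain ⟨b, hb, ⟨j, b2⟩, b3⟩ := c4 e
    obtain ⟨x, hx, l, hl⟩ := H1.exists_lift_pElement f.rangeRestrict_surjective Nat.prime_three
      (y := ⟨b, hb⟩) (k := j) (Subtype.ext b2)
    have hx' : μ x = b := congrArg Subtype.val hx
    refine ⟨x, x.2, ⟨l, congrArg Subtype.val hl⟩, fun g hg e => b3 (μ g) ⟨⟨g, hg⟩, rfl⟩ ?_⟩
    rw [← hx', ← map_mul, ← map_inv, ← map_mul, e, map_inv]

theorem inf_ne {p : ℕ} [hp : Fact p.Prime] (P : Sylow p G) (nP : (P : Subgroup G).Normal)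
    {K : Subgroup G} (hd : p ∣ 𝐨(K)) : (P : Subgroup G) ⊓ K ≠ ⊥ := by
  obtain ⟨y, hy⟩ := exists_prime_orderOf_dvd_card' p hd
  have o : orderOf (y : G) = p ^ 1 := by rw [pow_one, orderOf_coe, hy]
  intro e
  have : (y : G) ∈ (P : Subgroup G) ⊓ K := ⟨mem_syl P nP o, y.2⟩
  rw [e, mem_bot] at this
  rw [this, orderOf_one, pow_one] at o
  exact hp.out.one_lt.ne o

theorem three {x b : G} (hx : 𝐨(𝐂[x]) = 3) (b1 : b ≠ 1) {j : ℕ} (b2 : b ^ 3 ^ j = 1) :
    𝐨(𝐂[b]) ≤ 3 := by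
  have : Fact (Nat.Prime 3) := ⟨Nat.prime_three⟩
  have pb : IsPGroup 3 (zpowers b) := H1.isPGroup_zpowers_of_pow_eq_one b2
  have px : IsPGroup 3 (𝐂[x]) := IsPGroup.of_card (n := 1) (by rw [hx, pow_one])
  obtain ⟨S, hS⟩ := px.exists_le_sylow
  obtain ⟨Q, hQ⟩ := pb.exists_le_sylow
  obtain ⟨g, rfl⟩ := MulAction.exists_smul_eq G Q S
  have hb : g * b * g⁻¹ ∈ (g • Q : Sylow 3 G) := by
    rw [← SetLike.mem_coe, Sylow.coe_smul]
    exact ⟨b, hQ (mem_zpowers b), rfl⟩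
  set S := g • Q
  set c := g * b * g⁻¹ with hc
  have c1 : c ≠ 1 := fun e => b1 (by rw [hc] at e; simpa using e)
  have hx0 : x ∈ 𝐂[x] := mem_centralizer_singleton_iff.2 rfl
  have gen : ∀ z ∈ 𝐂[x], z ≠ 1 → x ∈ zpowers z := fun z hz z1 => by
    have := (mem_zpowers_of_prime_card (p := 3) hx (g := ⟨z, hz⟩) (fun e => z1 (congrArg Subtype.val e))
      : (⟨x, hx0⟩ : 𝐂[x]) ∈ _)
    obtain ⟨k, hk⟩ := this
    exact ⟨k, congrArg Subtype.val hk⟩
  have : Nontrivial S := ⟨⟨⟨c, hb⟩, 1, fun e => c1 (congrArg Subtype.val e)⟩⟩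
  have := S.2.center_nontrivial
  obtain ⟨z, z1⟩ := exists_ne (1 : center S)
  have zc : ∀ s ∈ S, s * (z : S) = (z : S) * s := fun s hs =>
    congrArg Subtype.val (mem_center_iff.1 z.2 ⟨s, hs⟩)
  obtain ⟨k, hk⟩ := gen ((z : S) : G) (mem_centralizer_singleton_iff.2 (zc x (hS hx0)).symm)
    (fun e => z1 (Subtype.ext (Subtype.ext e)))
  have hc2 : c ∈ 𝐂[x] := mem_centralizer_singleton_iff.2 (by
    rw [← hk]; exact ((show Commute c _ from zc c hb).zpow_right k).eq)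
  obtain ⟨l, hl⟩ := gen c hc2 c1
  have le : 𝐂[c] ≤ 𝐂[x] := fun y hy => mem_centralizer_singleton_iff.2 (by
    rw [← hl]; exact ((show Commute y c from mem_centralizer_singleton_iff.1 hy).zpow_right l).eq)
  have e : 𝐨(𝐂[b]) = 𝐨(𝐂[c]) := by
    refine Nat.card_congr ⟨fun y => ⟨g * y * g⁻¹, ?_⟩, fun y => ⟨g⁻¹ * y * g, ?_⟩,
      fun y => Subtype.ext (by simp [mul_assoc]), fun y => Subtype.ext (by simp [mul_assoc])⟩
    · have := mem_centralizer_singleton_iff.1 y.2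
      refine mem_centralizer_singleton_iff.2 ?_
      calc _ = g * (y * b) * g⁻¹ := by rw [hc]; group
        _ = _ := by rw [this, hc]; group
    · have := mem_centralizer_singleton_iff.1 y.2
      refine mem_centralizer_singleton_iff.2 ?_
      generalize (y : G) = y' at this
      calc _ = g⁻¹ * (y' * c) * g := by rw [hc]; group
        _ = _ := by rw [this, hc]; group
  rw [e, ← hx]
  exact card_le_of_le le

end Fv

theorem fiveStmt (NS : NSStmt.{u}) (Reg : RegStmt.{u}) : FiveStmt.{u} := by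
  intro G _ _ hs h
  have one : ∀ (p : ℕ) [Fact p.Prime], 5 ≤ p → p ∣ Nat.card G → p = 5 ∧
      ∃ b : G, b ≠ 1 ∧ (∃ j, b ^ 3 ^ j = 1) ∧ 6 ≤ 𝐨(𝐂[b]) := fun p _ h5 hd => by
    obtain ⟨P⟩ := (inferInstance : Nonempty (Sylow p G))
    obtain ⟨a, T, -, -, -, -, b, -⟩ := Fv.key NS Reg hs h h5 P (w := 1) (by simp)
      (Fv.inf_ne P (NS G hs h.rat p h5 P) (by
        rwa [show 𝐂[(1 : G)] = ⊤ from eq_top_iff.2 fun x _ =>
          mem_centralizer_singleton_iff.2 (by simp), card_top]))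
    exact ⟨a, b⟩
  have : Fact (Nat.Prime 5) := ⟨Nat.prime_five⟩
  refine ⟨fun s hs' hd => ?_, fun x hx => ?_, fun x hx hd => ?_⟩
  · by_contra hc
    have : Fact s.Prime := ⟨hs'⟩
    have := (one s (by omega) hd).1
    omega
  · obtain ⟨P⟩ := (inferInstance : Nonempty (Sylow 5 G))
    have nP := NS G hs h.rat 5 le_rfl P
    obtain ⟨y, w, hy, hw, e, c, ⟨k, ok⟩, ow⟩ := H8.exists_pPart_pPrimePart Nat.prime_five x
    have hxw : 𝐂[x] ≤ 𝐂[w] := fun g hg => by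
      obtain ⟨l, rfl⟩ := hw
      exact mem_centralizer_singleton_iff.2
        ((show Commute g x from mem_centralizer_singleton_iff.1 hg).zpow_right l).eq
    obtain ⟨-, T, pT, t1, t2, t3, -, t4⟩ := Fv.key NS Reg hs h le_rfl P ow
      (Fv.inf_ne P nP (hx.trans (Subgroup.card_dvd_of_le hxw)))
    have hT : T ≤ 𝐂[x] := fun t ht => by
      have a := t1 ht y ⟨Fv.mem_syl P nP ok, mem_centralizer_singleton_iff.2 c.eq⟩
      have b := mem_centralizer_singleton_iff.1 (t2 ht)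
      refine mem_centralizer_singleton_iff.2 ?_
      rw [e, ← mul_assoc, ← a, mul_assoc, b, mul_assoc]
    obtain ⟨n, hn⟩ := IsPGroup.iff_card.1 pT
    have d := Subgroup.card_dvd_of_le hT
    have n2 : 2 ≤ n := by
      by_contra hc
      rw [hn] at t3
      interval_cases n <;> omega
    refine ⟨(show 25 ∣ 𝐨(T) by rw [hn]; exact pow_dvd_pow 5 n2).trans d, fun a ea => ?_⟩
    rw [ea] at d
    have n3 : n = 2 := by
      rw [hn] at d
      have := (Nat.pow_dvd_pow_iff_le_right (by norm_num : 1 < 5)).1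
        (show 5 ^ n ∣ 5 ^ 2 from (Nat.Coprime.pow n a (by norm_num : Nat.Coprime 5 2)).dvd_of_dvd_mul_right d)
      omega
    obtain ⟨b, hb, ⟨j, b2⟩, b3⟩ := t4 (by rw [hn, n3]; norm_num)
    have wx : w ∈ 𝐂[x] := by
      obtain ⟨l, rfl⟩ := hw
      exact zpow_mem (mem_centralizer_singleton_iff.2 rfl) l
    have o1 : orderOf w ∣ 2 ^ a := by
      have := (𝐂[x]).orderOf_dvd_natCard wx
      rw [ea] at this
      exact (ow.pow_right 2).dvd_of_dvd_mul_left this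
    obtain ⟨g, g1, g2⟩ := h.rat.cent_inv (u := w) (v := b) (mem_centralizer_singleton_iff.1 hb).symm
      (Nat.Coprime.coprime_dvd_left o1 (Nat.Coprime.coprime_dvd_right (orderOf_dvd_of_pow_eq_one b2)
        (Nat.Coprime.pow a j (by norm_num))))
    exact b3 g g1 g2
  · obtain ⟨-, b, b1, ⟨j, b2⟩, b3⟩ := one 5 le_rfl hd
    have := Fv.three hx b1 b2
    omega

end Cfsg.Agent.P27
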