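/-
P27: sharply transitive linear `{2,3}`-groups with rational traces.
-/
import Cfsg.Agent.P27.Defs
import Cfsg.Agent.H7.ClassAux

set_option autoImplicit false
set_option linter.unusedSectionVars false

namespace Cfsg.Agent.P27

open Subgroup Cfsg Cfsg.Agent Cfsg.Agent.FT Module

universe u

namespace Lin

theorem one {x M : ℕ} (h : ∀ s : ℕ, s.Prime → s ∣ M → s ≤ 3) (hx : x ∣ M) (h2 : x % 2 = 1)
    (h3 : x % 3 ≠ 0) : x = 1 := by
  by_contra e
  obtain ⟨s, s1, s2⟩ := Nat.exists_prime_and_dvd e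
  have := h s s1 (s2.trans hx)
  have := s1.two_le
  interval_cases s <;> omega

theorem dim {p n : ℕ} (hp : p.Prime) (h5 : 5 ≤ p)
    (h : ∀ s : ℕ, s.Prime → s ∣ p ^ n - 1 → s ≤ 3) (n0 : n ≠ 0) : n ≤ 2 := by
  have p2 : p % 2 = 1 := hp.eq_two_or_odd.resolve_left (by omega)
  have p3 : p % 3 ≠ 0 := fun e => by
    have := (Nat.prime_dvd_prime_iff_eq Nat.prime_three hp).1 (Nat.dvd_of_mod_eq_zero e)
    omega
  have dv : ∀ a, a ∣ n → p ^ a - 1 ∣ p ^ n - 1 := fun a ⟨b, e⟩ => by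
    rw [e, pow_mul]; exact Nat.sub_one_dvd_pow_sub_one _ _
  obtain ⟨e, m, hm, rfl⟩ := Nat.exists_eq_two_pow_mul_odd n0
  by_contra l
  by_cases m1 : m = 1
  · obtain ⟨j, rfl⟩ : ∃ j, p = 2 * j + 1 := ⟨p / 2, by omega⟩
    have h1 : 2 * j * j + 2 * j + 1 ∣ (2 * j + 1) ^ 4 - 1 :=
      ⟨8 * j * (j + 1), Nat.sub_eq_of_eq_add (by ring)⟩
    have h4 : 2 ^ 2 ∣ 2 ^ e * m := (pow_dvd_pow 2 (by
      by_contra k
      have : e < 2 := by omega
      interval_cases e <;> omega)).mul_right _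
    have := one h (h1.trans (dv 4 h4)) (by rw [mul_assoc]; omega) (by
      have : j % 3 = 0 ∨ j % 3 = 2 := by omega
      rcases this with k | k <;> simp [Nat.add_mod, Nat.mul_mod, k])
    omega
  obtain ⟨i, rfl⟩ := hm
  have g : ∀ i, ∃ S, (p - 1) * S + 1 = p ^ (2 * i + 1) ∧ S % 2 = 1 ∧ (i ≠ 0 → 1 < S) ∧
      (p % 3 = 2 → S % 3 = 1) ∧ (p % 3 = 1 → S % 3 = (2 * i + 1) % 3) := fun i => by
    obtain ⟨q, rfl⟩ : ∃ q, p = q + 1 := ⟨p - 1, by omega⟩
    induction i with
    | zero => exact ⟨1, by simp, rfl, fun k => (k rfl).elim, fun _ => rfl, fun _ => rfl⟩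
    | succ i ih =>
      obtain ⟨S, a1, a2, -, a4, a5⟩ := ih
      refine ⟨(q + 1) * (q + 1) * S + (q + 1) + 1, ?_, ?_, fun _ => by omega, fun k => ?_,
        fun k => ?_⟩
      · rw [show 2 * (i + 1) + 1 = 2 * i + 1 + 2 by ring, pow_add, ← a1, Nat.add_sub_cancel]; ring
      · rw [Nat.add_mod, Nat.add_mod _ (q + 1), Nat.mul_mod, Nat.mul_mod (q + 1), p2, a2]
      · rw [Nat.add_mod, Nat.add_mod _ (q + 1), Nat.mul_mod, Nat.mul_mod (q + 1), k, a4 k]
      · rw [Nat.add_mod, Nat.add_mod _ (q + 1), Nat.mul_mod, Nat.mul_mod (q + 1), k, a5 k]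
        omega
  obtain ⟨S, a1, a2, a3, a4, a5⟩ := g i
  have a6 : S % 3 = 0 := by
    by_contra k
    have := one h ((Dvd.intro_left _ (Nat.eq_sub_of_add_eq a1)).trans
      (dv _ (Dvd.intro_left _ rfl))) a2 k
    omega
  obtain ⟨j, rfl⟩ : ∃ j, p = 6 * j + 1 := ⟨p / 6, by omega⟩
  have h1 : 12 * j * j + 6 * j + 1 ∣ (6 * j + 1) ^ 3 - 1 := ⟨18 * j, Nat.sub_eq_of_eq_add (by ring)⟩
  have := one h (h1.trans (dv 3 (Dvd.dvd.mul_left (by omega) _))) (by rw [mul_assoc]; omega)
    (by rw [mul_assoc]; omega)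
  omega

theorem grp {N : Type*} [Group N] [Finite N] {z : N} (z1 : z ≠ 1) (zz : z ^ 2 = 1)
    (U : ∀ x : N, x ^ 2 = 1 → x = 1 ∨ x = z) (T : ∀ x : N, x ^ 4 = 1 ∨ x ^ 6 = 1)
    (C : ∀ y b : N, Commute b y → y ^ 3 = 1 → b ^ 3 = 1 → b ≠ 1 → y ∈ zpowers b)
    (l : 24 ≤ Nat.card N) :
    Nat.card N = 24 ∧ ∃ b : N, orderOf b = 3 ∧ 6 ≤ 𝐨(𝐂[b]) ∧ ¬ IsConj b b⁻¹ := by
  have zc : ∀ g, Commute z g := fun g => by
    rcases U (g * z * g⁻¹) (by rw [conj_pow, zz, mul_one, mul_inv_cancel]) with e | e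
    · exact (z1 (by simpa using e)).elim
    · exact (mul_inv_eq_iff_eq_mul.1 e).symm
  have c4 : ∀ g : N, g ^ 4 = 1 → g ^ 2 ≠ 1 → 𝐂[g] ≤ zpowers g := fun g g4 g2 h hh => by
    have c := mem_cent1_iff_commute.1 hh
    have e := (U (g ^ 2) (by rw [← pow_mul, g4])).resolve_left g2
    have k : ∀ x : N, x ^ 2 = 1 → x ∈ zpowers g := fun x hx => by
      rcases U x hx with rfl | rfl
      · exact one_mem _
      · exact e ▸ pow_mem (mem_zpowers g) 2
    by_cases h4 : h ^ 4 = 1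
    · rcases U (h ^ 2) (by rw [← pow_mul, h4]) with e' | e'
      · exact k h e'
      · exact (mul_mem_cancel_left (mem_zpowers g)).1 (k _ (by rw [c.mul_pow, e, e', ← sq, zz]))
    · rcases T (g * h) with a | a
      · exact (h4 (by rwa [c.mul_pow, g4, one_mul] at a)).elim
      · rw [c.mul_pow, (T h).resolve_left h4, mul_one, show 6 = 4 + 2 from rfl, pow_add, g4,
          one_mul] at a
        exact (g2 a).elim
  have c6 : ∀ g : N, g ^ 6 = 1 → g ^ 2 ≠ 1 → 𝐨(𝐂[g]) ∣ 6 := fun g g6 g2 => by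
    have b3 : (g ^ 2) ^ 3 = 1 := by rw [← pow_mul, g6]
    have c := (zc (g ^ 2)).symm
    have z3 : (g ^ 2 * z) ^ 3 = z := by rw [c.mul_pow, b3, one_mul, pow_succ, zz, one_mul]
    have z4 : (g ^ 2 * z) ^ 4 = g ^ 2 := by rw [pow_succ, z3, c.eq, ← mul_assoc, ← sq, zz, one_mul]
    refine (Subgroup.card_dvd_of_le (K := zpowers (g ^ 2 * z)) fun h hh => ?_).trans (by
      rw [Nat.card_zpowers, orderOf_dvd_iff_pow_eq_one, show 6 = 3 * 2 from rfl, pow_mul, z3, zz])
    have h6 : h ^ 6 = 1 := by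
      by_contra k
      have h4 := (T h).resolve_right k
      obtain ⟨i, rfl⟩ := c4 h h4 (fun e => k (by rw [show 6 = 2 * 3 from rfl, pow_mul, e, one_pow]))
        (mem_cent1_comm.1 hh)
      have : (h ^ i) ^ 4 = 1 := by rw [← zpow_natCast, zpow_comm, zpow_natCast, h4, one_zpow]
      exact g2 (by rwa [show 6 = 4 + 2 from rfl, pow_add, this, one_mul] at g6)
    have h2 := zpowers_le.2 (z4 ▸ pow_mem (mem_zpowers (g ^ 2 * z)) 4) (C (h ^ 2) (g ^ 2)
      ((mem_cent1_iff_commute.1 hh).pow_pow 2 2) (by rw [← pow_mul, h6]) b3 g2)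
    refine (mul_mem_cancel_left h2).1 ?_
    rw [← pow_succ]
    rcases U (h ^ 3) (by rw [← pow_mul, h6]) with e | e
    · exact e ▸ one_mem _
    · exact (z3.trans e.symm) ▸ pow_mem (mem_zpowers _) 3
  have c12 : ∀ g : N, g ^ 2 ≠ 1 → 𝐨(𝐂[g]) ∣ 12 := fun g g2 => by
    rcases T g with a | a
    · exact (Subgroup.card_dvd_of_le (c4 g a g2)).trans (by
        rw [Nat.card_zpowers]; exact (orderOf_dvd_of_pow_eq_one a).trans (by norm_num))
    · exact (c6 g a g2).trans (by norm_num)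
  have := Fact.mk Nat.prime_two
  have := Fact.mk Nat.prime_three
  have oz : orderOf z = 2 := orderOf_eq_prime zz z1
  have hZ : center N = zpowers z := le_antisymm (fun x hx => by
    by_contra k
    have := c12 x fun e => k (by rcases U x e with rfl | rfl <;> simp)
    rw [centralizer_eq_top_iff_subset.2 (by simpa using hx), card_top] at this
    exact absurd (Nat.le_of_dvd (by norm_num) this) (by omega))
    (zpowers_le.2 (mem_center_iff.2 fun g => (zc g).symm))
  have h1 := Group.nat_card_center_add_sum_card_noncenter_eq_card N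
  rw [hZ, Nat.card_zpowers, oz, finsum_mem_eq_finite_toFinset_sum _ (Set.toFinite _)] at h1
  have h2 : Nat.card N ∣ 12 * ∑ x ∈ (Set.toFinite (ConjClasses.noncenter N)).toFinset,
      Nat.card x.carrier := by
    rw [Finset.mul_sum]
    refine Finset.dvd_sum fun x hx => ?_
    obtain ⟨g, rfl⟩ := ConjClasses.mk_surjective x
    rw [H7.card_carrier_eq_index, ← (𝐂[g]).card_mul_index]
    refine Nat.mul_dvd_mul_right (c12 g fun e => ?_) _
    obtain ⟨a, ha, b, hb, k⟩ := (Set.Finite.mem_toFinset _).1 hx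
    have hg : g ∈ center N := hZ ▸ (by rcases U g e with rfl | rfl <;> simp)
    have k' : ∀ a ∈ (ConjClasses.mk g).carrier, a = g := fun a ha => by
      obtain ⟨c, rfl⟩ := isConj_iff.1 (ConjClasses.mk_eq_mk_iff_isConj.1
        (ConjClasses.mem_carrier_iff_mk_eq.1 ha).symm)
      rw [mem_center_iff.1 hg, mul_inv_cancel_right]
    exact k ((k' a ha).trans (k' b hb).symm)
  have h3 : Nat.card N = 24 := le_antisymm (Nat.le_of_dvd (by norm_num)
    ((Nat.dvd_add_left h2).1 (by rw [show 24 = 12 * 2 from rfl, ← mul_add, h1]; simp))) l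
  obtain ⟨b, hb⟩ := exists_prime_orderOf_dvd_card' (G := N) 3 (by rw [h3]; norm_num)
  have b3 : b ^ 3 = 1 := hb ▸ pow_orderOf_eq_one b
  have b2 : b ^ 2 ≠ 1 := fun e => absurd (hb ▸ orderOf_dvd_of_pow_eq_one e) (by norm_num)
  have h4 : 𝐨(𝐂[b]) = 6 := Nat.dvd_antisymm
    (c6 b (by rw [show 6 = 3 * 2 from rfl, pow_mul, b3, one_pow]) b2)
    (Nat.Coprime.mul_dvd_of_dvd_of_dvd (show Nat.Coprime 2 3 by norm_num)
      (oz ▸ orderOf_dvd_card_of_mem (mem_cent1_iff_commute.2 (zc b).symm))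
      (hb ▸ orderOf_dvd_card_of_mem (self_mem_cent1 b)))
  refine ⟨h3, b, hb, h4.ge, fun k => ?_⟩
  obtain ⟨g, hg⟩ := isConj_iff.1 k
  let P : Sylow 3 N := Sylow.ofCard (zpowers b) (by
    rw [Nat.card_zpowers, hb, h3]; decide +kernel)
  have h5 := card_sylow_modEq_one 3 N
  rw [P.card_eq_index_normalizer] at h5
  change (𝐍(zpowers b)).index ≡ 1 [MOD 3] at h5
  have h6 := card_dvd_of_injective _
    (QuotientGroup.kerLift_injective (zpowers b).normalizerMonoidHom)
  rw [normalizerMonoidHom_ker, ← index, ← relIndex, IsCyclic.card_mulAut, Nat.card_zpowers, hb,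
    cent_zpowers, Nat.totient_prime Nat.prime_three] at h6
  have h7 := relIndex_mul_index (cent_zpowers b ▸ cent_le_norm (zpowers b))
  have h8 := (𝐂[b]).card_mul_index
  rw [h4, h3] at h8
  rcases (Nat.dvd_prime Nat.prime_two).1 h6 with e | e
  · have := mem_cent1_iff_conj.1 (relIndex_eq_one.1 e (mem_norm_of_conj_le (g := g) (by
      rw [MonoidHom.map_zpowers]
      exact zpowers_le.2 (by
        change g * b * g⁻¹ ∈ _
        rw [hg]; exact inv_mem (mem_zpowers b)))))
    exact b2 (by rw [sq, ← eq_inv_iff_mul_eq_one, ← hg, this])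
  · rw [e] at h7
    rw [show (𝐍(zpowers b)).index = 2 by omega] at h5
    exact absurd h5 (by decide)

end Lin

theorem linStmt : LinStmt.{u} := by
  intro p hp h5 N _ _ U _ _ _ _ σ hs tr fp ht
  have nz : ∀ a : ℕ, 0 < a → a < 5 → (a : ZMod p) ≠ 0 := fun a a0 a5 e =>
    absurd (Nat.le_of_dvd a0 ((ZMod.natCast_eq_zero_iff a p).1 e)) (by omega)
  have n2 : (2 : ZMod p) ≠ 0 := by exact_mod_cast nz 2 (by norm_num) (by norm_num)
  have n3 : (3 : ZMod p) ≠ 0 := by exact_mod_cast nz 3 (by norm_num) (by norm_num)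
  have kill : ∀ (x : N) (f : End (ZMod p) U), x ≠ 1 → (σ x - 1) * f = 0 → f = 0 := fun x f x1 e =>
    LinearMap.ext fun u => by_contra fun k => x1 (fp x (f u) k
      (sub_eq_zero.1 (show σ x (f u) - f u = 0 from LinearMap.congr_fun e u)))
  obtain ⟨u0, hu⟩ := exists_ne (0 : U)
  have inj : ∀ x y : N, σ x u0 = σ y u0 → x = y := fun x y e => (inv_mul_eq_one.1 (fp (y⁻¹ * x) u0 hu
    (by rw [map_mul, End.mul_apply, e, ← End.mul_apply, ← map_mul]; simp))).symm
  have hc : Nat.card N = p ^ finrank (ZMod p) U - 1 := by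
    have h1 := Module.natCard_eq_pow_finrank (K := ZMod p) (V := U)
    rw [Nat.card_zmod] at h1
    rw [← h1, Nat.card_congr (Equiv.ofBijective (fun x : N => (⟨σ x u0, fun e =>
      hu (by simpa [← End.mul_apply, ← map_mul] using congrArg (σ x⁻¹) e)⟩ : {u : U // u ≠ 0})) ⟨fun x y e => inj x y (congrArg Subtype.val e),
      fun u => (tr u0 u hu u.2).imp fun x e => Subtype.ext e⟩)]
    classical
    cases nonempty_fintype U
    simp
  have d0 : finrank (ZMod p) U ≠ 0 := finrank_pos.ne'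
  have d2 := Lin.dim hp.out h5 (hc ▸ hs) d0
  have sc : ∀ (c : N) (a : ZMod p), σ c = a • 1 → a ^ 2 = 1 := fun c a e => by
    obtain ⟨k, hk⟩ : ∃ k, k + 1 = 6 * Nat.card N := ⟨6 * Nat.card N - 1, by
      have := Nat.card_pos (α := N); omega⟩
    have h1 := ht c k (Nat.Coprime.coprime_mul_right_right (k := Nat.card N) (by rw [← hk]; simp))
    rw [map_pow, e, smul_pow, one_pow, map_smul, map_smul, LinearMap.trace_one] at h1
    have h2 := mul_right_cancel₀ (nz _ (Nat.pos_of_ne_zero d0) (by omega)) h1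
    have h3 : σ (c ^ (k + 1)) u0 = u0 := by rw [hk, mul_comm, pow_mul, pow_card_eq_one']; simp
    rw [map_pow, e, smul_pow, one_pow, pow_succ, h2, ← sq] at h3
    exact smul_left_injective _ hu (h3.trans (one_smul _ u0).symm)
  have d : finrank (ZMod p) U = 2 := by
    by_contra k
    obtain ⟨x, hx⟩ := tr u0 ((2 : ZMod p) • u0) hu (smul_ne_zero n2 hu)
    have := sc x 2 (LinearMap.ext fun u => by
      obtain ⟨c, rfl⟩ := (finrank_eq_one_iff_of_nonzero' (K := ZMod p) u0 hu).1 (by omega) u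
      simp [hx, smul_comm c])
    exact n3 (by linear_combination this)
  have neg : ∀ x : N, x ^ 2 = 1 → x ≠ 1 → σ x = -1 := fun x e x1 =>
    eq_neg_of_add_eq_zero_left (kill x _ x1 (by
      have : σ x * σ x = 1 := by rw [← map_mul, ← sq, e, map_one]
      rw [mul_add, sub_mul, this]; simp))
  have cub : ∀ x : N, x ^ 3 = 1 → x ≠ 1 → σ x ^ 2 + σ x + 1 = 0 := fun x e x1 => kill x _ x1 (by
    have : σ x ^ 3 = 1 := by rw [← map_pow, e, map_one]
    rw [show (σ x - 1) * (σ x ^ 2 + σ x + 1) = σ x ^ 3 - 1 by noncomm_ring, this, sub_self])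
  have t0 : ∀ x : N, LinearMap.trace _ _ (σ x) = 0 → x ^ 4 = 1 := fun x e => by
    let b := finBasisOfFinrankEq (ZMod p) U d
    rw [LinearMap.trace_eq_matrix_trace _ b, Matrix.trace_fin_two] at e
    have h1 : σ (x ^ 2) = (-(LinearMap.toMatrix b b (σ x)).det) • 1 := by
      apply (LinearMap.toMatrix b b).injective
      rw [sq, map_mul, LinearMap.toMatrix_mul, map_smul, LinearMap.toMatrix_one]
      generalize LinearMap.toMatrix b b (σ x) = M at e
      ext i j
      fin_cases i <;> fin_cases j <;> simp [Matrix.mul_apply, Fin.sum_univ_two, Matrix.det_fin_two]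
      · linear_combination M 0 0 * e
      · linear_combination M 0 1 * e
      · linear_combination M 1 0 * e
      · linear_combination M 1 1 * e
    refine fp _ u0 hu ?_
    rw [show 4 = 2 * 2 from rfl, pow_mul, map_pow, h1, smul_pow, sc _ _ h1]
    simp
  have ev : ∀ (x : N) (k : ℕ), (k + 1).Coprime 6 → 4 < 2 * k → orderOf x ≠ 2 * k := fun x k c l e => by
    have h1 := ht x _ c
    rw [pow_succ, map_mul, neg (x ^ k) (by rw [← pow_mul, mul_comm, ← e, pow_orderOf_eq_one])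
      (pow_ne_one_of_lt_orderOf (by omega) (by omega)), neg_one_mul, map_neg] at h1
    exact pow_ne_one_of_lt_orderOf (by norm_num) (by omega)
      (t0 x (mul_left_cancel₀ n2 (by linear_combination -h1)))
  have ni : ∀ x : N, orderOf x ≠ 9 := fun x e => by
    have x9 : x ^ 9 = 1 := e ▸ pow_orderOf_eq_one x
    have h1 := ht x 7 (by norm_num)
    have h2 := ht x 13 (by norm_num)
    rw [show 13 = 9 + 4 from rfl, pow_add, x9, one_mul] at h2
    have h3 := congrArg (fun f => LinearMap.trace _ _ (σ x * f))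
      (cub (x ^ 3) (by rw [← pow_mul, x9]) (pow_ne_one_of_lt_orderOf (by norm_num) (by omega)))
    simp only [mul_add, ← map_pow, ← map_mul, ← pow_mul, ← pow_succ', map_add, mul_one, mul_zero,
      map_zero] at h3
    exact pow_ne_one_of_lt_orderOf (by norm_num) (by omega)
      (t0 x (mul_left_cancel₀ n3 (by linear_combination h3 - h1 - h2)))
  have h24 : 24 ≤ Nat.card N := by
    have := Nat.pow_le_pow_left h5 2
    rw [hc, d]; omega
  have := Fact.mk Nat.prime_two
  obtain ⟨z, hz⟩ := exists_prime_orderOf_dvd_card' (G := N) 2 (hc ▸ (Nat.Odd.sub_odd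
    (hp.out.odd_of_ne_two (by omega)).pow odd_one).two_dvd)
  have z1 : z ≠ 1 := fun e => by simp [e] at hz
  have zz : z ^ 2 = 1 := hz ▸ pow_orderOf_eq_one z
  obtain ⟨h1, h2⟩ := Lin.grp z1 zz (fun x e => or_iff_not_imp_left.2 fun x1 =>
    inj x z (by rw [neg x e x1, neg z zz z1])) (fun x => by
      have o0 := (orderOf_pos x).ne'
      have k : ∀ m, m ∣ orderOf x → ∃ y : N, orderOf y = m := fun m e =>
        ⟨_, orderOf_pow_orderOf_div o0 e⟩
      have k8 : ¬ 2 ^ 3 ∣ orderOf x := fun e => (k 8 e).elim fun y => ev y 4 (by norm_num) (by norm_num)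
      have k9 : ¬ 3 ^ 2 ∣ orderOf x := fun e => (k 9 e).elim ni
      have k12 : orderOf x ∣ 12 := (Nat.dvd_iff_prime_pow_dvd_dvd _ _).2 fun q i hq e => by
        rcases Nat.eq_zero_or_pos i with rfl | i0
        · simp
        have := hs q hq (((dvd_pow_self q i0.ne').trans e).trans (orderOf_dvd_natCard x))
        have := hq.two_le
        interval_cases q
        · exact (pow_dvd_pow 2 (show i ≤ 2 from not_lt.1 fun l =>
            k8 ((pow_dvd_pow 2 l).trans e))).trans (by norm_num)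
        · exact (pow_dvd_pow 3 (show i ≤ 1 from not_lt.1 fun l =>
            k9 ((pow_dvd_pow 3 l).trans e))).trans (by norm_num)
      have := ev x 6 (by norm_num) (by norm_num)
      rw [← orderOf_dvd_iff_pow_eq_one, ← orderOf_dvd_iff_pow_eq_one]
      have := Nat.le_of_dvd (by norm_num) k12
      generalize orderOf x = o at *
      interval_cases o <;> omega) (fun y b c y3 b3 b1 => by
      by_contra k
      have y1 : y ≠ 1 := fun e => k (e ▸ one_mem _)
      have e1 : σ y - σ b ^ 2 = 0 := kill (b ^ 2 * y) _ (fun e => k (by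
        rw [eq_inv_of_mul_eq_one_right e]; exact inv_mem (pow_mem (mem_zpowers b) 2))) (by
        have b3' : σ b ^ 3 = 1 := by rw [← map_pow, b3, map_one]
        rw [map_mul, map_pow, show (σ b ^ 2 * σ y - 1) * (σ y - σ b ^ 2) = σ b ^ 2 *
          (σ y ^ 2 + σ y + 1) - (σ b ^ 2 + σ b + 1) * σ y + (σ b * σ y - σ b ^ 2 * (σ y * σ b ^ 2))
          by noncomm_ring, cub b b3 b1, cub y y3 y1, ← ((c.map σ).pow_left 2).eq, ← mul_assoc,
          ← pow_add, show 2 + 2 = 3 + 1 from rfl, pow_succ _ 3, b3']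
        simp)
      exact k (inj y (b ^ 2) (by rw [map_pow, ← sub_eq_zero.1 e1]) ▸ pow_mem (mem_zpowers b) 2)) h24
  refine ⟨?_, ?_, h2⟩
  · rw [hc, d] at h1
    have : p ^ 2 = 5 ^ 2 := by have := Nat.pow_le_pow_left h5 2; omega
    exact Nat.pow_left_injective two_ne_zero this
  · rw [Module.natCard_eq_pow_finrank (K := ZMod p), Nat.card_zmod, d]
    rw [hc, d] at h1
    have := Nat.pow_le_pow_left h5 2
    omega

end Cfsg.Agent.P27
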