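/-
P27: the end of the proof.
-/
import Cfsg.Agent.P27.EG
import Cfsg.Agent.P27.Five
import Cfsg.Agent.H4.Ord4

set_option autoImplicit false
set_option linter.unusedSectionVars false

namespace Cfsg.Agent.P27

open Subgroup Cfsg Cfsg.Agent Cfsg.Agent.FT Module

universe u

namespace Mn

variable {G : Type u} [Group G] [Finite G]

theorem cent_one : 𝐂[(1 : G)] = ⊤ :=
  eq_top_iff.2 fun _ _ => mem_centralizer_singleton_iff.2 (by simp)

theorem index_two [Nontrivial G] (hs : Group.IsSolvable G) (hr : Rat G) :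
    ∃ H : Subgroup G, H.index = 2 := by
  have h1 : _root_.commutator G ≠ ⊤ := (Group.IsSolvable.commutator_lt_top_of_nontrivial G).ne
  obtain ⟨M, hM, hle⟩ := (eq_top_or_exists_le_coatom (_root_.commutator G)).resolve_left h1
  have : M.Normal := ⟨fun n hn g => by
    have : g * n * g⁻¹ = (g * n * g⁻¹ * n⁻¹) * n := by group
    rw [this]
    exact mul_mem (hle (commutator_mem_commutator (mem_top g) (mem_top n))) hn⟩
  obtain ⟨x, hx⟩ : ∃ x, x ∉ M := by
    by_contra hc
    push Not at hc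
    exact hM.1 (eq_top_iff.2 fun x _ => hc x)
  have sq : ∀ y : G, y * y ∈ M := fun y => by
    obtain ⟨g, hg⟩ := isConj_iff.1 (hr.inv y)
    have h2 : g * y * g⁻¹ * y⁻¹ ∈ M := hle (commutator_mem_commutator (mem_top g) (mem_top y))
    rw [hg, ← mul_inv_rev] at h2
    exact inv_mem_iff.1 h2
  refine ⟨M, index_eq_two_iff.2 ⟨x, fun b => ?_⟩⟩
  have hb : b ∈ M ⊔ zpowers x := by
    rw [hM.2 _ (left_lt_sup.2 fun e => hx (e (mem_zpowers x)))]; trivial
  obtain ⟨m, hm, _, ⟨k, rfl⟩, rfl⟩ := (mem_sup_of_normal_left).1 hb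
  rcases Int.even_or_odd' k with ⟨j, rfl | rfl⟩
  · have h3 : m * x ^ (2 * j) ∈ M := mul_mem hm (by rw [two_mul, zpow_add]; exact sq _)
    exact Or.inr ⟨h3, fun e => hx ((mul_mem_cancel_left h3).1 e)⟩
  · have h3 : m * x ^ (2 * j) ∈ M := mul_mem hm (by rw [two_mul, zpow_add]; exact sq _)
    refine Or.inl ⟨?_, fun e => hx ?_⟩
    · simp only [zpow_add_one]
      rw [← mul_assoc, mul_assoc _ x x]; exact mul_mem h3 (sq x)
    · simp only [zpow_add_one] at e
      rw [← mul_assoc] at e; exact (mul_mem_cancel_left h3).1 e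

theorem not_sq {p : ℕ} [hp : Fact p.Prime] {x : G} (hx : 𝐨(𝐂[x]) = p) : ¬ p ^ 2 ∣ Nat.card G := by
  intro hd
  have px : IsPGroup p (𝐂[x]) := IsPGroup.of_card (n := 1) (by rw [hx, pow_one])
  obtain ⟨S, hS⟩ := px.exists_le_sylow
  have hx0 : x ∈ 𝐂[x] := mem_centralizer_singleton_iff.2 rfl
  have d := S.pow_dvd_card_of_pow_dvd_card hd
  have h2 : p ^ 1 < p ^ 2 := Nat.pow_lt_pow_right hp.out.one_lt one_lt_two
  have h3 := Nat.le_of_dvd Nat.card_pos d
  have : Nontrivial S := Finite.one_lt_card_iff_nontrivial.1 (by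
    have := hp.out.one_lt; rw [pow_one] at h2; omega)
  have := S.2.center_nontrivial
  obtain ⟨z, z1⟩ := exists_ne (1 : center S)
  have zc : ∀ s ∈ S, s * (z : S) = (z : S) * s := fun s hs =>
    congrArg Subtype.val (mem_center_iff.1 z.2 ⟨s, hs⟩)
  have hz : ((z : S) : G) ∈ 𝐂[x] := mem_centralizer_singleton_iff.2 (zc x (hS hx0)).symm
  obtain ⟨k, hk⟩ := (mem_zpowers_of_prime_card (p := p) hx (g := ⟨_, hz⟩)
    (fun e => z1 (Subtype.ext (Subtype.ext (show ((z : S) : G) = 1 from congrArg Subtype.val e)))) : (⟨x, hx0⟩ : 𝐂[x]) ∈ _)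
  have hk' : ((z : S) : G) ^ k = x := congrArg Subtype.val hk
  have le : (S : Subgroup G) ≤ 𝐂[x] := fun c hc => mem_centralizer_singleton_iff.2 (by
    rw [← hk']; exact ((show Commute c _ from zc c hc).zpow_right k).eq)
  have := card_le_of_le le
  rw [hx] at this; rw [pow_one] at h2; omega

theorem two [Nontrivial G] (h : AH G) {H : Subgroup G} (hH : H.index = 2) {x : G}
    (hx : 𝐨(𝐂[x]) = 2) : Nonempty (G ≃* Equiv.Perm (Fin 3)) := by
  have : Fact (Nat.Prime 2) := ⟨Nat.prime_two⟩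
  have nH : H.Normal := normal_of_index_eq_two hH
  have hc := H.card_mul_index
  rw [hH] at hc
  have odd : ¬ 2 ∣ 𝐨(H) := fun ⟨k, hk⟩ => not_sq hx ⟨k, by rw [← hc, hk]; ring⟩
  have nz : ∀ y ∈ H, y * y = 1 → y = 1 := fun y hy e => by
    by_contra y1
    exact odd (orderOf_eq_prime (p := 2) (by rw [pow_two, e]) y1 ▸ H.orderOf_dvd_natCard hy)
  have hx0 : x ∈ 𝐂[x] := mem_centralizer_singleton_iff.2 rfl
  have sq : ∀ y ∈ 𝐂[x], y * y = 1 := fun y hy => by
    have := (𝐂[x]).orderOf_dvd_natCard hy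
    rw [hx, orderOf_dvd_iff_pow_eq_one, pow_two] at this
    exact this
  have H1 : H ≠ ⊥ := fun e => by
    rw [e, card_bot, one_mul] at hc
    have all : ∀ y : G, y = 1 := fun y => by
      have : IsCyclic G := isCyclic_of_prime_card hc.symm
      have e : 𝐂[y] = ⊤ := eq_top_iff.2 fun z _ => mem_centralizer_singleton_iff.2
        (this.isMulCommutative.is_comm.comm z y)
      exact isConj_one_left.1 (h y 1 (by rw [e, cent_one]))
    obtain ⟨y, hy⟩ := exists_ne (1 : G)
    exact hy (all y)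
  obtain ⟨⟨y, hy⟩, y1⟩ := ne_bot_iff_exists_ne_one.1 H1
  have y1 : y ≠ 1 := fun e => y1 (Subtype.ext e)
  have x1 : x ≠ 1 := fun e => y1 (nz y hy (sq y (by rw [e, cent_one]; trivial)))
  have xH : x ∉ H := fun e => x1 (nz x e (sq x hx0))
  let φ : H →* H := (MulAut.conjNormal x : MulAut H)
  have fp : MonoidHom.FixedPointFree φ := fun z hz => Subtype.ext (nz _ z.2 (sq _
    (mem_centralizer_singleton_iff.2
      (mul_inv_eq_iff_eq_mul.1 (congrArg Subtype.val hz : x * z * x⁻¹ = z)).symm)))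
  have iv : Function.Involutive φ := fun z => Subtype.ext (by
    change x * (x * z * x⁻¹) * x⁻¹ = z
    calc _ = (x * x) * z * (x * x)⁻¹ := by group
      _ = _ := by rw [sq x hx0]; simp)
  have inv : ∀ z ∈ H, x * z * x⁻¹ = z⁻¹ := fun z hz =>
    congrArg Subtype.val (congrFun (fp.coe_eq_inv_of_involutive iv) ⟨z, hz⟩)
  have cm : ∀ z ∈ H, ∀ w ∈ H, z * w = w * z := fun z hz w hw =>
    congrArg Subtype.val (fp.commute_all_of_involutive iv ⟨z, hz⟩ ⟨w, hw⟩).eq
  have dec : ∀ g, g ∉ H → ∃ k ∈ H, g = k * x := fun g hg =>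
    ⟨g * x⁻¹, (mul_mem_iff_of_index_two hH).2 (by simp [hg, xH]), by group⟩
  have cj : ∀ z ∈ H, ∀ g, g ∉ H → g * z * g⁻¹ = z⁻¹ := fun z hz g hg => by
    obtain ⟨k, hk, rfl⟩ := dec g hg
    calc _ = k * (x * z * x⁻¹) * k⁻¹ := by group
      _ = _ := by rw [inv z hz, cm k hk _ (inv_mem hz)]; group
  have ce : ∀ z ∈ H, z ≠ 1 → 𝐂[z] = H := fun z hz z1 => by
    ext g
    rw [mem_centralizer_singleton_iff]
    refine ⟨fun e => by_contra fun hg => z1 (nz z hz ?_), fun hg => cm g hg z hz⟩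
    have := cj z hz g hg
    rw [e, mul_inv_cancel_right] at this
    exact mul_eq_one_iff_eq_inv.2 this
  have tri : ∀ z ∈ H, z = 1 ∨ z = y ∨ z = y⁻¹ := fun z hz => by
    by_cases z1 : z = 1
    · exact Or.inl z1
    obtain ⟨g, rfl⟩ := isConj_iff.1 (h y z (by rw [ce y hy y1, ce z hz z1]))
    by_cases hg : g ∈ H
    · exact Or.inr (Or.inl (by rw [cm g hg y hy]; group))
    · exact Or.inr (Or.inr (cj y hy g hg))
  have y3 : y ^ 3 = 1 := by
    rcases tri (y * y) (mul_mem hy hy) with e | e | e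
    · exact absurd (nz y hy e) y1
    · exact absurd (mul_eq_left.1 e) y1
    · rw [pow_succ, pow_two, e, inv_mul_cancel]
  have : Fact (Nat.Prime 3) := ⟨Nat.prime_three⟩
  have e : zpowers y = H := le_antisymm (zpowers_le.2 hy) fun z hz => by
    rcases tri z hz with rfl | rfl | rfl
    exacts [one_mem _, mem_zpowers _, inv_mem (mem_zpowers _)]
  exact H4.nonempty_mulEquiv_perm_three (orderOf_eq_prime y3 y1) (by rw [e, hH]) (y := x)
    (by rwa [e]) (by rw [pow_two, sq x hx0]) (inv y hy)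

theorem three (h : AH G) (h5 : Five G) {H : Subgroup G} (hH : H.index = 2)
    (h2 : ∀ y : G, 𝐨(𝐂[y]) ≠ 2) {x : G} (hx : 𝐨(𝐂[x]) = 3) : False := by
  have nH : H.Normal := normal_of_index_eq_two hH
  obtain ⟨s, s1, s2⟩ := egStmt G h (H : Set G)ᶜ (fun y hy g e => hy (by
    simpa [mul_assoc] using nH.conj_mem _ e g⁻¹))
  have hc := H.card_mul_index
  rw [hH] at hc
  have e1 : ((H : Set G)ᶜ).ncard = 𝐨(H) := by
    have := Set.ncard_add_ncard_compl (H : Set G)
    rw [← hc, show (H : Set G).ncard = 𝐨(H) from rfl] at this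
    omega
  have e2 := B2 s fun n hn => by
    obtain ⟨y, hy, rfl⟩ := s1 n hn
    have y0 : y ∈ 𝐂[y] := mem_centralizer_singleton_iff.2 rfl
    have ev : 2 ∣ orderOf y := by
      by_contra hc
      obtain ⟨k, hk⟩ := Nat.not_even_iff_odd.1 (fun e => hc e.two_dvd)
      have a := pow_orderOf_eq_one y
      rw [hk, pow_succ, pow_mul] at a
      exact hy (by
        rw [eq_inv_of_mul_eq_one_right a]
        exact inv_mem (pow_mem (sq_mem_of_index_two hH y) k))
    have d := ev.trans ((𝐂[y]).orderOf_dvd_natCard y0)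
    refine ⟨fun q hq hd => ?_, lt_of_le_of_ne (Nat.le_of_dvd Nat.card_pos d) (h2 y).symm⟩
    have dG := hd.trans (card_subgroup_dvd_card _)
    rcases pr5 hq (h5.1 q hq dG) with rfl | rfl | rfl
    · rfl
    · exfalso
      have : Fact (Nat.Prime 3) := ⟨Nat.prime_three⟩
      obtain ⟨b, hb⟩ := exists_prime_orderOf_dvd_card' 3 hd
      rw [← orderOf_coe] at hb
      have b1 : (b : G) ≠ 1 := fun e => by rw [e, orderOf_one] at hb; omega
      have le := Fv.three hx b1 (j := 1) (by rw [pow_one, ← hb, pow_orderOf_eq_one])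
      have d2 := ev.trans ((𝐂[(b : G)]).orderOf_dvd_natCard
        (mem_centralizer_singleton_iff.2 (mem_centralizer_singleton_iff.1 b.2).symm))
      have d3 := (𝐂[(b : G)]).orderOf_dvd_natCard (mem_centralizer_singleton_iff.2 rfl)
      rw [hb] at d3
      have : 0 < 𝐨(𝐂[(b : G)]) := Nat.card_pos
      omega
    · exact absurd dG (h5.2.2 x hx)
  rw [← s2, e1, ← hc] at e2
  have : (0 : ℝ) < 𝐨(H) := by exact_mod_cast Nat.card_pos
  push_cast at e2
  rw [div_lt_iff₀ (by positivity)] at e2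
  linarith

end Mn

theorem main (F : FiveStmt.{u}) (N4 : N4Stmt.{u}) {G : Type u} [Group G] [Finite G] [Nontrivial G]
    (hG : Group.IsSolvable G) (h0 : Function.Injective fun C : ConjClasses G => Nat.card C.carrier) :
    Nonempty (G ≃* Equiv.Perm (Fin 3)) := by
  have h : AH G := fun x y e => ConjClasses.mk_eq_mk_iff_isConj.1 (h0 (by
    change (ConjClasses.mk x).carrier.ncard = (ConjClasses.mk y).carrier.ncard
    rw [H5.ncard_carrier_eq_index, H5.ncard_carrier_eq_index]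
    have a := (𝐂[x]).card_mul_index
    rw [← (𝐂[y]).card_mul_index, e] at a
    exact Nat.eq_of_mul_eq_mul_left Nat.card_pos a))
  have h5 := F G hG h
  obtain ⟨H, hH⟩ := Mn.index_two hG h.rat
  by_cases h2 : ∃ x : G, 𝐨(𝐂[x]) = 2
  · obtain ⟨x, hx⟩ := h2
    exact Mn.two h hH hx
  exfalso
  push Not at h2
  obtain ⟨s, s1, s2⟩ := egStmt G h Set.univ (fun _ _ _ => trivial)
  have e := B1 s fun n hn => by
    obtain ⟨x, -, rfl⟩ := s1 n hn
    refine ⟨fun q hq hd => h5.1 q hq (hd.trans (card_subgroup_dvd_card _)), ?_, h5.2.1 x⟩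
    have a0 : 0 < 𝐨(𝐂[x]) := Nat.card_pos
    have a1 : 𝐨(𝐂[x]) ≠ 1 := fun e => by
      have b := Subgroup.eq_bot_of_card_eq _ e
      have x1 : x = 1 := mem_bot.1 (b ▸ mem_centralizer_singleton_iff.2 rfl)
      rw [x1, Mn.cent_one] at b
      exact top_ne_bot b
    have a2 := h2 x
    have a3 : 𝐨(𝐂[x]) ≠ 3 := Mn.three h h5 hH h2
    have a4 := N4 G hG h h5 x
    omega
  rw [← s2, Set.ncard_univ, div_self (by exact_mod_cast Nat.card_pos.ne')] at e
  exact lt_irrefl _ e

end Cfsg.Agent.P27
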