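/-
P27: a centralizer of order 4; the Sylow 2-subgroup.
-/
import Cfsg.Agent.P27.Bas

set_option autoImplicit false
set_option linter.unusedSectionVars false

namespace Cfsg.Agent.P27

open Subgroup Cfsg Cfsg.Agent Cfsg.Agent.FT
open scoped commutatorElement

universe u

variable {G : Type u} [Group G] [Finite G]

/-- A Sylow 2-subgroup of order 8 with a cyclic subgroup inverted by all other elements. -/
structure E8 (S : Subgroup G) (c : G) : Prop where
  card : 𝐨(S) = 8
  mem : c ∈ S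
  ord : orderOf c = 4
  inv : ∀ s ∈ S, s ∉ zpowers c → s * c * s⁻¹ = c⁻¹

theorem syl (R : Rat G) {x : G} (hx : 𝐨(𝐂[x]) = 4) {S : Subgroup G} (hS : IsSyl 2 S ⊤)
    (hle : 𝐂[x] ≤ S) : 𝐨(S) = 4 ∨ ∃ c, E8 S c := by
  have p2 := Nat.prime_two
  have := Fact.mk p2
  have xS : x ∈ S := hle (mem_cent1.2 rfl)
  by_cases ha : IsMulCommutative S
  · left
    rw [← hx, le_antisymm hle fun g hg => mem_cent1.2 (setLike_mul_comm xS hg)]
  right
  have h1 := idx_le (⟨x, xS⟩ : S)
  have h2 : 𝐨(𝐂[(⟨x, xS⟩ : S)]) ≤ 4 := hx ▸ Nat.card_le_card_of_injective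
    (fun c : 𝐂[(⟨x, xS⟩ : S)] => (⟨c.1, mem_cent1.2 (congrArg Subtype.val (mem_cent1.1 c.2))⟩ : 𝐂[x]))
    fun a b h => Subtype.ext (Subtype.ext (congrArg (fun x => x.1) h))
  obtain ⟨k, hk⟩ := IsPGroup.iff_card.1 (hS.pgrp.to_quotient (_root_.commutator S))
  have h4 : (_root_.commutator S).index = 4 := by
    have nc : ¬ IsCyclic (S ⧸ _root_.commutator S) := fun h => ha (by
      have := H3.isCyclic_of_isCyclic_quotient_commutator hS.pgrp h
      infer_instance)
    change (_root_.commutator S).index = _ at hk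
    have k2 : k ≤ 2 := (Nat.pow_le_pow_iff_right one_lt_two).1 (hk ▸ h1.trans h2)
    interval_cases k
    · exact absurd (isCyclic_of_card_dvd_prime (p := 2) (by
        rw [show Nat.card _ = 1 from hk]; exact one_dvd _)) nc
    · exact absurd (isCyclic_of_prime_card (p := 2) hk) nc
    · exact hk
  obtain ⟨n, c, y, n2, oc, ic, yc, hy⟩ := H3.taussky hS.pgrp ha h4
  have cS := (zpowers c).index_mul_card
  rw [ic, Nat.card_zpowers, oc, ← pow_succ'] at cS
  have oc' : orderOf (c : G) = 2 ^ n := by rw [orderOf_coe, oc]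
  have e2 : n = 2 := by
    have a := R.mul_tot c
    rw [oc', Nat.totient_prime_pow p2 (by omega), show 2 - 1 = 1 from rfl, mul_one, ← pow_add] at a
    have b := hS.card_eq_pow_factorization p2
    rw [card_top, ← cS] at b
    have := (p2.pow_dvd_iff_le_factorization Nat.card_pos.ne').1 a
    have := Nat.pow_right_injective le_rfl b
    omega
  subst e2
  have hy' : y * c * y⁻¹ = c⁻¹ := by
    rcases hy with h | h | h
    exacts [h.2, h.2, absurd h.1 (by norm_num)]
  refine ⟨c, cS.symm, c.2, oc', fun s hs sc => ?_⟩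
  obtain ⟨i, hi⟩ := H3.exists_eq_zpow_mul_of_index_two ic yc (g := ⟨s, hs⟩) fun h => sc (by
    obtain ⟨j, hj⟩ := mem_zpowers_iff.1 h
    exact ⟨j, congrArg Subtype.val hj⟩)
  have : (⟨s, hs⟩ : S) * c * (⟨s, hs⟩ : S)⁻¹ = c⁻¹ := by
    rw [hi]
    calc c ^ i * y * c * (c ^ i * y)⁻¹ = c ^ i * (y * c * y⁻¹) * (c ^ i)⁻¹ := by group
      _ = c⁻¹ := by rw [hy']; group
  exact congrArg Subtype.val this

namespace E8

variable {S : Subgroup G} {c : G} (h : E8 S c)
include h

theorem c4 : c ^ 4 = 1 := h.ord ▸ pow_orderOf_eq_one c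

theorem ne : c⁻¹ ≠ c := fun e => by
  have : orderOf c ∣ 2 := orderOf_dvd_of_pow_eq_one (by rw [sq]; nth_rewrite 1 [← e]; simp)
  rw [h.ord] at this; omega

theorem oz : orderOf (c * c) = 2 := by
  rw [← sq, orderOf_pow, h.ord]; rfl

theorem zp {s : G} (hs : s ∈ zpowers c) : s = 1 ∨ s = c ∨ s = c * c ∨ s = c⁻¹ := by
  classical
  rw [mem_zpowers_iff_mem_range_orderOf, h.ord] at hs
  simp only [Finset.mem_image, Finset.mem_range] at hs
  obtain ⟨i, hi, rfl⟩ := hs
  interval_cases i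
  · simp
  · simp
  · simp [sq]
  · exact Or.inr (Or.inr (Or.inr (eq_inv_of_mul_eq_one_left (by rw [← pow_succ, h.c4]))))

theorem cen {s : G} (hs : s ∈ S) (hc : s ∈ 𝐂(S)) : s = 1 ∨ s = c * c := by
  obtain ⟨y, yS, yc⟩ : ∃ y ∈ S, y ∉ zpowers c := by
    by_contra hn
    push Not at hn
    have := Subgroup.card_dvd_of_le (show S ≤ zpowers c from hn)
    rw [h.card, Nat.card_zpowers, h.ord] at this
    omega
  have a := h.inv y yS yc
  by_cases sc : s ∈ zpowers c
  · rcases h.zp sc with e | e | e | e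
    · exact Or.inl e
    · exact absurd (by rw [← a, ← e, hc y yS, mul_inv_cancel_right]) h.ne
    · exact Or.inr e
    · have b := conj_inv' a
      rw [← e, hc y yS, mul_inv_cancel_right] at b
      exact absurd (e.symm.trans b) h.ne
  · exact absurd (by rw [← h.inv s hs sc, ← hc c h.mem, mul_inv_cancel_right]) h.ne

end E8

theorem star (R : Rat G) {x : G} (hx : 𝐨(𝐂[x]) = 4) {S : Subgroup G} (hS : IsSyl 2 S ⊤)
    (hle : 𝐂[x] ≤ S) {g : G} (h8 : 8 ∣ 𝐨(𝐂[g])) : g ∈ _root_.commutator G := by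
  have p2 := Nat.prime_two
  obtain ⟨Q, hQ⟩ := exists_isSyl p2 𝐂[g]
  have q8 : 8 ∣ 𝐨(Q) := by
    rw [hQ.card_eq_pow_factorization p2]
    exact pow_dvd_pow 2 ((p2.pow_dvd_iff_le_factorization Nat.card_pos.ne').1 (show 2 ^ 3 ∣ _ from h8))
  have qS := hS.card_dvd p2 hQ.pgrp le_top
  rcases syl R hx hS hle with h | ⟨c, h⟩
  · have := q8.trans qS
    rw [h] at this; omega
  have hQ' : IsSyl 2 Q ⊤ := hS.of_card_le p2 hQ.pgrp le_top (h.card ▸ Nat.le_of_dvd Nat.card_pos q8)
  obtain ⟨k, -, hk⟩ := hS.exists_conj_eq p2 hQ'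
  have a : k * g * k⁻¹ ∈ 𝐂(S) := by
    rw [← hk, cent_conj]
    exact conj_mem_conj (mem_cent_iff_cent1.2 hQ.le) k
  have b : k * g * k⁻¹ ∈ S := hle (mem_cent1.2 (a x (hle (mem_cent1.2 rfl))))
  have : k * g * k⁻¹ ∈ _root_.commutator G := by
    rcases h.cen b a with e | e <;> rw [e]
    exacts [one_mem _, R.sq c]
  simpa [mul_assoc] using (inferInstance : (_root_.commutator G).Normal).conj_mem _ this k⁻¹

theorem idx_four (EG : EGStmt.{u}) (hA : AH G) (F : Five G) {x : G} (hx : 𝐨(𝐂[x]) = 4) :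
    (_root_.commutator G).index ≠ 4 := fun h4 => by
  have p2 := Nat.prime_two
  have := Fact.mk p2
  have R := hA.rat
  obtain ⟨S, hS, hle⟩ := exists_isSyl_ge p2 (IsPGroup.of_card (n := 2) hx) le_top
  obtain ⟨s, hs, e⟩ := EG G hA (_root_.commutator G : Set G)ᶜ fun y hy g hg => hy (by
    simpa [mul_assoc] using (inferInstance : (_root_.commutator G).Normal).conj_mem _ hg g⁻¹)
  have b := B3 s fun n hn => by
    obtain ⟨y, hy, rfl⟩ := hs n hn
    refine ⟨fun q hq hd => F.1 q hq (hd.trans (card_subgroup_dvd_card _)), ?_,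
      fun h => hy (star R hx hS hle h), cent_ne_two (hx ▸ card_subgroup_dvd_card _) y,
      fun h => (F.2.1 y h).1⟩
    by_contra h
    exact hy (R.odd_mem fun h2 => h (h2.trans (ord_dvd_cent y)))
  have c1 := Set.ncard_add_ncard_compl (_root_.commutator G : Set G)
  have c2 := (_root_.commutator G).index_mul_card
  rw [h4] at c2
  change 𝐨(_root_.commutator G) + _ = _ at c1
  have c3 : (0 : ℝ) < Nat.card G := Nat.cast_pos.2 Nat.card_pos
  rw [← e, div_lt_iff₀ c3] at b
  have c4 : 4 * (_root_.commutator G : Set G)ᶜ.ncard = 3 * Nat.card G := by omega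
  have c5 : (4 : ℝ) * (_root_.commutator G : Set G)ᶜ.ncard = 3 * Nat.card G := by exact_mod_cast c4
  linarith

end Cfsg.Agent.P27
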