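/-
P27: no centralizer has order 4.
-/
import Cfsg.Agent.P27.N4a

set_option autoImplicit false
set_option linter.unusedSectionVars false

namespace Cfsg.Agent.P27

open Subgroup Cfsg Cfsg.Agent Cfsg.Agent.FT
open scoped commutatorElement

universe u

variable {G : Type u} [Group G] [Finite G]

theorem not_npc (R : Rat G) (h2 : (_root_.commutator G).index = 2) (h4 : 4 ∣ Nat.card G) :
    ¬ HasNPC 2 (_root_.commutator G) := fun h => by
  have p2 := Nat.prime_two
  have := Fact.mk p2
  have a : HasNormalPComplement 2 G := H8.hasNPC_iff_mul_coprime.2 fun a b ha hb => by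
    have ha' := R.odd_mem (p2.coprime_iff_not_dvd.1 ha.symm)
    have hb' := R.odd_mem (p2.coprime_iff_not_dvd.1 hb.symm)
    have := H8.hasNPC_iff_mul_coprime.1 ((hasNPC_iff p2).1 h) ⟨a, ha'⟩ ⟨b, hb'⟩
      (by rwa [← orderOf_coe]) (by rwa [← orderOf_coe])
    rwa [← orderOf_coe] at this
  obtain ⟨K, hK, ko, k, hk⟩ := H8.hasNPC_iff_exists.1 a
  have hp : IsPGroup 2 (G ⧸ K) := IsPGroup.of_card hk
  have e : _root_.commutator (G ⧸ K) = (_root_.commutator G).map (QuotientGroup.mk' K) := by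
    rw [_root_.commutator, _root_.commutator, map_commutator,
      map_top_of_surjective _ (QuotientGroup.mk'_surjective K)]
  have c : IsCyclic (G ⧸ K) := H3.isCyclic_of_isCyclic_quotient_commutator hp
    (isCyclic_of_card_dvd_prime (p := 2) (by
      change (_root_.commutator (G ⧸ K)).index ∣ 2
      rw [e, ← h2]
      exact index_map_dvd _ (QuotientGroup.mk'_surjective K)))
  have le : _root_.commutator G ≤ K := Normal.quotient_commutative_iff_commutator_le.1 inferInstance
  have d := index_dvd_of_le le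
  have f := K.index_mul_card
  rw [h2] at d
  rw [← f] at h4
  have := Nat.le_of_dvd two_pos (((Nat.Coprime.pow_right 2 ko).symm.dvd_of_dvd_mul_right h4).trans d)
  omega

theorem ord_two {a : G} (h : a * a = 1) (h1 : a ≠ 1) : orderOf a = 2 :=
  haveI := Fact.mk Nat.prime_two
  orderOf_eq_prime (by rw [sq, h]) h1

theorem idx_two (hs : Group.IsSolvable G) (hA : AH G) {x : G} (hx : 𝐨(𝐂[x]) = 4) :
    (_root_.commutator G).index ≠ 2 := fun h2 => by
  have p2 := Nat.prime_two
  have := Fact.mk p2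
  have R := hA.rat
  obtain ⟨S, hS, hle⟩ := exists_isSyl_ge p2 (IsPGroup.of_card (n := 2) hx) le_top
  have st : ∀ g, 8 ∣ 𝐨(𝐂[g]) → g ∈ _root_.commutator G := fun g => star R hx hS hle
  have nn := not_npc R h2 (hx ▸ card_subgroup_dvd_card _)
  set H := _root_.commutator G with hH
  have Hn : H.Normal := inferInstance
  have h0 : IsSyl 2 (S ⊓ H) H := hS.inf_normal p2 ⟨le_top, le_normalizer_of_normal⟩
  set S0 := S ⊓ H with hS0
  have nc : ¬ IsCyclic S0 := fun h => nn (cyclic_minFac_npc p2 h0 h fun q hq _ => hq.two_le)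
  have i0 : 𝐨(S0) * 2 = 𝐨(S) := by
    have a := H1.card_inf_mul_relIndex (H := H) (K := S)
    have b : H.relIndex S ∣ 2 := h2 ▸ relIndex_dvd_index_of_normal H S
    rcases (Nat.dvd_prime p2).1 b with b | b
    · have := hS.ndvd
      rw [relIndex_top_right] at this
      exact absurd (h2 ▸ index_dvd_of_le (relIndex_eq_one.1 b)) this
    · rw [← a, b, inf_comm]
  obtain ⟨c, E⟩ : ∃ c, E8 S c := (syl R hx hS hle).resolve_left fun h =>
    nc (isCyclic_of_prime_card (p := 2) (by omega))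
  have c0 : 𝐨(S0) = 4 := by have := E.card; omega
  have no4 : ∀ s ∈ S0, orderOf s ≠ 4 := fun s hs e => nc (by
    rw [← eq_of_le_of_card_ge (zpowers_le.2 hs) (by rw [c0, Nat.card_zpowers, e])]
    infer_instance)
  have sq1 : ∀ s ∈ S0, s * s = 1 := fun s hs => by
    have a := S0.orderOf_dvd_natCard hs
    rw [c0] at a
    have b := no4 s hs
    rw [← sq, ← orderOf_dvd_iff_pow_eq_one]
    have := Nat.le_of_dvd (by norm_num) a
    generalize orderOf s = o at *
    interval_cases o <;> omega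
  have ab : IsMulCommutative S0 := ⟨⟨fun a b => Subtype.ext (L.commute_of_sq_eq_one sq1 a.2 b.2)⟩⟩
  have cH : c ∉ H := fun h => no4 c ⟨E.mem, h⟩ E.ord
  set z := c * c with hz
  have z0 : z ∈ S0 := ⟨S.mul_mem E.mem E.mem, R.sq c⟩
  have z1 : z ≠ 1 := fun e => by have := E.oz; rw [← hz, e, orderOf_one] at this; omega
  have zz := sq1 z z0
  have out : ∀ v ∈ S0, v ≠ 1 → v ≠ z → v * c * v⁻¹ = c⁻¹ := fun v hv v1 vz =>
    E.inv v hv.1 fun h => by
      rcases E.zp h with e | e | e | e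
      exacts [v1 e, cH (e ▸ hv.2), vz e, cH (by simpa [e] using H.inv_mem hv.2)]
  have els : ∀ v ∈ S0, v ≠ 1 → v ≠ z → ∀ s ∈ S0, s = 1 ∨ s = z ∨ s = v ∨ s = v * z := by
    intro v hv v1 vz s hs
    by_contra hc
    push Not at hc
    obtain ⟨s1, sz, sv, svz⟩ := hc
    have a := out v hv v1 vz
    have b := out s hs s1 sz
    have d := out (v * s) (S0.mul_mem hv hs) (fun e => sv (by
      rw [← mul_left_cancel_iff (a := v), e, sq1 v hv])) (fun e => svz (by
      rw [← e, ← mul_assoc, sq1 v hv, one_mul]))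
    refine E.ne ?_
    rw [← d]
    calc v * s * c * (v * s)⁻¹ = v * (s * c * s⁻¹) * v⁻¹ := by group
      _ = c := by rw [b, conj_inv' a]
  -- an element moving `z`
  obtain ⟨g, gN, gz⟩ : ∃ g ∈ 𝐍(S0), g * z * g⁻¹ ≠ z := by
    by_contra hc
    push Not at hc
    refine nn (burnside_npc p2 h0 (le_of_forall_exists_isSyl_le fun p hp _ => ?_))
    by_cases e : p = 2
    · subst e
      exact ⟨S0, h0.of_le (le_inf h0.le le_normalizer) inf_le_left,
        fun a ha b hb => setLike_mul_comm hb ha⟩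
    obtain ⟨P, hP⟩ := exists_isSyl hp (H ⊓ 𝐍(S0))
    refine ⟨P, hP, fun g hg s hs => ?_⟩
    have gN := (hP.le hg).2
    have := Fact.mk hp
    obtain ⟨k, hk⟩ := IsPGroup.iff_orderOf.1 hP.pgrp ⟨g, hg⟩
    rw [← orderOf_coe] at hk
    have go : ¬ 2 ∣ orderOf g := fun h => e ((Nat.prime_dvd_prime_iff_eq p2 hp).1
      (p2.dvd_of_dvd_pow (hk ▸ h))).symm
    have key : g * g ∈ 𝐂[s] := by
      by_cases s1 : s = 1
      · exact mem_cent1.2 (by simp [s1])
      by_cases sz : s = z
      · rw [sz]; exact mul_mem (mem_cent1_iff_conj.2 (hc g gN)) (mem_cent1_iff_conj.2 (hc g gN))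
      rw [mem_cent1_iff_conj, show g * g * s * (g * g)⁻¹ = g * (g * s * g⁻¹) * g⁻¹ by group]
      rcases els s hs s1 sz _ ((mem_normalizer_iff.1 gN s).1 hs) with a | a | a | a
      · exact absurd (by simpa using a) s1
      · exact absurd (by simpa using a.trans (hc g gN).symm) sz
      · rw [a, a]
      · rw [a, ← conj_mul, a, hc g gN, mul_assoc, zz, mul_one]
    obtain ⟨j, hj⟩ : ∃ j, orderOf g + 1 = 2 * j := ⟨(orderOf g + 1) / 2, by omega⟩
    have := pow_mem key j
    rw [← sq, ← pow_mul, ← hj, pow_succ, pow_orderOf_eq_one, one_mul] at this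
    exact mem_cent1.1 this
  set v := g * z * g⁻¹ with hv
  have v0 : v ∈ S0 := (mem_normalizer_iff.1 gN z).1 z0
  have v1 : v ≠ 1 := fun e => z1 (by simpa [hv] using e)
  have vv := sq1 v v0
  have vi : v⁻¹ = v := inv_eq_of_mul_eq_one_left vv
  have vc := out v v0 v1 gz
  have cN : c ∈ 𝐍(S0) := H1.le_normalizer_inf le_normalizer le_normalizer_of_normal E.mem
  have cz : Commute c z := (Commute.refl c).mul_right (Commute.refl c)
  have vz : Commute v z := setLike_mul_comm v0 z0
  have cv : c * v * c⁻¹ = v * z := by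
    have a := conj_inv' vc
    have b : c⁻¹ * c⁻¹ = z := by rw [← mul_inv_rev]; exact inv_eq_of_mul_eq_one_left zz
    calc c * v * c⁻¹ = v * (v * c * v⁻¹) * c⁻¹ := by rw [vi]; simp [← mul_assoc, vv]
      _ = v * z := by rw [vc, mul_assoc, b]
  set a := c * v with ha
  have aH : a ∉ H := fun h => cH (by simpa [ha] using H.mul_mem h (H.inv_mem v0.2))
  have aa : a * a = 1 := by
    calc a * a = c * (v * c * v⁻¹) := by rw [vi, ha]; group
      _ = 1 := by rw [vc, mul_inv_cancel]
  have oa : orderOf a = 2 := ord_two aa fun e => aH (e ▸ H.one_mem)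
  have az : Commute a z := cz.mul_left vz
  have fc : ∀ o, ¬ 2 ∣ orderOf o → Commute c o → o = 1 := fun o h1 h3 => by
    by_contra o1
    have b := R.two_mul_dvd h3 (by
      rw [E.ord]; exact Nat.Coprime.pow_left 2 (p2.coprime_iff_not_dvd.2 h1)) (inv_ne_of_odd h1 o1)
    have d := (𝐂[c] ⊓ 𝐂[o]).orderOf_dvd_natCard (x := c) ⟨mem_cent1.2 rfl, mem_cent1.2 h3.symm⟩
    rw [E.ord] at d
    exact cH (st c ((Nat.mul_dvd_mul_left 2 d).trans b))
  have fa : ∀ o, ¬ 2 ∣ orderOf o → Commute a o → Commute z o → o = 1 := fun o h1 h3 h4 => by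
    by_contra o1
    have b := R.two_mul_dvd h3 (by rw [oa]; exact p2.coprime_iff_not_dvd.2 h1) (inv_ne_of_odd h1 o1)
    have d := four_dvd (L := 𝐂[a] ⊓ 𝐂[o]) oa E.oz (fun e => aH (e ▸ z0.2)) az
      ⟨mem_cent1.2 rfl, mem_cent1.2 h3.symm⟩ ⟨mem_cent1.2 az, mem_cent1.2 h4.symm⟩
    exact aH (st a ((Nat.mul_dvd_mul_left 2 d).trans b))
  have n4 : ∀ y, y ∉ H → 4 ∣ 𝐨(𝐂[y]) → (∀ o, ¬ 2 ∣ orderOf o → Commute y o → o = 1) →
      𝐨(𝐂[y]) = 4 := fun y yH d f => by
    have e : 𝐨(𝐂[y]) = 2 ^ (𝐨(𝐂[y])).primeFactorsList.length :=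
      Nat.eq_prime_pow_of_unique_prime_dvd Nat.card_pos.ne' fun {q} hq hd => by
        by_contra q2
        have := Fact.mk hq
        obtain ⟨o, ho⟩ := exists_prime_orderOf_dvd_card' (G := 𝐂[y]) q hd
        rw [← orderOf_coe] at ho
        have := f o (fun h => q2 ((Nat.prime_dvd_prime_iff_eq p2 hq).1 (ho ▸ h)).symm)
          (mem_cent1.1 o.2)
        rw [this, orderOf_one] at ho
        exact hq.one_lt.ne ho
    have n8 : ¬ 8 ∣ 𝐨(𝐂[y]) := fun h => yH (st y h)
    generalize (𝐨(𝐂[y])).primeFactorsList.length = k at e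
    rw [e] at d n8 ⊢
    have := (Nat.pow_dvd_pow_iff_le_right one_lt_two).1 (show 2 ^ 2 ∣ 2 ^ k from d)
    have : ¬ 3 ≤ k := fun h => n8 (pow_dvd_pow 2 h)
    rw [show k = 2 by omega]; rfl
  obtain ⟨b, ob, ab', b1⟩ : ∃ b, ¬ 2 ∣ orderOf b ∧ Commute a b ∧ b ≠ 1 := by
    by_contra hc
    push Not at hc
    have e := hA a c ((n4 a aH (four_dvd oa E.oz (fun e => aH (e ▸ z0.2)) az (mem_cent1.2 rfl)
      (mem_cent1.2 az)) hc).trans (n4 c cH (E.ord ▸ ord_dvd_cent c) fc).symm)
    obtain ⟨k, hk⟩ := isConj_iff.1 e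
    have := E.ord
    rw [← hk, ← MulAut.conj_apply, MulEquiv.orderOf_eq, oa] at this
    omega
  have tr : ∀ s ∈ S0, s ≠ 1 → ∃ h ∈ 𝐍(S0), h * z * h⁻¹ = s := fun s hs s1 => by
    rcases els v v0 v1 gz s hs with e | e | e | e
    · exact absurd e s1
    · exact ⟨1, one_mem _, by simp [e]⟩
    · exact ⟨g, gN, e.symm⟩
    · exact ⟨c * g, mul_mem cN gN, by rw [e, ← cv, ha, hv]; group⟩
  by_cases O : pCore 2 G = ⊥
  · have odd : ∀ o ∈ fittingSubgroup G, ¬ 2 ∣ orderOf o := fun o ho h => by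
      have a := L.mem_pCore_of_mem_fittingSubgroup p2 (x := o ^ (orderOf o / 2)) (k := 1)
        (by rw [← pow_mul, pow_one, Nat.div_mul_cancel h, pow_orderOf_eq_one]) (pow_mem ho _)
      rw [O, mem_bot, ← orderOf_dvd_iff_pow_eq_one] at a
      have := orderOf_pos o
      have := Nat.le_of_dvd (by omega) a
      omega
    have nA : ∀ w, Commute w z → w ∈ 𝐍(fittingSubgroup G ⊓ 𝐂[z]) := fun w hw =>
      H1.le_normalizer_inf le_normalizer_of_normal le_normalizer (mem_cent1.2 hw.symm)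
    have i1 := inv_fpf (nA c cz) (fun o ho => (mem_cent1.1 ho.2).symm) fun o ho h =>
      fc o (odd o ho.1) h
    have i2 := inv_fpf (nA a az) (by rw [aa]; exact one_mem _) fun o ho h =>
      fa o (odd o ho.1) h (mem_cent1.1 ho.2)
    have A0 : fittingSubgroup G ⊓ 𝐂[z] ≤ 𝐂(S0) := fun o ho s hs => by
      have ov : v * o = o * v := by
        have := (i2 o ho).trans (i1 o ho).symm
        rw [ha] at this
        calc v * o = c⁻¹ * (c * v * o * (c * v)⁻¹) * c * v := by group
          _ = o * v := by rw [this]; group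
      have oz := mem_cent1.1 ho.2
      rcases els v v0 v1 gz s hs with rfl | rfl | rfl | rfl
      · simp
      · exact oz
      · exact ov
      · rw [mul_assoc, oz, ← mul_assoc, ov, mul_assoc]
    have F0 : fittingSubgroup G ≤ 𝐂(S0) := H1.le_of_forall_centralizer_le ab nc
      le_normalizer_of_normal (by
        rw [c0]
        refine Nat.Coprime.pow_left 2 (p2.coprime_iff_not_dvd.2 fun h => ?_)
        obtain ⟨o, ho⟩ := exists_prime_orderOf_dvd_card' (G := fittingSubgroup G) 2 h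
        exact odd o o.2 (by rw [orderOf_coe, ho])) fun s hs s1 o ho => by
      obtain ⟨h, hN, rfl⟩ := tr s hs s1
      have : h⁻¹ * o * h ∈ 𝐂(S0) := A0 ⟨(inferInstance : (fittingSubgroup G).Normal).conj_mem' _
        ho.1 h, mem_cent1.2 (by
          have := mem_cent1.1 ho.2
          calc z * (h⁻¹ * o * h) = h⁻¹ * (h * z * h⁻¹ * o) * h := by group
            _ = _ := by rw [this]; group)⟩
      exact (mem_normalizer_iff''.1 (H1.le_normalizer_centralizer le_rfl hN) o).2 this
    exact odd z (L.centralizer_fittingSubgroup_le (cent_comm.1 F0 z0)) (by rw [E.oz])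
  · have On : (pCore 2 G).Normal := inferInstance
    have OS : pCore 2 G ≤ S := hS.le_of_le_norm p2 (L.isPGroup_pCore 2) le_top
      le_normalizer_of_normal
    obtain ⟨⟨t, ht⟩, t1⟩ := ne_bot_iff_exists_ne_one.1 (inf_center_ne_bot hS.pgrp.isNilpotent
      ⟨OS, le_normalizer_of_normal⟩ O)
    have zO : z ∈ pCore 2 G := by
      rcases E.cen (OS ht.1) ht.2 with e | e
      · exact absurd (Subtype.ext e) t1
      · exact hz ▸ e ▸ ht.1
    have bz : b * z * b⁻¹ ∈ S0 := ⟨OS (On.conj_mem _ zO b), Hn.conj_mem _ z0.2 b⟩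
    have ca : Commute a (b * z * b⁻¹) := (ab'.mul_right az).mul_right ab'.inv_right
    have av : ¬ Commute a v := fun h => E.ne (by
      have : Commute c v := by simpa [ha, mul_assoc, vv] using h.mul_left (Commute.refl v)
      rw [← vc, ← this.eq, mul_inv_cancel_right])
    rcases els v v0 v1 gz _ bz with e | e | e | e
    · exact z1 (by simpa using e)
    · exact b1 (fa b ob ab' (mul_inv_eq_iff_eq_mul.1 e).symm)
    · exact av (e ▸ ca)
    · rw [e] at ca
      exact av (by simpa [mul_assoc, zz] using ca.mul_right az)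

theorem n4Stmt (EG : EGStmt.{u}) : N4Stmt.{u} := by
  intro G _ _ hs hA F x hx
  have := Fact.mk Nat.prime_two
  obtain ⟨k, hk⟩ := IsPGroup.iff_card.1 hA.rat.pq
  change (_root_.commutator G).index = _ at hk
  have k2 : k ≤ 2 := (Nat.pow_le_pow_iff_right one_lt_two).1 (hk ▸ (idx_le x).trans hx.le)
  interval_cases k
  · have : Nontrivial G := by
      by_contra h
      rw [not_nontrivial_iff_subsingleton] at h
      rw [Nat.card_eq_one_iff_unique.2 ⟨inferInstance, inferInstance⟩] at hx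
      omega
    exact (IsSolvable.commutator_lt_top_of_nontrivial G).ne (index_eq_one.1 hk)
  · exact idx_two hs hA hx hk
  · exact idx_four EG hA F hx hk

end Cfsg.Agent.P27
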