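/-
P27, chapter NS: Sylow `p`-subgroups of solvable rational groups are normal for `p ≥ 5`.
-/
import Cfsg.Agent.P27.Defs
import Cfsg.Agent.H1.Generation
import Cfsg.Agent.L.MinNormal

set_option autoImplicit false
set_option linter.unusedSectionVars false
set_option linter.style.haveILetI false

namespace Cfsg.Agent.P27

open Subgroup Cfsg Cfsg.Agent Cfsg.Agent.FT Module
open scoped commutatorElement

universe u

namespace NS

variable {G : Type u} [Group G] [Finite G]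

/-- A linear character of `W`, extended by zero. -/
structure Ch (W : Subgroup G) (ν : G → ℂ) : Prop where
  mul : ∀ x ∈ W, ∀ y ∈ W, ν (x * y) = ν x * ν y
  zero : ∀ x, x ∉ W → ν x = 0
  one : ν 1 = 1

theorem Ch.inv {W : Subgroup G} {ν : G → ℂ} (h : Ch W ν) {x : G} (hx : x ∈ W) :
    ν x⁻¹ * ν x = 1 := by
  rw [← h.mul _ (inv_mem hx) _ hx, inv_mul_cancel, h.one]

theorem Ch.pow {W : Subgroup G} {ν : G → ℂ} (h : Ch W ν) {x : G} (hx : x ∈ W) (n : ℕ) :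
    ν (x ^ n) = ν x ^ n := by
  induction n with
  | zero => rw [pow_zero, pow_zero, h.one]
  | succ n ih => rw [pow_succ, pow_succ, h.mul _ (pow_mem hx n) _ hx, ih]

theorem eq_of_mem {W M : Subgroup G} [hW : W.Normal] (hd : W ⊓ M = ⊥) {w m c b : G} (hw : w ∈ W)
    (hm : m ∈ M) (hc : c ∈ M) (hb : b ∈ M) (h : w * m * c * (w * m)⁻¹ * b⁻¹ ∈ W) :
    m * c * m⁻¹ = b := by
  have e : m * c * m⁻¹ * b⁻¹ = w⁻¹ * (w * m * c * (w * m)⁻¹ * b⁻¹) * (b * w * b⁻¹) := by group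
  have h1 : m * c * m⁻¹ * b⁻¹ ∈ W ⊓ M := mem_inf.2 ⟨by
    rw [e]; exact mul_mem (mul_mem (inv_mem hw) h) (hW.conj_mem w hw b),
    mul_mem (mul_mem (mul_mem hm hc) (inv_mem hm)) (inv_mem hb)⟩
  rw [hd, mem_bot] at h1
  exact mul_inv_eq_one.1 h1

open Classical in
/-- The inner sum of the Fourier coefficient. -/
theorem inner {W : Subgroup G} [hW : W.Normal] [Fintype W] {ν : G → ℂ} (h : Ch W ν) (j : ℕ)
    (c b g : G) :
    ∑ w : W, ν (w : G)⁻¹ ^ j * ν (g * (w * c) * g⁻¹ * b⁻¹) = 0 ∨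
      (g * c * g⁻¹ * b⁻¹ ∈ W ∧ (∀ w ∈ W, ν w⁻¹ ^ j * ν (g * w * g⁻¹) = 1) ∧
      ∑ w : W, ν (w : G)⁻¹ ^ j * ν (g * (w * c) * g⁻¹ * b⁻¹) =
        Nat.card W * ν (g * c * g⁻¹ * b⁻¹)) := by
  have e : ∀ w : G, g * (w * c) * g⁻¹ * b⁻¹ = (g * w * g⁻¹) * (g * c * g⁻¹ * b⁻¹) := fun w => by
    group
  by_cases hd : g * c * g⁻¹ * b⁻¹ ∈ W
  · let ψ : W →* ℂ :=
      { toFun := fun w => ν (w : G)⁻¹ ^ j * ν (g * w * g⁻¹)
        map_one' := by simp [h.one]
        map_mul' := fun x y => by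
          have : g * ((x * y : W) : G) * g⁻¹ = (g * x * g⁻¹) * (g * y * g⁻¹) := by
            rw [coe_mul]; group
          rw [this, h.mul _ (hW.conj_mem _ x.2 g) _ (hW.conj_mem _ y.2 g), coe_mul, mul_inv_rev,
            h.mul _ (inv_mem y.2) _ (inv_mem x.2)]
          ring }
    have e2 : ∑ w : W, ν (w : G)⁻¹ ^ j * ν (g * (w * c) * g⁻¹ * b⁻¹) =
        (∑ w : W, ψ w) * ν (g * c * g⁻¹ * b⁻¹) := by
      rw [Finset.sum_mul]
      refine Finset.sum_congr rfl fun w _ => ?_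
      rw [e, h.mul _ (hW.conj_mem _ w.2 g) _ hd, ← mul_assoc]; rfl
    by_cases hψ : ψ = 1
    · refine Or.inr ⟨hd, fun w hw => ?_, ?_⟩
      · exact DFunLike.congr_fun hψ ⟨w, hw⟩
      · rw [e2, hψ]; simp
    · left
      rw [e2, sum_hom_units_eq_zero ψ hψ, zero_mul]
  · left
    refine Finset.sum_eq_zero fun w _ => ?_
    rw [h.zero (g * (w * c) * g⁻¹ * b⁻¹), mul_zero]
    rw [e]
    exact fun h' => hd ((W.mul_mem_cancel_left (hW.conj_mem _ w.2 g)).1 h')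

/-- The Fourier lemma. -/
theorem stab (hR : Rat G) {W M : Subgroup G} [hW : W.Normal]
    (hc : ∀ x ∈ W, ∀ y ∈ W, x * y = y * x) (hdec : ∀ g, ∃ w ∈ W, ∃ m ∈ M, w * m = g)
    (hd : W ⊓ M = ⊥) {ν : G → ℂ} (h : Ch W ν) {a : G} (ha : a ∈ M)
    (hs : ∀ w ∈ W, ν (a * w * a⁻¹) = ν w) {k : ℕ} (hk : k.Coprime (Nat.card G)) :
    ∃ m ∈ M, m * a * m⁻¹ = a ^ k ∧ ∀ w ∈ W, ν (m * w * m⁻¹) = ν w ^ k := by
  classical
  haveI := Fintype.ofFinite G
  have hb : ∀ n : ℕ, ∀ w ∈ W, ν (a ^ n * w * (a ^ n)⁻¹) = ν w := fun n => by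
    induction n with
    | zero => intro w _; simp
    | succ n ih =>
      intro w hw
      rw [show a ^ (n + 1) * w * (a ^ (n + 1))⁻¹ = a * (a ^ n * w * (a ^ n)⁻¹) * a⁻¹ by group,
        hs _ (hW.conj_mem _ hw _), ih w hw]
  set b := a ^ k with hbk
  have hbM : b ∈ M := pow_mem ha k
  let F : G → ℂ := fun x => ∑ g : G, ν (g * x * g⁻¹ * b⁻¹)
  have hF : ∀ x t : G, F (t * x * t⁻¹) = F x := fun x t =>
    Fintype.sum_equiv (Equiv.mulRight t) _ _ fun g => by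
      simp only [Equiv.coe_mulRight]; congr 1; group
  have hFk : ∀ x : G, F (x ^ k) = F x := fun x => by
    obtain ⟨t, ht⟩ := isConj_iff.1 (hR.card x hk)
    rw [← ht, hF]
  have sw : ∀ (j : ℕ) (c : G), ∑ w : W, ν (w : G)⁻¹ ^ j * F (w * c) =
      ∑ g : G, ∑ w : W, ν (w : G)⁻¹ ^ j * ν (g * (w * c) * g⁻¹ * b⁻¹) := fun j c => by
    rw [Finset.sum_comm]
    exact Finset.sum_congr rfl fun w _ => Finset.mul_sum _ _ _
  have cW : (0 : ℝ) < Nat.card W := Nat.cast_pos.2 Nat.card_pos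
  have t1 : ∑ w : W, ν (w : G)⁻¹ ^ 1 * F (w * b) ≠ 0 := by
    rw [sw]
    intro h0
    have h1 := congrArg Complex.re h0
    rw [Complex.re_sum, Complex.zero_re] at h1
    refine (Finset.sum_pos' (fun g _ => ?_) ⟨1, Finset.mem_univ _, ?_⟩).ne' h1
    · rcases inner h 1 b b g with h2 | ⟨h2, -, h3⟩
      · rw [h2]; simp
      · obtain ⟨w, hw, m, hm, rfl⟩ := hdec g
        have h4 := eq_of_mem hd hw hm hbM hbM h2
        have h5 : w * m * b * (w * m)⁻¹ * b⁻¹ = w * (b * w⁻¹ * b⁻¹) := by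
          rw [show w * m * b * (w * m)⁻¹ * b⁻¹ = w * (m * b * m⁻¹) * w⁻¹ * b⁻¹ by group, h4]
          group
        rw [h3, h5, h.mul _ hw _ (hW.conj_mem _ (inv_mem hw) _), hb k _ (inv_mem hw), mul_comm (ν w),
          h.inv hw]
        simp
    · have : ∑ w : W, ν (w : G)⁻¹ ^ 1 * ν (1 * (w * b) * 1⁻¹ * b⁻¹) = Nat.card W := by
        rw [Finset.sum_congr rfl (g := fun _ => (1 : ℂ)) fun w _ => by
          rw [show 1 * (w * b) * 1⁻¹ * b⁻¹ = (w : G) by group, pow_one, h.inv w.2]]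
        simp
      rw [this]; simpa using cW
  have hφ : ∀ n : ℕ, ∀ w ∈ W, (w * a) ^ n * (a ^ n)⁻¹ ∈ W ∧
      ν ((w * a) ^ n * (a ^ n)⁻¹) = ν w ^ n := fun n w hw => by
    induction n with
    | zero => simp [h.one]
    | succ n ih =>
      have e : (w * a) ^ (n + 1) * (a ^ (n + 1))⁻¹ =
          w * (a * ((w * a) ^ n * (a ^ n)⁻¹) * a⁻¹) := by
        rw [pow_succ' (w * a), pow_succ' a]; group
      rw [e]
      refine ⟨mul_mem hw (hW.conj_mem _ ih.1 _), ?_⟩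
      rw [h.mul _ hw _ (hW.conj_mem _ ih.1 _), hs _ ih.1, ih.2, pow_succ']
  let φ : W → W := fun w => ⟨(w * a) ^ k * (a ^ k)⁻¹, (hφ k w w.2).1⟩
  have φi : Function.Injective φ := fun x y hxy => by
    have h1 : ((x : G) * a) ^ k * (a ^ k)⁻¹ = ((y : G) * a) ^ k * (a ^ k)⁻¹ :=
      congrArg Subtype.val hxy
    exact Subtype.ext (mul_right_cancel ((powCoprime hk.symm).injective (mul_right_cancel h1)))
  have t2 : ∑ w : W, ν (w : G)⁻¹ ^ k * F (w * a) = ∑ w : W, ν (w : G)⁻¹ ^ 1 * F (w * b) := by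
    refine Fintype.sum_bijective φ (Finite.injective_iff_bijective.1 φi) _ _ fun w => ?_
    have h1 : ((φ w : W) : G) * b = (w * a) ^ k := by simp [φ, hbk]
    have h2 : ν ((φ w : W) : G) = ν w ^ k := (hφ k w w.2).2
    have h3 := h.inv (φ w).2
    have h4 := h.inv w.2
    rw [h1, hFk, pow_one]
    congr 1
    rw [h2] at h3
    calc ν (w : G)⁻¹ ^ k = ν (w : G)⁻¹ ^ k * (ν ((φ w : W) : G)⁻¹ * ν w ^ k) := by rw [h3, mul_one]
      _ = (ν (w : G)⁻¹ * ν w) ^ k * ν ((φ w : W) : G)⁻¹ := by ring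
      _ = _ := by rw [h4, one_pow, one_mul]
  rw [← t2, sw] at t1
  obtain ⟨g, -, hg⟩ := Finset.exists_ne_zero_of_sum_ne_zero t1
  rcases inner h k a b g with h2 | ⟨h2, h3, -⟩
  · exact absurd h2 hg
  obtain ⟨w, hw, m, hm, rfl⟩ := hdec g
  refine ⟨m, hm, eq_of_mem hd hw hm ha hbM h2, fun x hx => ?_⟩
  have h4 := h3 x hx
  have h5 : w * m * x * (w * m)⁻¹ = m * x * m⁻¹ := by
    rw [show w * m * x * (w * m)⁻¹ = w * (m * x * m⁻¹) * w⁻¹ by group,
      hc _ hw _ (hW.conj_mem _ hx _)]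
    group
  rw [h5] at h4
  calc ν (m * x * m⁻¹) = (ν x⁻¹ * ν x) ^ k * ν (m * x * m⁻¹) := by rw [h.inv hx, one_pow, one_mul]
    _ = (ν x⁻¹ ^ k * ν (m * x * m⁻¹)) * ν x ^ k := by ring
    _ = _ := by rw [h4, one_mul]

/-- The end of the argument, in a module. -/
theorem endg (D1 : D1Stmt.{u}) {p : ℕ} [Fact p.Prime] (h5 : 5 ≤ p) {Γ : Type u} [Group Γ]
    [Finite Γ] {V : Type u} [AddCommGroup V] [Module (ZMod p) V] [Finite V]
    (ρ : Γ →* End (ZMod p) V) (hR : Rat Γ) (hp : ¬ p ∣ Nat.card Γ) (V0 : Submodule (ZMod p) V)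
    {y0 : V} (hy : y0 ∉ V0) (hV : ∀ v, ∃ c : ZMod p, v - c • y0 ∈ V0)
    (h1 : ∀ y ∈ V0, ∃ g m : Γ, (∀ v ∈ V0, ρ g v ∈ V0) ∧ (∀ v ∈ V0, ρ m v ∈ V0) ∧
      ρ g y = (2 : ZMod p) • y ∧ m * g * m⁻¹ = g⁻¹)
    (h2 : ∀ y, ∃ g, ρ g y = (2 : ZMod p) • y) : False := by
  classical
  have h3 : (2 : ZMod p) ^ 2 ≠ 1 := fun h => by
    have : ((3 : ℕ) : ZMod p) = 0 := by push_cast; linear_combination h
    have := Nat.le_of_dvd (by norm_num) ((ZMod.natCast_eq_zero_iff _ _).1 this)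
    omega
  have ap : ∀ (a b : Γ) (v : V), ρ (a * b) v = ρ a (ρ b v) := fun a b v => by rw [map_mul]; rfl
  have sc : ∀ e : Γ, (∀ v ∈ V0, ρ e v ∈ V0) → ∃ c : ZMod p, ∀ v, ρ e v - c • v ∈ V0 :=
    fun e he => by
      obtain ⟨c, hc⟩ := hV (ρ e y0)
      refine ⟨c, fun v => ?_⟩
      obtain ⟨a, ha⟩ := hV v
      have : ρ e v - c • v = ρ e (v - a • y0) - c • (v - a • y0) + a • (ρ e y0 - c • y0) := by
        simp only [map_sub, map_smul]; module
      rw [this]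
      exact add_mem (sub_mem (he _ ha) (V0.smul_mem _ ha)) (V0.smul_mem _ hc)
  have z0 : ∀ c : ZMod p, c • y0 ∈ V0 → c = 0 := fun c hc => by
    by_contra h
    exact hy (by simpa [h] using V0.smul_mem c⁻¹ hc)
  let B : Subgroup Γ :=
    { carrier := {e | ∀ v, ρ e v - v ∈ V0}
      one_mem' := fun v => by simp
      mul_mem' := fun {a b} ha hb v => by
        rw [ap, show ρ a (ρ b v) - v = (ρ a (ρ b v) - ρ b v) + (ρ b v - v) by abel]
        exact add_mem (ha _) (hb _)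
      inv_mem' := fun {a} ha v => by
        have := neg_mem (ha (ρ a⁻¹ v))
        rwa [← ap, mul_inv_cancel, map_one, End.one_apply, neg_sub] at this }
  by_cases hc : ∃ y ∈ V0, y ≠ 0 ∧ ∀ b ∈ B, ρ b y = y
  · obtain ⟨y, y0', y1, y2⟩ := hc
    obtain ⟨g, m, g0, m0, g1, g2⟩ := h1 y y0'
    obtain ⟨c, hc⟩ := sc g g0
    obtain ⟨d, hd⟩ := sc m m0
    have gm : g * (m * g) = m := by
      rw [show m * g = g⁻¹ * m by rw [← g2]; group]; group
    have d0 : d ≠ 0 := by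
      rintro rfl
      have a1 : ρ m y0 ∈ V0 := by simpa using hd y0
      have a2 : ∀ n : ℕ, ρ (m ^ (n + 1)) y0 ∈ V0 := fun n => by
        induction n with
        | zero => simpa using a1
        | succ n ih => rw [pow_succ', ap]; exact m0 _ ih
      obtain ⟨n, hn⟩ := Nat.exists_eq_succ_of_ne_zero (orderOf_pos m).ne'
      have := a2 n
      rw [← Nat.succ_eq_add_one, ← hn, pow_orderOf_eq_one, map_one] at this
      exact hy this
    have cc : c * c = 1 := by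
      have e : (c * d * c - d) • y0 = (ρ m y0 - d • y0) - (ρ g (ρ m (ρ g y0)) - c • ρ m (ρ g y0))
          - c • (ρ m (ρ g y0) - d • ρ g y0) - (c * d) • (ρ g y0 - c • y0) := by
        rw [← ap g m, ← ap (g * m) g, mul_assoc g, gm]; module
      have := z0 _ (e ▸ sub_mem (sub_mem (sub_mem (hd _) (hc _)) (V0.smul_mem _ (hd _)))
        (V0.smul_mem _ (hc _)))
      exact mul_left_cancel₀ d0 (by linear_combination this)
    have gB : g * g ∈ B := fun v => by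
      have e : ρ (g * g) v - v = (ρ g (ρ g v) - c • ρ g v) + c • (ρ g v - c • v) := by
        rw [ap, smul_sub, smul_smul, cc, one_smul]; abel
      rw [e]
      exact add_mem (hc _) (V0.smul_mem _ (hc _))
    have := y2 _ gB
    rw [ap, g1, map_smul, g1, smul_smul, ← sub_eq_zero] at this
    nth_rewrite 2 [← one_smul (ZMod p) y] at this
    rw [← sub_smul, smul_eq_zero] at this
    rcases this with h | h
    · exact h3 (by linear_combination h)
    · exact y1 h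
  push Not at hc
  haveI := Fintype.ofFinite B
  have nB : (Nat.card B : ZMod p) ≠ 0 := fun h =>
    hp (((ZMod.natCast_eq_zero_iff _ _).1 h).trans (card_subgroup_dvd_card B))
  let y := ∑ b : B, ρ b y0
  have y1 : y - (Nat.card B : ZMod p) • y0 ∈ V0 := by
    have : y - (Nat.card B : ZMod p) • y0 = ∑ b : B, (ρ b y0 - y0) := by
      rw [Finset.sum_sub_distrib, Finset.sum_const, Finset.card_univ, Nat.card_eq_fintype_card,
        Nat.cast_smul_eq_nsmul]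
    rw [this]
    exact sum_mem fun b _ => b.2 y0
  have y2 : ∀ b ∈ B, ρ b y = y := fun b hb => by
    simp only [y, map_sum]
    exact Fintype.sum_equiv (Equiv.mulLeft (⟨b, hb⟩ : B)) _ _ fun x => by
      rw [← ap]; rfl
  have y3 : y ≠ 0 := fun h => by
    rw [h, zero_sub] at y1
    exact nB (z0 _ (neg_mem_iff.1 y1))
  obtain ⟨g, hg⟩ := h2 y
  obtain ⟨v, v1, v2⟩ := D1 p Γ V ρ hR hp y g 2 y3 hg h3
  obtain ⟨a, ha⟩ := hV v
  have v3 : v - (a * (Nat.card B : ZMod p)⁻¹) • y ∈ V0 := by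
    have : v - (a * (Nat.card B : ZMod p)⁻¹) • y = (v - a • y0) -
        (a * (Nat.card B : ZMod p)⁻¹) • (y - (Nat.card B : ZMod p) • y0) := by
      rw [smul_sub, smul_smul, mul_assoc, inv_mul_cancel₀ nB, mul_one]; abel
    rw [this]
    exact sub_mem ha (V0.smul_mem _ y1)
  obtain ⟨b, hb, hb'⟩ := hc _ v3 (sub_ne_zero.2 (v2 _))
  exact hb' (by rw [map_sub, map_smul, y2 b hb, v1 b (y2 b hb)])

/-- `Ω₁(Z(P))`. -/
def zp (P : Subgroup G) (p : ℕ) : Subgroup G where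
  carrier := {x | x ∈ P ∧ x ∈ 𝐂(P) ∧ x ^ p = 1}
  one_mem' := ⟨one_mem _, one_mem _, one_pow _⟩
  mul_mem' := fun {a b} ha hb => ⟨mul_mem ha.1 hb.1, mul_mem ha.2.1 hb.2.1, by
    rw [(show Commute a b from hb.2.1 a ha.1).mul_pow, ha.2.2, hb.2.2, one_mul]⟩
  inv_mem' := fun {a} ha => ⟨inv_mem ha.1, inv_mem ha.2.1, by rw [inv_pow, ha.2.2, inv_one]⟩

theorem normal_of {W M K : Subgroup G} (h : M ⊔ W = ⊤) (h1 : M ≤ 𝐍(K)) (h2 : W ≤ 𝐍(K)) :
    K.Normal := normalizer_eq_top_iff.1 (top_le_iff.1 (h ▸ sup_le h1 h2))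

theorem exists_ch {W K : Subgroup G} (hW : IsMulCommutative W) {w0 : G} (h0 : w0 ∈ W)
    (h1 : w0 ∉ K) : ∃ ν : G → ℂ, Ch W ν ∧ ν w0 ≠ 1 ∧ ∀ x ∈ W, x ∈ K → ν x = 1 := by
  classical
  letI : CommGroup W := { (inferInstance : Group W) with mul_comm := hW.is_comm.comm }
  obtain ⟨φ, hφ⟩ := CommGroup.exists_apply_ne_one_of_hasEnoughRootsOfUnity (W ⧸ K.subgroupOf W) ℂ
    (a := QuotientGroup.mk ⟨w0, h0⟩) (fun h => h1 ((QuotientGroup.eq_one_iff (⟨w0, h0⟩ : W)).1 h))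
  refine ⟨fun x => if hx : x ∈ W then (φ (QuotientGroup.mk ⟨x, hx⟩) : ℂ) else 0,
    ⟨fun x hx y hy => ?_, fun x hx => dif_neg hx, ?_⟩, ?_, fun x hx hK => ?_⟩
  · rw [dif_pos hx, dif_pos hy, dif_pos (mul_mem hx hy), ← Units.val_mul, ← map_mul]; rfl
  · rw [dif_pos (one_mem W)]
    exact congrArg Units.val φ.map_one
  · simp only [dif_pos h0]
    exact fun h => hφ (Units.ext h)
  · simp only [dif_pos hx]
    rw [(QuotientGroup.eq_one_iff (⟨x, hx⟩ : W)).2 hK, map_one, Units.val_one]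

theorem core (D1 : D1Stmt.{u}) (hR : Rat G) {p q : ℕ} [hp : Fact p.Prime] (h5 : 5 ≤ p)
    (hq : q.Prime) (hpq : p ≠ q) (P : Sylow p G) {W : Subgroup G} [hW : W.Normal]
    (eW : IsElementaryAbelian q W) (W0 : W ≠ ⊥) (hMW : 𝐍((P : Subgroup G)) ⊔ W = ⊤)
    (hd : W ⊓ 𝐍((P : Subgroup G)) = ⊥) (V1 : zp (P : Subgroup G) p ≠ ⊥)
    (hC : W ⊓ 𝐂(zp (P : Subgroup G) p) = ⊥) (hMV : 𝐍((P : Subgroup G)) ≤ 𝐍(zp (P : Subgroup G) p)) :
    False := by
  classical
  set M := 𝐍((P : Subgroup G)) with hM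
  set V := zp (P : Subgroup G) p with hVd
  have VP : V ≤ P := fun x hx => hx.1
  have VM : V ≤ M := VP.trans le_normalizer
  have cV : IsMulCommutative V := ⟨⟨fun a b => Subtype.ext (b.2.2.1 a a.2.1)⟩⟩
  have eV : IsElementaryAbelian p V := ⟨cV, fun a ha => ha.2.2⟩
  have hc : ∀ x ∈ W, ∀ y ∈ W, x * y = y * x := fun x hx y hy =>
    congrArg Subtype.val (eW.1.is_comm.comm (⟨x, hx⟩ : W) ⟨y, hy⟩)
  have hdec : ∀ g, ∃ w ∈ W, ∃ m ∈ M, w * m = g := fun g =>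
    (H1.mem_sup_iff_of_le_normalizer' (A := M) (N := W) le_normalizer_of_normal).1
      (hMW ▸ mem_top g)
  have cop : (Nat.card V).Coprime (Nat.card W) :=
    IsPGroup.coprime_card_of_ne p q hpq (hp₂ := ⟨hq⟩) _ _ (L.IsElementaryAbelian.isPGroup eV)
      (L.IsElementaryAbelian.isPGroup eW)
  obtain ⟨V0, V0V, V0p, hV0⟩ : ∃ V0 : Subgroup G, V0 ≤ V ∧ V0.relIndex V = p ∧ ¬ W ⊓ 𝐂(V0) ≤ ⊥ := by
    by_contra! h
    exact W0 (le_bot_iff.1 (H1.le_of_forall_hyperplane hp.out eV V1 le_normalizer_of_normal cop h))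
  obtain ⟨w0, hw0, hw1⟩ := SetLike.not_le_iff_exists.1 hV0
  obtain ⟨ν, h, ν0, ν1⟩ := exists_ch (K := ⁅W, V0⁆) eW.1 hw0.1 fun h => hw1 (by
    rw [← H1.centralizer_inf_commutator_eq_bot (A := V0) eW.1 le_normalizer_of_normal
      (cop.coprime_dvd_left (Subgroup.card_dvd_of_le V0V))]
    exact ⟨hw0.2, h⟩)
  let A : Subgroup G :=
    { carrier := {a | ∀ w ∈ W, ν (a * w * a⁻¹) = ν w}
      one_mem' := fun w _ => by simp
      mul_mem' := fun {a b} ha hb w hw => by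
        rw [show a * b * w * (a * b)⁻¹ = a * (b * w * b⁻¹) * a⁻¹ by group,
          ha _ (hW.conj_mem _ hw _), hb _ hw]
      inv_mem' := fun {a} ha w hw => by
        rw [← ha _ (hW.conj_mem _ hw a⁻¹)]; congr 1; group }
  have V0A : V0 ≤ A := fun a ha w hw => by
    have h1 : ⁅w⁻¹, a⁆ ∈ W := (commutator_le_left W V0 :) (commutator_mem_commutator (inv_mem hw) ha)
    rw [show a * w * a⁻¹ = w * ⁅w⁻¹, a⁆ by rw [commutatorElement_def]; group, h.mul _ hw _ h1,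
      ν1 _ h1 (commutator_mem_commutator (inv_mem hw) ha), mul_one]
  have VA : ¬ V ≤ A := fun hVA => by
    let K : Subgroup G :=
      { carrier := {w | w ∈ W ∧ ν w = 1}
        one_mem' := ⟨one_mem _, h.one⟩
        mul_mem' := fun {a b} ha hb => ⟨mul_mem ha.1 hb.1, by
          rw [h.mul _ ha.1 _ hb.1, ha.2, hb.2, one_mul]⟩
        inv_mem' := fun {a} ha => ⟨inv_mem ha.1, by simpa [ha.2] using h.inv ha.1⟩ }
    have h1 : ⁅W, V⁆ ≤ K := commutator_le.2 fun w hw v hv => by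
      have h2 := hW.conj_mem _ (inv_mem hw) v
      rw [show ⁅w, v⁆ = w * (v * w⁻¹ * v⁻¹) by rw [commutatorElement_def]; group]
      exact ⟨mul_mem hw h2, by rw [h.mul _ hw _ h2, hVA hv _ (inv_mem hw), mul_comm, h.inv hw]⟩
    have h2 := H1.commutator_sup_centralizer (A := V) (G := W) le_normalizer_of_normal cop
      (Or.inl (Group.isSolvable_of_comm cV.is_comm.comm))
    rw [hC, sup_bot_eq] at h2
    exact ν0 (h1 (h2.symm ▸ hw0.1)).2
  obtain ⟨y0, y1, y2⟩ := SetLike.not_le_iff_exists.1 VA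
  have hmax : ∀ U : Subgroup G, V0 ≤ U → U ≤ V → U = V ∨ U = V0 := fun U h1 h2 => by
    have h3 := relIndex_mul_relIndex V0 U V h1 h2
    rw [V0p] at h3
    rcases (Nat.dvd_prime hp.out).1 (Dvd.intro_left _ h3) with h4 | h4
    · exact Or.inl (le_antisymm h2 (relIndex_eq_one.1 h4))
    · rw [h4, mul_eq_right₀ hp.out.ne_zero] at h3
      exact Or.inr (le_antisymm (relIndex_eq_one.1 h3) h1)
  have hVA : V ⊓ A = V0 := (hmax _ (le_inf V0V V0A) inf_le_left).resolve_left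
    fun h => VA (h ▸ inf_le_right)
  have hgen : V0 ⊔ zpowers y0 = V :=
    (hmax _ le_sup_left (sup_le V0V (zpowers_le.2 y1))).resolve_right fun h =>
      y2 (V0A (h ▸ mem_sup_right (mem_zpowers y0)))
  have nrm : ∀ (k : ℕ), ∀ m ∈ M, (∀ w ∈ W, ν (m * w * m⁻¹) = ν w ^ k) → ∀ v ∈ V0,
      m * v * m⁻¹ ∈ V0 := fun k m hm hk v hv => by
    rw [← hVA]
    refine ⟨H1.conj_mem_of_le_normalizer hMV hm (V0V hv), fun w hw => ?_⟩
    have h1 := hW.conj_mem _ hw m⁻¹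
    rw [show m * v * m⁻¹ * w * (m * v * m⁻¹)⁻¹ = m * (v * (m⁻¹ * w * m⁻¹⁻¹) * v⁻¹) * m⁻¹ by group,
      hk _ (hW.conj_mem _ h1 _), V0A hv _ h1, ← hk _ h1]
    congr 1; group
  obtain ⟨k, k1, k2, k3⟩ : ∃ k : ℕ, k.Coprime (Nat.card G) ∧ k ≡ 2 [MOD p] ∧ k ≡ 1 [MOD q] := by
    obtain ⟨k, k1, k2⟩ := Nat.chineseRemainder ((Nat.coprime_primes hp.out hq).2 hpq) 2 1
    obtain ⟨k', a, b⟩ := cop_lift (a := p * q) (b := p * q * Nat.card G) (k := k)
      (mul_ne_zero (mul_ne_zero hp.out.ne_zero hq.ne_zero) Nat.card_pos.ne') (dvd_mul_right _ _)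
      (Nat.Coprime.mul_right (by
        rw [Nat.Coprime, k1.gcd_eq]
        exact (Nat.coprime_primes Nat.prime_two hp.out).2 (by omega))
        (by rw [Nat.Coprime, k2.gcd_eq, Nat.gcd_one_left]))
    exact ⟨k', a.coprime_dvd_right (dvd_mul_left _ _), (b.of_mul_right q).trans k1,
      (b.of_mul_left p).trans k2⟩
  have pk : ∀ {x : G} {n a b : ℕ}, x ^ n = 1 → a ≡ b [MOD n] → x ^ a = x ^ b := fun h1 h2 =>
    pow_eq_pow_iff_modEq.2 (h2.of_dvd (orderOf_dvd_of_pow_eq_one h1))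
  obtain ⟨n, hn⟩ := Nat.exists_eq_succ_of_ne_zero (Nat.card_pos (α := G)).ne'
  have n1 : n.Coprime (Nat.card G) := by rw [hn]; simp
  have n2 : ∀ g : G, g ^ n = g⁻¹ := fun g => eq_inv_of_mul_eq_one_left (by
    rw [← pow_succ, ← Nat.succ_eq_add_one, ← hn, pow_card_eq_one'])
  have RM : Rat M := fun x j hj => by
    obtain ⟨g, hg⟩ := isConj_iff.1 (hR x j (by rwa [orderOf_coe]))
    obtain ⟨w, hw, m, hm, rfl⟩ := hdec g
    exact isConj_iff.2 ⟨⟨m, hm⟩, Subtype.ext (eq_of_mem hd hw hm x.2 (pow_mem x.2 j)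
      (by rw [hg]; exact (mul_inv_cancel ((x : G) ^ j)).symm ▸ one_mem _))⟩
  letI : CommGroup V := { (inferInstance : Group V) with mul_comm := cV.is_comm.comm }
  have ex : ∀ v : V, v ^ p = 1 := fun v => Subtype.ext v.2.2.2
  haveI nP : ((P : Subgroup G).subgroupOf M).Normal := normal_in_normalizer
  let φ : M ⧸ (P : Subgroup G).subgroupOf M →* MulAut V := QuotientGroup.lift _ (H1.conjAut hMV)
    fun x hx => (H1.mem_ker_conjAut hMV).2 fun v hv => (hv.2.1 x hx).symm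
  have st : ∀ (m : G) (hm : m ∈ M), (∀ v ∈ V0, m * v * m⁻¹ ∈ V0) →
      ∀ v ∈ H1.eaSubmodule ex (V0.subgroupOf V),
        H1.autRep ex φ (QuotientGroup.mk ⟨m, hm⟩) v ∈ H1.eaSubmodule ex (V0.subgroupOf V) :=
    fun m hm h1 v hv => by
      obtain ⟨v, rfl⟩ := (H1.eaOf ex).surjective v
      rw [H1.autRep_apply, H1.eaOf_mem_eaSubmodule]
      exact h1 v ((H1.eaOf_mem_eaSubmodule ex).1 hv)
  have two : ∀ (g : G) (hg : g ∈ M) (v : V), g * v * g⁻¹ = (v : G) ^ k →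
      H1.autRep ex φ (QuotientGroup.mk ⟨g, hg⟩) (H1.eaOf ex v) = (2 : ZMod p) • H1.eaOf ex v :=
    fun g hg v h1 => by
      rw [H1.autRep_apply, show φ (QuotientGroup.mk ⟨g, hg⟩) v = v ^ 2 from
        Subtype.ext (h1.trans (pk v.2.2.2 k2)), H1.eaOf_pow, two_smul, two_smul]
  refine endg D1 h5 (H1.autRep ex φ) (RM.quot _) (fun h1 => ?_)
    (H1.eaSubmodule ex (V0.subgroupOf V)) (y0 := H1.eaOf ex ⟨y0, y1⟩)
    (fun h1 => y2 (V0A ((H1.eaOf_mem_eaSubmodule ex).1 h1))) (fun v => ?_) (fun y hy => ?_)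
    fun y => ?_
  · exact P.not_dvd_index (h1.trans (relIndex_dvd_index_of_le le_normalizer))
  · obtain ⟨v, rfl⟩ := (H1.eaOf ex).surjective v
    have hy0 : zpowers y0 ≤ 𝐍(V0) := zpowers_le.2 (mem_normalizer_iff.2 fun x => by
      refine ⟨fun hx => ?_, fun hx => ?_⟩
      · rw [(V0V hx).2.1 y0 y1.1, mul_inv_cancel_right]; exact hx
      · have := (V0V hx).2.1 y0 y1.1
        rwa [show x = y0 * x * y0⁻¹ from mul_left_cancel (a := y0) (by rw [this]; group)])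
    obtain ⟨a, ha, b, hb, hab⟩ := (H1.mem_sup_iff_of_le_normalizer' hy0).1
      (by rw [sup_comm, hgen]; exact v.2)
    obtain ⟨c, rfl⟩ := (mem_powers_iff_mem_zpowers.2 hb :)
    refine ⟨c, ?_⟩
    have : v = ⟨a, V0V ha⟩ * ⟨y0, y1⟩ ^ c := Subtype.ext hab.symm
    rw [this, H1.eaOf_mul, H1.eaOf_pow, Nat.cast_smul_eq_nsmul, add_sub_cancel_right,
      H1.eaOf_mem_eaSubmodule]
    exact ha
  · obtain ⟨v, rfl⟩ := (H1.eaOf ex).surjective y
    have hv : (v : G) ∈ V0 := (H1.eaOf_mem_eaSubmodule ex).1 hy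
    obtain ⟨g, g0, g1, g2⟩ := stab hR hc hdec hd h (VM v.2) (V0A hv) k1
    have gA : g ∈ A := fun w hw => by
      rw [g2 w hw, ← h.pow hw, pk (eW.2 w hw) k3, pow_one]
    obtain ⟨m, m0, m1, m2⟩ := stab hR hc hdec hd h g0 gA n1
    refine ⟨QuotientGroup.mk ⟨g, g0⟩, QuotientGroup.mk ⟨m, m0⟩, st g g0 (nrm k g g0 g2),
      st m m0 (nrm n m m0 m2), two g g0 v g1, ?_⟩
    rw [← QuotientGroup.mk_mul, ← QuotientGroup.mk_inv, ← QuotientGroup.mk_mul,
      ← QuotientGroup.mk_inv]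
    exact congrArg _ (Subtype.ext (m1.trans (n2 g)))
  · obtain ⟨v, rfl⟩ := (H1.eaOf ex).surjective y
    obtain ⟨g, hg⟩ := isConj_iff.1 (RM ⟨v, VM v.2⟩ k (k1.coprime_dvd_right
      ((_root_.orderOf_dvd_natCard _).trans (card_subgroup_dvd_card M))))
    exact ⟨QuotientGroup.mk g, two g g.2 v (congrArg Subtype.val hg)⟩

end NS

open NS in
theorem nsStmt (D1 : D1Stmt.{u}) : NSStmt.{u} := by
  intro G _ _ hs hR p hp h5
  revert hs hR
  refine L.induction_on_card (P := fun G _ _ => Group.IsSolvable G → Rat G →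
    ∀ P : Sylow p G, (P : Subgroup G).Normal) G fun G _ _ IH hs hR P => ?_
  have hq : ∀ (N : Subgroup G) [N.Normal], N ≠ ⊥ → ((P : Subgroup G) ⊔ N).Normal := fun N _ h => by
    have := (IH (G ⧸ N) (L.card_quotient_lt N h) inferInstance (hR.quot N)
      (P.mapSurjective (QuotientGroup.mk'_surjective N))).comap (QuotientGroup.mk' N)
    rwa [Sylow.coe_mapSurjective, comap_map_eq, QuotientGroup.ker_mk'] at this
  by_contra hn
  have hO : ∀ (N : Subgroup G) [N.Normal], IsPGroup p N → N = ⊥ := fun N _ h => by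
    by_contra h0
    have := hq N h0
    rw [sup_eq_left.2 (h.le_sylow_of_normal P)] at this
    exact hn this
  have P0 : (P : Subgroup G) ≠ ⊥ := fun h => hn (h ▸ inferInstance)
  haveI : Nontrivial G := (nontrivial_iff_exists_ne 1).2 (by
    obtain ⟨x, h⟩ := ne_bot_iff_exists_ne_one.1 P0
    exact ⟨x, fun h' => h (Subtype.ext h')⟩)
  obtain ⟨W, q, mW, hq', eW⟩ := L.exists_isMinNormal_isElementaryAbelian (G := G)
  haveI := mW.1
  have hpq : p ≠ q := fun h => mW.2.1 (hO W (h ▸ L.IsElementaryAbelian.isPGroup eW))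
  haveI := hq W mW.2.1
  have hMW : 𝐍((P : Subgroup G)) ⊔ W = ⊤ := by
    have : 𝐍((P : Subgroup G)) ⊔ _ = ⊤ :=
      Sylow.normalizer_sup_eq_top' (N := (P : Subgroup G) ⊔ W) P le_sup_left
    rwa [← sup_assoc, sup_eq_left.2 le_normalizer] at this
  have hWn : ∀ K ≤ W, W ≤ 𝐍(K) := fun K hK w hw => mem_normalizer_iff.2 fun x => by
    have hc : ∀ x ∈ W, w * x * w⁻¹ = x := fun x hx => mul_inv_eq_iff_eq_mul.2
      (congrArg Subtype.val (eW.1.is_comm.comm (⟨w, hw⟩ : W) ⟨x, hx⟩))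
    refine ⟨fun h => by rwa [hc x (hK h)], fun h => ?_⟩
    have := hc _ (hK h)
    rwa [← show w * x * w⁻¹ = x from mul_left_cancel (a := w) (mul_right_cancel (b := w⁻¹) this)]
  have hMV : 𝐍((P : Subgroup G)) ≤ 𝐍(zp (P : Subgroup G) p) := by
    have : ∀ m ∈ 𝐍((P : Subgroup G)), ∀ x ∈ zp (P : Subgroup G) p,
        m * x * m⁻¹ ∈ zp (P : Subgroup G) p := fun m hm x hx =>
      ⟨H1.conj_mem_of_le_normalizer le_rfl hm hx.1, H1.conj_mem_of_le_normalizer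
        (H1.le_normalizer_centralizer le_rfl) hm hx.2.1, by rw [conj_pow, hx.2.2]; group⟩
    intro m hm
    refine mem_normalizer_iff.2 fun x => ⟨this m hm x, fun h => ?_⟩
    simpa [mul_assoc] using this _ (inv_mem hm) _ h
  have V1 : zp (P : Subgroup G) p ≠ ⊥ := by
    haveI := (Subgroup.nontrivial_iff_ne_bot _).2 P0
    haveI := P.isPGroup'.center_nontrivial
    obtain ⟨z, hz⟩ := exists_prime_orderOf_dvd_card' (G := center P) p
      (by
        obtain ⟨k, k0, hk⟩ := (P.isPGroup'.to_subgroup (center P)).nontrivial_iff_card.1 this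
        rw [hk]; exact dvd_pow_self _ k0.ne')
    refine ne_bot_iff_exists_ne_one.2 ⟨⟨((z : P) : G), z.1.2, fun x hx => ?_, ?_⟩, fun h => ?_⟩
    · exact congrArg Subtype.val (mem_center_iff.1 z.2 ⟨x, hx⟩)
    · have h1 := pow_orderOf_eq_one z
      rw [hz] at h1
      exact congrArg (fun x : center P => ((x : P) : G)) h1
    · have h' : ((z : P) : G) = 1 := congrArg Subtype.val h
      have : z = 1 := Subtype.ext (Subtype.ext h')
      rw [this, orderOf_one] at hz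
      omega
  refine core D1 hR h5 hq' hpq P eW mW.2.1 hMW ?_ V1 ?_ hMV
  · refine (mW.2.2 _ (normal_of hMW (H1.le_normalizer_inf le_normalizer_of_normal le_normalizer)
      (hWn _ inf_le_left)) inf_le_left).resolve_right fun h => hn ?_
    exact normal_of hMW le_rfl (h ▸ inf_le_right)
  · refine (mW.2.2 _ (normal_of hMW (H1.le_normalizer_inf le_normalizer_of_normal
      (H1.le_normalizer_centralizer hMV)) (hWn _ inf_le_left)) inf_le_left).resolve_right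
      fun h => V1 ?_
    haveI := normal_of hMW hMV ((h ▸ inf_le_right :).trans (centralizer_le_normalizer _))
    exact hO _ (P.isPGroup'.to_le fun x hx => hx.1)

end Cfsg.Agent.P27
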