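/-
P27: traces on fixed spaces.
-/
import Cfsg.Agent.P27.Defs

set_option autoImplicit false
set_option linter.unusedSectionVars false

namespace Cfsg.Agent.P27

open Subgroup Cfsg Cfsg.Agent Cfsg.Agent.FT Module

universe u

theorem pow_inj {Γ : Type*} [Group Γ] [Finite Γ] {k : ℕ} (hk : k.Coprime (Nat.card Γ)) :
    Function.Injective fun x : Γ => x ^ k := (powCoprime hk.symm).injective

theorem norm_mul_pow {Γ : Type*} [Group Γ] {D : Subgroup Γ} {n d : Γ} (hn : n ∈ 𝐍(D)) (hd : d ∈ D)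
    (k : ℕ) : (n ^ k)⁻¹ * (n * d) ^ k ∈ D := by
  induction k with
  | zero => simp
  | succ k ih =>
    have := (mem_normalizer_iff''.1 hn _).1 ih
    have e : (n ^ (k + 1))⁻¹ * (n * d) ^ (k + 1) = n⁻¹ * ((n ^ k)⁻¹ * (n * d) ^ k) * n * d := by
      rw [pow_succ' n, pow_succ (n * d)]; group
    rw [e]
    exact D.mul_mem this hd

theorem trStmt : TRStmt.{u} := by
  classical
  intro p _ Γ _ _ V _ _ _ ρ hR hp D U hU n hn k hk h1 h2
  have := Fintype.ofFinite D
  have hD : (Nat.card D : ZMod p) ≠ 0 := fun h =>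
    hp (((ZMod.natCast_eq_zero_iff _ _).1 h).trans (card_subgroup_dvd_card D))
  let e : End (ZMod p) V := ∑ d : D, ρ d
  have e1 : ∀ v, e v ∈ U := fun v => (hU _).2 fun d hd => by
    simp only [e, LinearMap.sum_apply, map_sum]
    refine Fintype.sum_equiv (Equiv.mulLeft (⟨d, hd⟩ : D)) _ _ fun x => ?_
    simp [← End.mul_apply]
  have e2 : ∀ v ∈ U, e v = (Nat.card D : ZMod p) • v := fun v hv => by
    simp only [e, LinearMap.sum_apply]
    rw [Finset.sum_congr rfl fun (d : D) _ => (hU v).1 hv d d.2, Finset.sum_const, Finset.card_univ,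
      Nat.card_eq_fintype_card, Nat.cast_smul_eq_nsmul]
  have key : ∀ (m : Γ) (h : ∀ v ∈ U, ρ m v ∈ U), (Nat.card D : ZMod p) *
      LinearMap.trace _ _ ((ρ m).restrict h) = ∑ d : D, LinearMap.trace _ _ (ρ (m * d)) := by
    intro m h
    have a : ∀ v, (ρ m * e) v ∈ U := fun v => h _ (e1 v)
    have b := LinearMap.trace_restrict_eq_of_forall_mem U (ρ m * e) a
    have c : (ρ m * e).restrict (fun x _ => a x) = (Nat.card D : ZMod p) • (ρ m).restrict h := by
      ext v
      simp [LinearMap.restrict_apply, e2 v v.2]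
    rw [c, map_smul, smul_eq_mul] at b
    rw [b, Finset.mul_sum, map_sum]
    simp
  refine mul_left_cancel₀ hD ?_
  rw [key, key]
  let φ : D → D := fun d => ⟨(n ^ k)⁻¹ * (n * d) ^ k, norm_mul_pow hn d.2 k⟩
  have hφ : Function.Bijective φ := Finite.injective_iff_bijective.1 fun a b h =>
    Subtype.ext (mul_left_cancel (pow_inj hk (mul_left_cancel (congrArg Subtype.val h))))
  refine (Fintype.sum_bijective φ hφ _ _ fun d => ?_).symm
  obtain ⟨g, hg⟩ := isConj_iff.1 (hR.card (n * d) hk)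
  simp only [φ, mul_inv_cancel_left]
  rw [← hg, map_mul ρ (g * _), LinearMap.trace_mul_comm, ← map_mul]
  simp

/-- The stabilizer of a vector. -/
def stab {F Γ V : Type*} [Semiring F] [Group Γ] [AddCommMonoid V] [Module F V] (ρ : Γ →* End F V)
    (y : V) : Subgroup Γ where
  carrier := {d | ρ d y = y}
  one_mem' := by simp
  mul_mem' := fun {a b} ha hb => by
    change ρ (a * b) y = y
    rw [map_mul, End.mul_apply, hb, ha]
  inv_mem' := fun {a} ha => by
    change ρ a⁻¹ y = y
    conv_lhs => rw [← show ρ a y = y from ha]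
    rw [← End.mul_apply, ← map_mul, inv_mul_cancel, map_one, End.one_apply]

/-- The fixed space of a subgroup. -/
def fixs {F Γ V : Type*} [Semiring F] [Group Γ] [AddCommMonoid V] [Module F V] (ρ : Γ →* End F V)
    (D : Subgroup Γ) : Submodule F V where
  carrier := {v | ∀ d ∈ D, ρ d v = v}
  zero_mem' := by simp
  add_mem' := fun ha hb d hd => by rw [map_add, ha d hd, hb d hd]
  smul_mem' := fun c v hv d hd => by rw [map_smul, hv d hd]

theorem inv_app {F Γ V : Type*} [Semiring F] [Group Γ] [AddCommMonoid V] [Module F V]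
    (ρ : Γ →* End F V) (g : Γ) (v : V) : ρ g⁻¹ (ρ g v) = v := by
  rw [← End.mul_apply, ← map_mul, inv_mul_cancel, map_one, End.one_apply]

theorem fixs_norm {F Γ V : Type*} [Semiring F] [Group Γ] [AddCommMonoid V] [Module F V]
    (ρ : Γ →* End F V) {D : Subgroup Γ} {n : Γ} (hn : n ∈ 𝐍(D)) :
    ∀ v ∈ fixs ρ D, ρ n v ∈ fixs ρ D := fun v hv d hd => by
  have := hv _ ((mem_normalizer_iff''.1 hn d).1 hd)
  conv_rhs => rw [← this]
  simp only [← End.mul_apply, ← map_mul]
  congr 2; group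

theorem d1Stmt (TR : TRStmt.{u}) : D1Stmt.{u} := by
  intro p _ Γ _ _ V _ _ _ ρ hR hp y g c y0 hg hc
  by_contra h
  push Not at h
  have c0 : c ≠ 0 := fun h0 => y0 (by rw [← inv_app ρ g y, hg, h0, zero_smul, map_zero])
  have hg' : ρ g⁻¹ y = c⁻¹ • y := by
    have := inv_app ρ g y
    rw [hg, map_smul] at this
    conv_rhs => rw [← this]
    rw [smul_smul, inv_mul_cancel₀ c0, one_smul]
  have hn : g ∈ 𝐍(stab ρ y) := mem_normalizer_fintype fun d hd => by
    change ρ _ y = y
    rw [map_mul, map_mul, End.mul_apply, End.mul_apply, hg', map_smul, show ρ d y = y from hd,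
      map_smul, hg, smul_smul, inv_mul_cancel₀ c0, one_smul]
  have hpos : 0 < Nat.card Γ := Nat.card_pos
  have ek : g ^ (Nat.card Γ - 1) = g⁻¹ := eq_inv_of_mul_eq_one_left (by
    rw [← pow_succ, Nat.sub_add_cancel hpos, pow_card_eq_one'])
  have t := TR p Γ V ρ hR hp (stab ρ y) (fixs ρ (stab ρ y)) (fun v => Iff.rfl) g hn
    (Nat.card Γ - 1) (by
      obtain ⟨m, hm⟩ := Nat.exists_eq_succ_of_ne_zero hpos.ne'
      rw [hm]; simp) (fixs_norm ρ hn) (fixs_norm ρ (pow_mem hn _))
  have hU : fixs ρ (stab ρ y) = Submodule.span (ZMod p) {y} := le_antisymm (fun v hv => by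
    obtain ⟨a, rfl⟩ := h v hv
    exact Submodule.smul_mem _ _ (Submodule.mem_span_singleton_self y))
    ((Submodule.span_singleton_le_iff_mem _ _).2 fun d hd => hd)
  have hf : finrank (ZMod p) (fixs ρ (stab ρ y)) = 1 := by rw [hU, finrank_span_singleton y0]
  have sc : ∀ (m : Γ) (a : ZMod p) (hm : ∀ v ∈ fixs ρ (stab ρ y), ρ m v ∈ fixs ρ (stab ρ y)),
      ρ m y = a • y → LinearMap.trace _ _ ((ρ m).restrict hm) = a := fun m a hm e => by
    have : (ρ m).restrict hm = a • LinearMap.id := by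
      ext v
      obtain ⟨b, hb⟩ := h v v.2
      simp [LinearMap.restrict_apply, hb, e, smul_smul, mul_comm]
    rw [this, map_smul, LinearMap.trace_id, hf]; simp
  rw [sc _ c⁻¹ _ (by rw [ek, hg']), sc _ c _ hg] at t
  exact hc (by rw [sq]; nth_rewrite 1 [← t]; exact inv_mul_cancel₀ c0)

end Cfsg.Agent.P27
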