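/-
P27: the action of `C(w)` on the fixed vectors of `w`.
-/
import Cfsg.Agent.P27.TR

set_option autoImplicit false
set_option linter.unusedSectionVars false

namespace Cfsg.Agent.P27

open Subgroup Cfsg Cfsg.Agent Cfsg.Agent.FT Module

universe u

/-- An element of `3`-power order lifts to an element of `3`-power order. -/
theorem lift_pow {N H : Type*} [Group N] [Finite N] [Group H] (f : N →* H) {r : ℕ} (hr : r.Prime)
    (x : N) (hx : f x ^ r = 1) : ∃ b : N, f b = f x ∧ ∃ j, b ^ r ^ j = 1 := by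
  obtain ⟨j, m, hm, e⟩ := Nat.exists_eq_pow_mul_and_not_dvd (orderOf_pos x).ne' r hr.ne_one
  obtain ⟨k, k1, k2⟩ := Nat.chineseRemainder ((hr.coprime_iff_not_dvd.2 hm)) 1 0
  obtain ⟨l, rfl⟩ := (Nat.modEq_zero_iff_dvd.1 k2)
  refine ⟨x ^ (m * l), ?_, j, ?_⟩
  · rw [map_pow, pow_eq_pow_iff_modEq.2 (k1.of_dvd (orderOf_dvd_of_pow_eq_one hx)), pow_one]
  · rw [← pow_mul, ← orderOf_dvd_iff_pow_eq_one, e]
    exact ⟨l, by ring⟩

theorem cop_six {k n : ℕ} (hk : k.Coprime 6) (h : ∀ s : ℕ, s.Prime → s ∣ n → s ≤ 3) :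
    k.Coprime n := Nat.coprime_of_dvd fun s hs h1 h2 => by
  have h3 := h s hs h2
  have h4 : s ∣ 6 := by
    have := hs.two_le
    interval_cases s <;> norm_num
  exact hs.one_lt.ne' (Nat.eq_one_of_dvd_coprimes hk h1 h4)

theorem regStmt (TR : TRStmt.{u}) (Lin : LinStmt.{u}) : RegStmt.{u} := by
  classical
  intro p _ p5 Γ _ _ V _ _ _ ρ hR h23 A w wA Aw hv ah
  have hp : ¬ p ∣ Nat.card Γ := fun h => by have := h23 p Fact.out h; omega
  have hc : ∀ u : V, Nat.card {a : A // ρ a u = u} = 𝐨(A ⊓ stab ρ u) := fun u =>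
    Nat.card_congr ⟨fun a => ⟨a.1, a.1.2, a.2⟩, fun a => ⟨⟨a.1, a.2.1⟩, a.2.2⟩, fun _ => rfl,
      fun _ => rfl⟩
  obtain ⟨u, ⟨u0, wu⟩, hmax⟩ := Set.exists_max_image {v : V | v ≠ 0 ∧ ρ w v = v}
    (fun v => 𝐨(A ⊓ stab ρ v)) (Set.toFinite _) hv
  set D := A ⊓ stab ρ u with hD
  have wD : w ∈ D := ⟨wA, wu⟩
  set U := fixs ρ D with hU
  have uU : u ∈ U := fun d hd => hd.2
  have st : ∀ v ∈ U, v ≠ 0 → A ⊓ stab ρ v = D := fun v hv v0 =>
    (eq_of_le_of_card_ge (H := D) (fun d hd => mem_inf.2 ⟨hd.1, hv d hd⟩)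
      (hmax v ⟨v0, hv w wD⟩)).symm
  set N := A ⊓ 𝐍(D) with hN
  have DN : D ≤ N := le_inf inf_le_left le_normalizer
  have nU : ∀ n : N, ∀ v ∈ U, ρ n v ∈ U := fun n => fixs_norm ρ n.2.2
  let σ0 : N →* End (ZMod p) U :=
    { toFun := fun n => (ρ n).restrict (nU n)
      map_one' := by ext v; simp [LinearMap.restrict_apply]
      map_mul' := fun a b => by ext v; simp [LinearMap.restrict_apply] }
  have hσ0 : ∀ (n : N) (v : U), (σ0 n v : V) = ρ n v := fun _ _ => rfl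
  have kD : ∀ n : N, n ∈ σ0.ker ↔ (n : Γ) ∈ D := fun n => by
    refine ⟨fun h => ⟨n.2.1, ?_⟩, fun h => LinearMap.ext fun v => Subtype.ext (v.2 _ h)⟩
    exact congrArg Subtype.val (LinearMap.congr_fun (MonoidHom.mem_ker.1 h) ⟨u, uU⟩)
  let σ : N ⧸ σ0.ker →* End (ZMod p) U := QuotientGroup.lift _ σ0 fun _ h => h
  have : Nontrivial U := ⟨⟨⟨u, uU⟩, 0, fun h => u0 (congrArg Subtype.val h)⟩⟩
  have tr : ∀ v v' : V, v ∈ U → v' ∈ U → v ≠ 0 → v' ≠ 0 → ∃ n ∈ N, ρ n v = v' := by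
    intro v v' h1 h2 v0 v0'
    obtain ⟨a, aA, ha⟩ := ah v v' v0 v0' (h1 w wD) (h2 w wD) (by rw [hc, hc, st v h1 v0, st v' h2 v0'])
    refine ⟨a, ⟨aA, mem_normalizer_fintype fun d hd => ?_⟩, ha⟩
    change a * d * a⁻¹ ∈ D
    rw [← st v' h2 v0']
    refine ⟨A.mul_mem (A.mul_mem aA hd.1) (A.inv_mem aA), ?_⟩
    change ρ _ v' = v'
    rw [← ha, map_mul, map_mul, End.mul_apply, End.mul_apply, inv_app, h1 d hd]
  obtain ⟨e5, e25, b, b3, b6, bn⟩ := Lin p p5 (N ⧸ σ0.ker) U σ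
    (fun s hs h => h23 s hs ((h.trans (card_quotient_dvd_card _)).trans (card_subgroup_dvd_card N)))
    (fun v v' v0 v0' => by
      obtain ⟨n, hn, e⟩ := tr v v' v.2 v'.2 (by simpa using v0) (by simpa using v0')
      exact ⟨(⟨n, hn⟩ : N), Subtype.ext e⟩)
    (fun n v v0 e => by
      obtain ⟨n, rfl⟩ := QuotientGroup.mk_surjective n
      refine (QuotientGroup.eq_one_iff _).2 ((kD n).2 ?_)
      rw [← st v v.2 (by simpa using v0)]
      exact ⟨n.2.1, congrArg Subtype.val e⟩)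
    (fun n k hk => by
      obtain ⟨n, rfl⟩ := QuotientGroup.mk_surjective n
      exact TR p Γ V ρ hR hp D U (fun _ => Iff.rfl) n n.2.2 k (cop_six hk h23) (nU n) (nU (n ^ k)))
  obtain ⟨x, rfl⟩ := QuotientGroup.mk_surjective b
  obtain ⟨b, hb, j, hj⟩ := lift_pow (QuotientGroup.mk' σ0.ker) Nat.prime_three x
    (by rw [← b3]; exact pow_orderOf_eq_one _)
  change QuotientGroup.mk' σ0.ker b = (x : N ⧸ σ0.ker) at hb
  rw [← hb] at b3 b6 bn
  have hj' : (b : Γ) ^ 3 ^ j = 1 := congrArg Subtype.val hj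
  let ι : U → {v : V // ρ w v = v} := fun v => ⟨v, v.2 w wD⟩
  have hι : Function.Injective ι := fun a b h => Subtype.ext (congrArg (fun x => x.1) h)
  refine ⟨e5, e25 ▸ Nat.card_le_card_of_injective ι hι, ⟨b, fun h => ?_, ⟨j, hj'⟩, ?_⟩,
    fun h25 => ⟨b, b.2.1, ⟨j, hj'⟩, fun g gA hg => bn ?_⟩⟩
  · rw [show b = 1 from Subtype.ext h, map_one, orderOf_one] at b3
    omega
  · refine (b6.trans (H3.card_centralizer_quot_le _ b)).trans ?_
    refine Nat.card_le_card_of_injective (fun c => ⟨c.1, mem_centralizer_singleton_iff.2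
      (congrArg Subtype.val (mem_centralizer_singleton_iff.1 c.2))⟩) fun a b h => ?_
    exact Subtype.ext (Subtype.ext (congrArg (fun x => x.1) h))
  · have hs := (Nat.bijective_iff_injective_and_card ι).2 ⟨hι, by rw [e25, h25]⟩
    have gN : g ∈ N := ⟨gA, mem_normalizer_fintype fun d hd => by
      refine ⟨A.mul_mem (A.mul_mem gA hd.1) (A.inv_mem gA), ?_⟩
      obtain ⟨v, hv⟩ := hs.2 ⟨ρ g⁻¹ u, by
        rw [← End.mul_apply, ← map_mul, ← mem_centralizer_singleton_iff.1 (Aw (A.inv_mem gA)),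
          map_mul, End.mul_apply, wu]⟩
      have hv' : (v : V) = ρ g⁻¹ u := congrArg Subtype.val hv
      change ρ _ u = u
      rw [map_mul, map_mul, End.mul_apply, End.mul_apply, ← hv', v.2 d hd, hv',
        ← End.mul_apply, ← map_mul, mul_inv_cancel, map_one, End.one_apply]⟩
    rw [← map_inv]
    exact (QuotientGroup.mk' σ0.ker).map_isConj (isConj_iff.2 ⟨⟨g, gN⟩, Subtype.ext hg⟩)

end Cfsg.Agent.P27
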